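import Cfsg.Agent.Lib.Char.Complete
import Cfsg.Agent.Lib.Char.Eigen
import Mathlib

/-!
# The span of the characters over the algebraic integers

`InAlgSpan f` says that `f` is a linear combination of characters with algebraic integer
coefficients.  Such a function has integral inner products with characters.  The basic source of
such functions is `inAlgSpan_trace`: if `T` commutes with a representation `ρ` and has integral
eigenvalues, then `g ↦ tr (T ρ g)` is in the span.
-/

set_option autoImplicit false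

namespace Cfsg.Agent.Lib.Char.AlgSpan

open Cfsg Module
open Cfsg.Agent.Lib.Char.Basic Cfsg.Agent.Lib.Char.Ortho
open scoped ComplexConjugate

universe u v

variable {G : Type u} [Group G]

/-- Linear combinations of characters with algebraic integer coefficients. -/
inductive InAlgSpan : (G → ℂ) → Prop
  | char (χ : G → ℂ) (hχ : IsCharacter G χ) : InAlgSpan χ
  | add (f f' : G → ℂ) (hf : InAlgSpan f) (hf' : InAlgSpan f') : InAlgSpan (fun g => f g + f' g)
  | smul (a : ℂ) (ha : IsIntegral ℤ a) (f : G → ℂ) (hf : InAlgSpan f) :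
      InAlgSpan (fun g => a * f g)

theorem InAlgSpan.zero : InAlgSpan (fun _ : G => (0 : ℂ)) := by
  have h := InAlgSpan.char (G := G) _ isCharacter_one
  have h2 := InAlgSpan.smul 0 isIntegral_zero _ h
  simpa using h2

theorem InAlgSpan.congr {f f' : G → ℂ} (hf : InAlgSpan f) (h : ∀ g, f' g = f g) : InAlgSpan f' := by
  have : f' = f := funext h
  rwa [this]

theorem InAlgSpan.sum {ι : Type*} (s : Finset ι) (f : ι → G → ℂ)
    (hf : ∀ i ∈ s, InAlgSpan (f i)) : InAlgSpan (fun g => ∑ i ∈ s, f i g) := by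
  classical
  induction s using Finset.induction_on with
  | empty => simpa using InAlgSpan.zero
  | insert i s hi ih =>
    have h := InAlgSpan.add _ _ (hf i (Finset.mem_insert_self _ _))
      (ih fun j hj => hf j (Finset.mem_insert_of_mem hj))
    refine h.congr fun g => ?_
    rw [Finset.sum_insert hi]

/-- Products. -/
theorem InAlgSpan.mul {f f' : G → ℂ} (hf : InAlgSpan f) (hf' : InAlgSpan f') :
    InAlgSpan (fun g => f g * f' g) := by
  induction hf with
  | char χ hχ =>
    induction hf' with
    | char χ' hχ' => exact InAlgSpan.char _ (isCharacter_mul hχ hχ')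
    | add f₁ f₂ _ _ h₁ h₂ =>
      refine (InAlgSpan.add _ _ h₁ h₂).congr fun g => ?_
      ring
    | smul a ha f₁ _ h₁ =>
      refine (InAlgSpan.smul a ha _ h₁).congr fun g => ?_
      ring
  | add f₁ f₂ _ _ h₁ h₂ =>
    refine (InAlgSpan.add _ _ h₁ h₂).congr fun g => ?_
    ring
  | smul a ha f₁ _ h₁ =>
    refine (InAlgSpan.smul a ha _ h₁).congr fun g => ?_
    ring

/-- Pull back along a homomorphism. -/
theorem InAlgSpan.comp {H : Type*} [Group H] (ι : H →* G) {f : G → ℂ} (hf : InAlgSpan f) :
    InAlgSpan (fun h => f (ι h)) := by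
  induction hf with
  | char χ hχ => exact InAlgSpan.char _ (isCharacter_comp ι hχ)
  | add f₁ f₂ _ _ h₁ h₂ => exact InAlgSpan.add _ _ h₁ h₂
  | smul a ha f₁ _ h₁ => exact InAlgSpan.smul a ha _ h₁

/-- Powers of a character. -/
theorem InAlgSpan.pow {f : G → ℂ} (hf : InAlgSpan f) (n : ℕ) : InAlgSpan (fun g => f g ^ n) := by
  induction n with
  | zero => simpa using InAlgSpan.char (G := G) _ isCharacter_one
  | succ n ih =>
    refine (ih.mul hf).congr fun g => ?_
    rw [pow_succ]

section Finite

variable [Fintype G]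

/-- Values. -/
theorem InAlgSpan.isIntegral {f : G → ℂ} (hf : InAlgSpan f) (g : G) : IsIntegral ℤ (f g) := by
  induction hf with
  | char χ hχ =>
    obtain ⟨n, ρ, rfl⟩ := hχ
    exact Cfsg.Agent.Lib.Char.Eigen.character_isIntegral ρ g
  | add f₁ f₂ _ _ h₁ h₂ => exact h₁.add h₂
  | smul a ha f₁ _ h₁ => exact ha.mul h₁

/-- The mean value is integral. -/
theorem InAlgSpan.isIntegral_classInner_one {f : G → ℂ} (hf : InAlgSpan f) :
    IsIntegral ℤ (classInner f (fun _ => 1)) := by
  induction hf with
  | char χ hχ =>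
    obtain ⟨n, hn⟩ := exists_nat_classInner hχ (isCharacter_one (G := G))
    rw [hn]
    exact_mod_cast (isIntegral_algebraMap (R := ℤ) (A := ℂ) (x := (n : ℤ)))
  | add f₁ f₂ _ _ h₁ h₂ =>
    have : classInner (fun g => f₁ g + f₂ g) (fun _ : G => (1 : ℂ)) =
        classInner f₁ (fun _ => 1) + classInner f₂ (fun _ => 1) := classInner_add_left _ _ _
    rw [this]
    exact h₁.add h₂
  | smul a ha f₁ _ h₁ =>
    have : classInner (fun g => a * f₁ g) (fun _ : G => (1 : ℂ)) =
        a * classInner f₁ (fun _ => 1) := classInner_smul_left _ _ _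
    rw [this]
    exact ha.mul h₁

/-- Integrality of inner products with characters. -/
theorem InAlgSpan.isIntegral_classInner {f : G → ℂ} (hf : InAlgSpan f) {ξ : G → ℂ}
    (hξ : IsCharacter G ξ) : IsIntegral ℤ (classInner f ξ) := by
  induction hf with
  | char χ hχ =>
    obtain ⟨n, hn⟩ := exists_nat_classInner hχ hξ
    rw [hn]
    exact_mod_cast (isIntegral_algebraMap (R := ℤ) (A := ℂ) (x := (n : ℤ)))
  | add f₁ f₂ _ _ h₁ h₂ =>
    have : classInner (fun g => f₁ g + f₂ g) ξ = classInner f₁ ξ + classInner f₂ ξ :=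
      classInner_add_left _ _ _
    rw [this]
    exact h₁.add h₂
  | smul a ha f₁ _ h₁ =>
    have : classInner (fun g => a * f₁ g) ξ = a * classInner f₁ ξ := classInner_smul_left _ _ _
    rw [this]
    exact ha.mul h₁

end Finite

section Trace

variable {V : Type v} [AddCommGroup V] [Module ℂ V]

/-- The subrepresentation on a generalized eigenspace of a commuting endomorphism. -/
noncomputable def genRep (ρ : Representation ℂ G V) (T : End ℂ V) (hT : ∀ g, Commute T (ρ g)) (μ : ℂ) :
    Representation ℂ G (T.maxGenEigenspace μ) where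
  toFun g := (ρ g).restrict (T.mapsTo_maxGenEigenspace_of_comm (hT g) μ)
  map_one' := by
    ext v
    simp
  map_mul' a b := by
    ext v
    simp
    rfl

theorem genRep_coe (ρ : Representation ℂ G V) (T : End ℂ V) (hT : ∀ g, Commute T (ρ g)) (μ : ℂ)
    (g : G) (v : T.maxGenEigenspace μ) : ((genRep ρ T hT μ g v : T.maxGenEigenspace μ) : V) = ρ g v :=
  rfl

/-- The basic source of elements of the span. -/
theorem inAlgSpan_trace [FiniteDimensional ℂ V] (ρ : Representation ℂ G V) (T : End ℂ V) (hT : ∀ g, Commute T (ρ g))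
    (hint : ∀ μ, T.HasEigenvalue μ → IsIntegral ℤ μ) :
    InAlgSpan (fun g => LinearMap.trace ℂ V (T ∘ₗ ρ g)) := by
  classical
  have hds := DirectSum.isInternal_submodule_of_iSupIndep_of_iSup_eq_top
      T.independent_maxGenEigenspace (Module.End.iSup_maxGenEigenspace_eq_top T)
  have h_fin : {μ | T.maxGenEigenspace μ ≠ ⊥}.Finite :=
    WellFoundedGT.finite_ne_bot_of_iSupIndep T.independent_maxGenEigenspace
  have hmaps : ∀ (g : G) (μ : ℂ), Set.MapsTo (T ∘ₗ ρ g) (T.maxGenEigenspace μ) (T.maxGenEigenspace μ) :=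
    fun g μ => (T.mapsTo_maxGenEigenspace_of_comm (Commute.refl _) μ).comp
      (T.mapsTo_maxGenEigenspace_of_comm (hT g) μ)
  have key : ∀ g : G, LinearMap.trace ℂ V (T ∘ₗ ρ g) =
      ∑ μ ∈ h_fin.toFinset, μ * (genRep ρ T hT μ).character g := by
    intro g
    rw [LinearMap.trace_eq_sum_trace_restrict' hds h_fin (hmaps g)]
    refine Finset.sum_congr rfl fun μ _ => ?_
    have hc : Commute ((ρ g).restrict (T.mapsTo_maxGenEigenspace_of_comm (hT g) μ))
        (T.restrict (T.mapsTo_maxGenEigenspace_of_comm (Commute.refl T) μ)) :=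
      LinearMap.restrict_commute (hT g).symm _ _
    have hn := T.isNilpotent_restrict_maxGenEigenspace_sub_algebraMap μ
    have hcomm : (T ∘ₗ ρ g).restrict (hmaps g μ) =
        ((ρ g).restrict (T.mapsTo_maxGenEigenspace_of_comm (hT g) μ)) ∘ₗ
          (T.restrict (T.mapsTo_maxGenEigenspace_of_comm (Commute.refl T) μ)) := by
      refine LinearMap.ext fun v => Subtype.ext ?_
      exact LinearMap.congr_fun (hT g).eq (v : V)
    rw [hcomm, LinearMap.trace_comp_eq_mul_of_commute_of_isNilpotent μ hc hn]
    rfl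
  refine InAlgSpan.congr ?_ key
  refine InAlgSpan.sum _ _ fun μ hμ => InAlgSpan.smul μ (hint μ ?_) _
    (InAlgSpan.char _ (isCharacter_of_rep _))
  have hne : T.maxGenEigenspace μ ≠ ⊥ := by simpa using hμ
  rw [Module.End.maxGenEigenspace_eq] at hne
  exact Module.End.hasEigenvalue_of_hasGenEigenvalue (k := Module.End.maxGenEigenspaceIndex T μ)
    (by
      simpa [Module.End.HasUnifEigenvalue] using hne)

omit [AddCommGroup V] [Module ℂ V] in
/-- Eigenvalues of matrices with integral entries are integral. -/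
theorem isIntegral_of_hasEigenvalue_toLin' {n : Type*} [Fintype n] [DecidableEq n] (M : Matrix n n ℂ)
    (hM : ∀ i j, IsIntegral ℤ (M i j)) (μ : ℂ) (h : Module.End.HasEigenvalue (Matrix.toLin' M) μ) :
    IsIntegral ℤ μ := by
  let R := integralClosure ℤ ℂ
  let N : Matrix n n R := fun i j => ⟨M i j, hM i j⟩
  have hN : N.map (algebraMap R ℂ) = M := by
    ext i j
    rfl
  have hroot : (LinearMap.charpoly (Matrix.toLin' M)).IsRoot μ :=
    Module.End.hasEigenvalue_iff_isRoot_charpoly _ _ |>.mp h
  rw [Matrix.charpoly_toLin', ← hN, Matrix.charpoly_map] at hroot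
  have h1 : IsIntegral R μ := by
    refine ⟨N.charpoly, Matrix.charpoly_monic N, ?_⟩
    rw [Polynomial.IsRoot.def, Polynomial.eval_map] at hroot
    exact hroot
  exact isIntegral_trans (R := ℤ) (A := R) μ h1

/-- Eigenvalues of endomorphisms of finite order are integral. -/
theorem isIntegral_of_hasEigenvalue_of_pow_eq_one (T : End ℂ V) {n : ℕ} (hn : n ≠ 0) (hT : T ^ n = 1)
    (μ : ℂ) (h : T.HasEigenvalue μ) : IsIntegral ℤ μ := by
  obtain ⟨v, hv⟩ := h.exists_hasEigenvector
  have h1 := hv.pow_apply n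
  rw [hT, Module.End.one_apply] at h1
  have h2 : (μ ^ n - 1) • v = 0 := by
    rw [sub_smul, ← h1, one_smul, sub_self]
  have h3 : μ ^ n - 1 = 0 := (smul_eq_zero.mp h2).resolve_right hv.2
  exact IsIntegral.of_pow (Nat.pos_of_ne_zero hn) (by rw [sub_eq_zero.mp h3]; exact isIntegral_one)

end Trace

end Cfsg.Agent.Lib.Char.AlgSpan
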