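import Cfsg.Agent.Lib.Char.Clifford
import Cfsg.Agent.Lib.Char.Linear
import Mathlib.GroupTheory.GroupAction.MultipleTransitivity
import Mathlib.GroupTheory.Perm.Cycle.PossibleTypes
import Mathlib.GroupTheory.SpecificGroups.Alternating.MaximalSubgroups

/-!
# The irreducible characters `(n-2,2)` and `(n-2,1,1)` of `S_n` and `A_n`

Via the moments of the number of fixed points `F` and the number `T` of points in `2`-cycles
for a `4`-transitive group, with the functions `(F² - 3F + T) / 2` and `(F² - 3F + 2 - T) / 2`.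
-/

set_option autoImplicit false
set_option linter.unusedSimpArgs false
set_option linter.style.haveILetI false
set_option linter.unusedVariables false
set_option linter.unusedSectionVars false
set_option linter.style.multiGoal false
set_option linter.style.longLine false

namespace Cfsg.Agent.Lib.Char.AltTwo

open Cfsg Finset
open scoped ComplexConjugate

section Burnside

variable {G : Type*} [Group G] [Fintype G]

theorem burnside_y {Ω : Type*} [Fintype Ω] [Nonempty Ω] [DecidableEq Ω] [MulAction G Ω]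
    [MulAction.IsPretransitive G Ω] (y : Ω → Ω) :
    ∑ g : G, (univ.filter (fun ω : Ω => g • ω = y ω)).card = Fintype.card G := by
  classical
  have h1 : ∀ ω : Ω, (univ.filter (fun g : G => g • ω = y ω)).card * Fintype.card Ω =
      Fintype.card G := by
    intro ω
    obtain ⟨g₀, hg₀⟩ := MulAction.exists_smul_eq G ω (y ω)
    have h2 : (univ.filter (fun g : G => g • ω = y ω)).card =
        Fintype.card (MulAction.stabilizer G ω) := by
      rw [← Fintype.card_subtype]
      refine Fintype.card_congr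
        { toFun := fun a => ⟨g₀⁻¹ * a.1, ?_⟩
          invFun := fun s => ⟨g₀ * s.1, ?_⟩
          left_inv := ?_
          right_inv := ?_ }
      · rw [MulAction.mem_stabilizer_iff, mul_smul, a.2, ← hg₀, inv_smul_smul]
      · rw [mul_smul, MulAction.mem_stabilizer_iff.mp s.2, hg₀]
      · intro a; simp
      · intro s; simp
    have h3 := MulAction.card_orbit_mul_card_stabilizer_eq_card_group G ω
    have h6 : Fintype.card (MulAction.orbit G ω) = Fintype.card Ω := by
      rw [Fintype.card_eq_nat_card, Fintype.card_eq_nat_card, MulAction.orbit_eq_univ,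
        Nat.card_coe_set_eq, Set.ncard_univ]
    rw [h6] at h3
    rw [h2, mul_comm]
    exact h3
  have hpos : 0 < Fintype.card Ω := Fintype.card_pos
  have h4 : ∑ g : G, (univ.filter (fun ω : Ω => g • ω = y ω)).card =
      ∑ ω : Ω, (univ.filter (fun g : G => g • ω = y ω)).card := by
    simp only [card_filter]
    exact sum_comm
  rw [h4]
  have h5 : ∀ ω : Ω, (univ.filter (fun g : G => g • ω = y ω)).card =
      Fintype.card G / Fintype.card Ω := fun ω => by
    rw [← h1 ω, Nat.mul_div_cancel _ hpos]
  simp only [h5, sum_const, card_univ, smul_eq_mul]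
  obtain ⟨ω⟩ := ‹Nonempty Ω›
  rw [← h1 ω, Nat.mul_div_cancel _ hpos, mul_comm]

end Burnside

section Counts

variable {G : Type*} [Group G] [Fintype G] {X : Type*} [Fintype X] [DecidableEq X] [MulAction G X]

/-- The fixed points. -/
def fixS (g : G) : Finset X := univ.filter (fun a : X => g • a = a)

/-- The points lying in a `2`-cycle. -/
def swS (g : G) : Finset X := univ.filter (fun a : X => g • g • a = a ∧ g • a ≠ a)

variable (X) in
/-- The number of fixed points. -/
def ff (g : G) : ℕ := (fixS (X := X) g).card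

variable (X) in
/-- The number of points lying in `2`-cycles. -/
def tt (g : G) : ℕ := (swS (X := X) g).card

@[simp] theorem mem_fixS {g : G} {a : X} : a ∈ fixS g ↔ g • a = a := by simp [fixS]

@[simp] theorem mem_swS {g : G} {a : X} : a ∈ swS g ↔ g • g • a = a ∧ g • a ≠ a := by simp [swS]

theorem smul_mem_swS {g : G} {a : X} (h : a ∈ swS g) : g • a ∈ swS g := by
  rw [mem_swS] at h ⊢
  refine ⟨by rw [h.1], ?_⟩
  rw [h.1]
  exact fun h' => h.2 h'.symm

/-- Counting tuples of fixed points. -/
theorem card_fix_emb (k : ℕ) (g : G) :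
    (univ.filter (fun ω : Fin k ↪ X => g • ω = ω)).card = (ff X g).descFactorial k := by
  classical
  have h1 : (ff X g).descFactorial k = Fintype.card (Fin k ↪ fixS (X := X) g) := by
    rw [Fintype.card_embedding_eq]
    simp only [Fintype.card_fin, Fintype.card_coe]
    rfl
  rw [h1, ← Fintype.card_subtype]
  refine Fintype.card_congr
    { toFun := fun ω => ⟨fun i => ⟨ω.1 i, ?_⟩, ?_⟩
      invFun := fun e => ⟨⟨fun i => (e i).1, ?_⟩, ?_⟩
      left_inv := ?_
      right_inv := ?_ }
  · rw [mem_fixS]
    have := DFunLike.congr_fun ω.2 i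
    simpa [Function.Embedding.smul_apply] using this
  · intro i j hij
    exact ω.1.injective (congrArg Subtype.val hij)
  · intro i j hij
    exact e.injective (Subtype.ext hij)
  · apply Function.Embedding.ext
    intro i
    exact mem_fixS.mp (e i).2
  · intro ω
    rfl
  · intro e
    rfl

theorem smul_emb_eq_iff {k : ℕ} (g : G) (ω : Fin k ↪ X) (σ : Equiv.Perm (Fin k)) :
    g • ω = σ.toEmbedding.trans ω ↔ ∀ i, g • ω i = ω (σ i) := by
  constructor
  · intro h i
    have := DFunLike.congr_fun h i
    simpa [Function.Embedding.smul_apply] using this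
  · intro h
    apply Function.Embedding.ext
    intro i
    simpa [Function.Embedding.smul_apply] using h i

/-- Burnside for permutation patterns. -/
theorem sum_pattern {k : ℕ} [MulAction.IsPretransitive G (Fin k ↪ X)] [Nonempty (Fin k ↪ X)]
    (σ : Equiv.Perm (Fin k)) :
    ∑ g : G, (univ.filter (fun ω : Fin k ↪ X => ∀ i, g • ω i = ω (σ i))).card = Fintype.card G := by
  rw [← burnside_y (G := G) (Ω := Fin k ↪ X) (fun ω => σ.toEmbedding.trans ω)]
  refine sum_congr rfl fun g _ => ?_
  congr 1
  ext ω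
  simp only [mem_filter, mem_univ, true_and]
  exact (smul_emb_eq_iff g ω σ).symm

/-- Embedding from a pair. -/
def emb2 (a b : X) (h : a ≠ b) : Fin 2 ↪ X :=
  ⟨![a, b], by
    intro i j hij
    fin_cases i <;> fin_cases j <;> simp_all⟩

/-- Embedding from a triple. -/
def emb3 (a b c : X) (h1 : a ≠ b) (h2 : a ≠ c) (h3 : b ≠ c) : Fin 3 ↪ X :=
  ⟨![a, b, c], by
    intro i j hij
    fin_cases i <;> fin_cases j <;> simp_all⟩

/-- Embedding from a quadruple. -/
def emb4 (a b c d : X) (h1 : a ≠ b) (h2 : a ≠ c) (h3 : a ≠ d) (h4 : b ≠ c) (h5 : b ≠ d)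
    (h6 : c ≠ d) : Fin 4 ↪ X :=
  ⟨![a, b, c, d], by
    intro i j hij
    fin_cases i <;> fin_cases j <;> simp_all⟩

theorem card_sw_two (g : G) :
    (univ.filter (fun ω : Fin 2 ↪ X => ∀ i, g • ω i = ω (Equiv.swap 0 1 i))).card = tt X g := by
  classical
  refine card_bij (fun ω _ => ω 0) ?_ ?_ ?_
  · intro ω hω
    rw [mem_filter] at hω
    have h0 := hω.2 0
    have h1 := hω.2 1
    simp only [Equiv.swap_apply_left, Equiv.swap_apply_right] at h0 h1
    rw [mem_swS, h0, h1]
    refine ⟨rfl, fun h => ?_⟩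
    exact absurd (ω.injective h) (by decide)
  · intro ω hω ω' hω' h
    rw [mem_filter] at hω hω'
    have h0 := hω.2 0
    have h0' := hω'.2 0
    simp only [Equiv.swap_apply_left] at h0 h0'
    apply Function.Embedding.ext
    intro i
    fin_cases i
    · exact h
    · change ω 1 = ω' 1
      rw [← h0, ← h0', show ω 0 = ω' 0 from h]
  · intro a ha
    rw [mem_swS] at ha
    refine ⟨emb2 a (g • a) (fun h => ha.2 h.symm), ?_, rfl⟩
    rw [mem_filter]
    refine ⟨mem_univ _, fun i => ?_⟩
    fin_cases i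
    · change g • a = emb2 a (g • a) _ (Equiv.swap 0 1 0)
      rw [Equiv.swap_apply_left]
      rfl
    · change g • g • a = emb2 a (g • a) _ (Equiv.swap 0 1 1)
      rw [Equiv.swap_apply_right]
      exact ha.1

theorem card_sw_three (g : G) :
    (univ.filter (fun ω : Fin 3 ↪ X => ∀ i, g • ω i = ω (Equiv.swap 0 1 i))).card =
      tt X g * ff X g := by
  classical
  rw [tt, ff, ← card_product]
  refine card_bij (fun ω _ => (ω 0, ω 2)) ?_ ?_ ?_
  · intro ω hω
    rw [mem_filter] at hω
    have h0 := hω.2 0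
    have h1 := hω.2 1
    have h2 := hω.2 2
    rw [Equiv.swap_apply_left] at h0
    rw [Equiv.swap_apply_right] at h1
    rw [Equiv.swap_apply_of_ne_of_ne (by decide) (by decide)] at h2
    rw [mem_product, mem_swS, mem_fixS]
    refine ⟨⟨by rw [h0, h1], fun h => ?_⟩, h2⟩
    rw [h0] at h
    exact absurd (ω.injective h) (by decide)
  · intro ω hω ω' hω' h
    rw [mem_filter] at hω hω'
    have h0 := hω.2 0
    have h0' := hω'.2 0
    rw [Equiv.swap_apply_left] at h0 h0'
    simp only [Prod.mk.injEq] at h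
    apply Function.Embedding.ext
    intro i
    fin_cases i
    · exact h.1
    · change ω 1 = ω' 1
      rw [← h0, ← h0', h.1]
    · exact h.2
  · rintro ⟨a, c⟩ hac
    rw [mem_product, mem_swS, mem_fixS] at hac
    obtain ⟨⟨ha1, ha2⟩, hc⟩ := hac
    simp only at ha1 ha2 hc
    have h2 : a ≠ c := by
      rintro rfl
      exact ha2 hc
    have h3 : g • a ≠ c := by
      intro h
      apply ha2
      have h' : g • g • a = g • a := by rw [h, hc]
      rw [ha1] at h'
      exact h'.symm
    refine ⟨emb3 a (g • a) c (fun h => ha2 h.symm) h2 h3, ?_, rfl⟩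
    rw [mem_filter]
    refine ⟨mem_univ _, fun i => ?_⟩
    have h20 : (Equiv.swap (0 : Fin 3) 1) 2 = 2 :=
      Equiv.swap_apply_of_ne_of_ne (by decide) (by decide)
    fin_cases i
    · change g • a = emb3 a (g • a) c _ _ _ (Equiv.swap 0 1 0)
      rw [Equiv.swap_apply_left]
      rfl
    · change g • g • a = emb3 a (g • a) c _ _ _ (Equiv.swap 0 1 1)
      rw [Equiv.swap_apply_right]
      exact ha1
    · change g • c = emb3 a (g • a) c _ _ _ (Equiv.swap 0 1 2)
      rw [h20]
      exact hc

theorem card_sw_four (g : G) :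
    (univ.filter (fun ω : Fin 4 ↪ X => ∀ i, g • ω i = ω (Equiv.swap 0 1 i))).card =
      tt X g * (fixS (X := X) g).offDiag.card := by
  classical
  rw [tt, ← card_product]
  refine card_bij (fun ω _ => (ω 0, (ω 2, ω 3))) ?_ ?_ ?_
  · intro ω hω
    rw [mem_filter] at hω
    have h0 := hω.2 0
    have h1 := hω.2 1
    have h2 := hω.2 2
    have h3 := hω.2 3
    rw [Equiv.swap_apply_left] at h0
    rw [Equiv.swap_apply_right] at h1
    rw [Equiv.swap_apply_of_ne_of_ne (by decide) (by decide)] at h2 h3
    rw [mem_product, mem_swS, mem_offDiag, mem_fixS, mem_fixS]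
    refine ⟨⟨by rw [h0, h1], fun h => ?_⟩, h2, h3, fun h => ?_⟩
    · rw [h0] at h
      exact absurd (ω.injective h) (by decide)
    · exact absurd (ω.injective h) (by decide)
  · intro ω hω ω' hω' h
    rw [mem_filter] at hω hω'
    have h0 := hω.2 0
    have h0' := hω'.2 0
    rw [Equiv.swap_apply_left] at h0 h0'
    simp only [Prod.mk.injEq] at h
    apply Function.Embedding.ext
    intro i
    fin_cases i
    · exact h.1
    · change ω 1 = ω' 1
      rw [← h0, ← h0', h.1]
    · exact h.2.1
    · exact h.2.2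
  · rintro ⟨a, c, d⟩ hac
    rw [mem_product, mem_swS, mem_offDiag, mem_fixS, mem_fixS] at hac
    obtain ⟨⟨ha1, ha2⟩, hc, hd, hcd⟩ := hac
    simp only at ha1 ha2 hc hd hcd
    have hfix : ∀ x : X, g • x = x → a ≠ x ∧ g • a ≠ x := by
      intro x hx
      constructor
      · rintro rfl
        exact ha2 hx
      · intro h
        apply ha2
        have h' : g • g • a = g • a := by rw [h, hx]
        rw [ha1] at h'
        exact h'.symm
    refine ⟨emb4 a (g • a) c d (fun h => ha2 h.symm) (hfix c hc).1 (hfix d hd).1 (hfix c hc).2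
      (hfix d hd).2 hcd, ?_, rfl⟩
    rw [mem_filter]
    refine ⟨mem_univ _, fun i => ?_⟩
    have h2 : (Equiv.swap (0 : Fin 4) 1) 2 = 2 :=
      Equiv.swap_apply_of_ne_of_ne (by decide) (by decide)
    have h3 : (Equiv.swap (0 : Fin 4) 1) 3 = 3 :=
      Equiv.swap_apply_of_ne_of_ne (by decide) (by decide)
    fin_cases i
    · change g • a = emb4 a (g • a) c d _ _ _ _ _ _ (Equiv.swap 0 1 0)
      rw [Equiv.swap_apply_left]
      rfl
    · change g • g • a = emb4 a (g • a) c d _ _ _ _ _ _ (Equiv.swap 0 1 1)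
      rw [Equiv.swap_apply_right]
      exact ha1
    · change g • c = emb4 a (g • a) c d _ _ _ _ _ _ (Equiv.swap 0 1 2)
      rw [h2]
      exact hc
    · change g • d = emb4 a (g • a) c d _ _ _ _ _ _ (Equiv.swap 0 1 3)
      rw [h3]
      exact hd

/-- The double swap pattern. -/
def dswap : Equiv.Perm (Fin 4) := Equiv.swap 0 1 * Equiv.swap 2 3

theorem card_dsw_four (g : G) :
    (univ.filter (fun ω : Fin 4 ↪ X => ∀ i, g • ω i = ω (dswap i))).card =
      ((swS (X := X) g ×ˢ swS (X := X) g).filter (fun p => p.2 ≠ p.1 ∧ p.2 ≠ g • p.1)).card := by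
  classical
  have d0 : dswap 0 = 1 := by decide
  have d1 : dswap 1 = 0 := by decide
  have d2 : dswap 2 = 3 := by decide
  have d3 : dswap 3 = 2 := by decide
  refine card_bij (fun ω _ => (ω 0, ω 2)) ?_ ?_ ?_
  · intro ω hω
    rw [mem_filter] at hω
    have h0 := hω.2 0
    have h1 := hω.2 1
    have h2 := hω.2 2
    have h3 := hω.2 3
    rw [d0] at h0
    rw [d1] at h1
    rw [d2] at h2
    rw [d3] at h3
    rw [mem_filter, mem_product, mem_swS, mem_swS]
    refine ⟨⟨⟨by rw [h0, h1], fun h => ?_⟩, ⟨by rw [h2, h3], fun h => ?_⟩⟩, fun h => ?_, fun h => ?_⟩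
    · rw [h0] at h
      exact absurd (ω.injective h) (by decide)
    · rw [h2] at h
      exact absurd (ω.injective h) (by decide)
    · exact absurd (ω.injective h) (by decide)
    · simp only at h
      rw [h0] at h
      exact absurd (ω.injective h) (by decide)
  · intro ω hω ω' hω' h
    rw [mem_filter] at hω hω'
    have h0 := hω.2 0
    have h0' := hω'.2 0
    have h2 := hω.2 2
    have h2' := hω'.2 2
    rw [d0] at h0 h0'
    rw [d2] at h2 h2'
    simp only [Prod.mk.injEq] at h
    apply Function.Embedding.ext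
    intro i
    fin_cases i
    · exact h.1
    · change ω 1 = ω' 1
      rw [← h0, ← h0', h.1]
    · exact h.2
    · change ω 3 = ω' 3
      rw [← h2, ← h2', h.2]
  · rintro ⟨a, c⟩ hac
    rw [mem_filter, mem_product, mem_swS, mem_swS] at hac
    obtain ⟨⟨⟨ha1, ha2⟩, hc1, hc2⟩, hne1, hne2⟩ := hac
    simp only at ha1 ha2 hc1 hc2 hne1 hne2
    have h3 : a ≠ g • c := by
      intro h
      apply hne2
      rw [h, hc1]
    have h5 : g • a ≠ g • c := fun h => hne1 (MulAction.injective g h).symm
    refine ⟨emb4 a (g • a) c (g • c) (fun h => ha2 h.symm) (fun h => hne1 h.symm) h3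
      (fun h => hne2 h.symm) h5 (fun h => hc2 h.symm), ?_, rfl⟩
    rw [mem_filter]
    refine ⟨mem_univ _, fun i => ?_⟩
    fin_cases i
    · change g • a = emb4 a (g • a) c (g • c) _ _ _ _ _ _ (dswap 0)
      rw [d0]
      rfl
    · change g • g • a = emb4 a (g • a) c (g • c) _ _ _ _ _ _ (dswap 1)
      rw [d1]
      exact ha1
    · change g • c = emb4 a (g • a) c (g • c) _ _ _ _ _ _ (dswap 2)
      rw [d2]
      rfl
    · change g • g • c = emb4 a (g • a) c (g • c) _ _ _ _ _ _ (dswap 3)
      rw [d3]
      exact hc1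

theorem card_pair_split (g : G) :
    ((swS (X := X) g ×ˢ swS (X := X) g).filter (fun p => p.2 ≠ p.1 ∧ p.2 ≠ g • p.1)).card + 2 * tt X g =
      tt X g * tt X g := by
  classical
  have h1 : ((swS (X := X) g ×ˢ swS (X := X) g).filter (fun p => p.2 = p.1)).card = tt X g := by
    refine card_bij (fun p _ => p.1) ?_ ?_ ?_
    · intro p hp
      exact (mem_product.mp (mem_filter.mp hp).1).1
    · intro p hp q hq h
      have hp2 := (mem_filter.mp hp).2
      have hq2 := (mem_filter.mp hq).2
      exact Prod.ext h (by rw [hp2, hq2, h])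
    · intro a ha
      exact ⟨(a, a), mem_filter.mpr ⟨mem_product.mpr ⟨ha, ha⟩, rfl⟩, rfl⟩
  have h2 : ((swS (X := X) g ×ˢ swS (X := X) g).filter (fun p => p.2 = g • p.1)).card = tt X g := by
    refine card_bij (fun p _ => p.1) ?_ ?_ ?_
    · intro p hp
      exact (mem_product.mp (mem_filter.mp hp).1).1
    · intro p hp q hq h
      have hp2 := (mem_filter.mp hp).2
      have hq2 := (mem_filter.mp hq).2
      exact Prod.ext h (by rw [hp2, hq2, h])
    · intro a ha
      exact ⟨(a, g • a), mem_filter.mpr ⟨mem_product.mpr ⟨ha, smul_mem_swS ha⟩, rfl⟩, rfl⟩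
  have h3 : tt X g * tt X g = (swS (X := X) g ×ˢ swS (X := X) g).card := by
    rw [card_product]; rfl
  rw [h3]
  -- partition the product
  have hpart : (swS (X := X) g ×ˢ swS (X := X) g).card =
      ((swS (X := X) g ×ˢ swS (X := X) g).filter (fun p => p.2 = p.1)).card +
      ((swS (X := X) g ×ˢ swS (X := X) g).filter (fun p => ¬ p.2 = p.1)).card :=
    (card_filter_add_card_filter_not _).symm
  have hpart2 : ((swS (X := X) g ×ˢ swS (X := X) g).filter (fun p => ¬ p.2 = p.1)).card =
      ((swS (X := X) g ×ˢ swS (X := X) g).filter (fun p => p.2 = g • p.1)).card +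
      ((swS (X := X) g ×ˢ swS (X := X) g).filter (fun p => p.2 ≠ p.1 ∧ p.2 ≠ g • p.1)).card := by
    rw [← card_filter_add_card_filter_not (s := (swS (X := X) g ×ˢ swS (X := X) g).filter (fun p => ¬ p.2 = p.1)) (fun p => p.2 = g • p.1)]
    congr 1
    · congr 1
      ext p
      simp only [mem_filter, mem_product, mem_swS]
      constructor
      · rintro ⟨⟨h, -⟩, h2⟩
        exact ⟨h, h2⟩
      · rintro ⟨h, h2⟩
        refine ⟨⟨h, ?_⟩, h2⟩
        intro h3
        rw [h3] at h2
        exact h.1.2 h2.symm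
    · congr 1
      ext p
      simp only [mem_filter, mem_product, mem_swS]
      tauto
  rw [hpart, hpart2, h1, h2]
  ring

end Counts

section Moments

variable {G : Type*} [Group G] [Fintype G] {X : Type*} [Fintype X] [DecidableEq X] [MulAction G X]

theorem cast_desc_succ (n k : ℕ) :
    ((n.descFactorial (k + 1) : ℕ) : ℂ) = ((n : ℂ) - k) * (n.descFactorial k : ℕ) := by
  by_cases h : k ≤ n
  · rw [Nat.descFactorial_succ]
    push_cast [Nat.cast_sub h]
    ring
  · have h1 : n.descFactorial k = 0 := Nat.descFactorial_eq_zero_iff_lt.mpr (by omega)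
    have h2 : n.descFactorial (k + 1) = 0 := Nat.descFactorial_eq_zero_iff_lt.mpr (by omega)
    simp [h1]

theorem sum_desc (k : ℕ) [MulAction.IsPretransitive G (Fin k ↪ X)] [Nonempty (Fin k ↪ X)] :
    ∑ g : G, (ff X g).descFactorial k = Fintype.card G := by
  rw [← sum_pattern (G := G) (X := X) (k := k) 1]
  refine sum_congr rfl fun g _ => ?_
  rw [← card_fix_emb k g]
  refine congrArg card (filter_congr fun ω _ => ?_)
  simp only [Equiv.Perm.coe_one, id]
  constructor
  · intro h i
    have := DFunLike.congr_fun h i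
    simpa [Function.Embedding.smul_apply] using this
  · intro h
    apply Function.Embedding.ext
    intro i
    simpa [Function.Embedding.smul_apply] using h i

/-- Abbreviation for the number of fixed points, as a complex number. -/
abbrev FF (X : Type*) [Fintype X] [DecidableEq X] [MulAction G X] (g : G) : ℂ := (ff X g : ℂ)

/-- Abbreviation for the number of points in `2`-cycles, as a complex number. -/
abbrev TT (X : Type*) [Fintype X] [DecidableEq X] [MulAction G X] (g : G) : ℂ := (tt X g : ℂ)

variable (hmt : MulAction.IsMultiplyPretransitive G X 4) (hX : 4 ≤ Nat.card X)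

include hmt hX in
theorem pre_k (k : ℕ) (hk : k ≤ 4) : MulAction.IsPretransitive G (Fin k ↪ X) :=
  MulAction.isMultiplyPretransitive_of_le hk hX

include hX in
theorem nonempty_k (k : ℕ) (hk : k ≤ 4) : Nonempty (Fin k ↪ X) := by
  apply Function.Embedding.nonempty_of_card_le
  rw [Fintype.card_fin, ← Nat.card_eq_fintype_card]
  omega

include hmt hX in
theorem moment_all :
    (∑ g : G, FF X g = Fintype.card G) ∧
    (∑ g : G, FF X g ^ 2 = 2 * Fintype.card G) ∧
    (∑ g : G, FF X g ^ 3 = 5 * Fintype.card G) ∧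
    (∑ g : G, FF X g ^ 4 = 15 * Fintype.card G) ∧
    (∑ g : G, TT X g = Fintype.card G) ∧
    (∑ g : G, FF X g * TT X g = Fintype.card G) ∧
    (∑ g : G, FF X g ^ 2 * TT X g = 2 * Fintype.card G) ∧
    (∑ g : G, TT X g ^ 2 = 3 * Fintype.card G) := by
  classical
  have i1 := pre_k (G := G) hmt hX 1 (by norm_num)
  have i2 := pre_k (G := G) hmt hX 2 (by norm_num)
  have i3 := pre_k (G := G) hmt hX 3 (by norm_num)
  have i4 := pre_k (G := G) hmt hX 4 (by norm_num)
  have n1 := nonempty_k (X := X) hX 1 (by norm_num)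
  have n2 := nonempty_k (X := X) hX 2 (by norm_num)
  have n3 := nonempty_k (X := X) hX 3 (by norm_num)
  have n4 := nonempty_k (X := X) hX 4 (by norm_num)
  have D1 : ∀ n : ℕ, ((n.descFactorial 1 : ℕ) : ℂ) = n := by
    intro n
    rw [cast_desc_succ]
    simp
  have D2 : ∀ n : ℕ, ((n.descFactorial 2 : ℕ) : ℂ) = (n : ℂ) * (n - 1) := by
    intro n
    rw [cast_desc_succ, D1]
    push_cast
    ring
  have D3 : ∀ n : ℕ, ((n.descFactorial 3 : ℕ) : ℂ) = (n : ℂ) * (n - 1) * (n - 2) := by
    intro n
    rw [cast_desc_succ, D2]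
    push_cast
    ring
  have D4 : ∀ n : ℕ, ((n.descFactorial 4 : ℕ) : ℂ) = (n : ℂ) * (n - 1) * (n - 2) * (n - 3) := by
    intro n
    rw [cast_desc_succ, D3]
    push_cast
    ring
  have H1 : ∑ g : G, FF X g = Fintype.card G := by
    have h := congrArg (fun m : ℕ => (m : ℂ)) (sum_desc (G := G) (X := X) 1)
    simp only [Nat.cast_sum, D1] at h
    exact h
  have H2 : ∑ g : G, FF X g * (FF X g - 1) = Fintype.card G := by
    have h := congrArg (fun m : ℕ => (m : ℂ)) (sum_desc (G := G) (X := X) 2)
    simp only [Nat.cast_sum, D2] at h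
    exact h
  have H3 : ∑ g : G, FF X g * (FF X g - 1) * (FF X g - 2) = Fintype.card G := by
    have h := congrArg (fun m : ℕ => (m : ℂ)) (sum_desc (G := G) (X := X) 3)
    simp only [Nat.cast_sum, D3] at h
    exact h
  have H4 : ∑ g : G, FF X g * (FF X g - 1) * (FF X g - 2) * (FF X g - 3) = Fintype.card G := by
    have h := congrArg (fun m : ℕ => (m : ℂ)) (sum_desc (G := G) (X := X) 4)
    simp only [Nat.cast_sum, D4] at h
    exact h
  have H5 : ∑ g : G, TT X g = Fintype.card G := by
    have h := sum_pattern (G := G) (X := X) (k := 2) (Equiv.swap 0 1)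
    simp only [card_sw_two] at h
    have h' := congrArg (fun m : ℕ => (m : ℂ)) h
    simp only [Nat.cast_sum] at h'
    exact h'
  have H6 : ∑ g : G, TT X g * FF X g = Fintype.card G := by
    have h := sum_pattern (G := G) (X := X) (k := 3) (Equiv.swap 0 1)
    simp only [card_sw_three] at h
    have h' := congrArg (fun m : ℕ => (m : ℂ)) h
    simp only [Nat.cast_sum, Nat.cast_mul] at h'
    exact h'
  have H7 : ∑ g : G, TT X g * (FF X g * (FF X g - 1)) = Fintype.card G := by
    have h := sum_pattern (G := G) (X := X) (k := 4) (Equiv.swap 0 1)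
    simp only [card_sw_four] at h
    have h' := congrArg (fun m : ℕ => (m : ℂ)) h
    simp only [Nat.cast_sum, Nat.cast_mul] at h'
    rw [← h']
    refine sum_congr rfl fun g _ => ?_
    congr 1
    rw [offDiag_card, Nat.cast_sub (Nat.le_mul_self _), Nat.cast_mul]
    simp only [FF, ff]
    ring
  have H8 : ∑ g : G, (TT X g ^ 2 - 2 * TT X g) = (Fintype.card G : ℂ) := by
    have h := sum_pattern (G := G) (X := X) (k := 4) dswap
    simp only [card_dsw_four] at h
    have h' := congrArg (fun m : ℕ => (m : ℂ)) h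
    simp only [Nat.cast_sum] at h'
    rw [← h']
    refine sum_congr rfl fun g _ => ?_
    have h2 := congrArg (fun m : ℕ => (m : ℂ)) (card_pair_split (X := X) g)
    simp only [Nat.cast_add, Nat.cast_mul, Nat.cast_ofNat] at h2
    rw [pow_two, ← h2]
    ring
  have hF2 : ∑ g : G, FF X g ^ 2 = 2 * Fintype.card G := by
    have h : ∀ g : G, FF X g ^ 2 = FF X g * (FF X g - 1) + FF X g := fun g => by ring
    simp only [h, sum_add_distrib, H1, H2]
    ring
  have hF3 : ∑ g : G, FF X g ^ 3 = 5 * Fintype.card G := by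
    have h : ∀ g : G, FF X g ^ 3 = FF X g * (FF X g - 1) * (FF X g - 2) +
        3 * (FF X g * (FF X g - 1)) + FF X g := fun g => by ring
    simp only [h, sum_add_distrib, ← mul_sum, H1, H2, H3]
    ring
  have hF4 : ∑ g : G, FF X g ^ 4 = 15 * Fintype.card G := by
    have h : ∀ g : G, FF X g ^ 4 = FF X g * (FF X g - 1) * (FF X g - 2) * (FF X g - 3) +
        6 * (FF X g * (FF X g - 1) * (FF X g - 2)) +
        7 * (FF X g * (FF X g - 1)) + FF X g := fun g => by ring
    simp only [h, sum_add_distrib, ← mul_sum, H1, H2, H3, H4]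
    ring
  have hFT : ∑ g : G, FF X g * TT X g = Fintype.card G := by
    rw [← H6]
    exact sum_congr rfl fun g _ => by ring
  have hF2T : ∑ g : G, FF X g ^ 2 * TT X g = 2 * Fintype.card G := by
    have h : ∀ g : G, FF X g ^ 2 * TT X g = TT X g * (FF X g * (FF X g - 1)) +
        TT X g * FF X g := fun g => by ring
    simp only [h, sum_add_distrib, H6, H7]
    ring
  have hT2 : ∑ g : G, TT X g ^ 2 = 3 * Fintype.card G := by
    have h : ∀ g : G, TT X g ^ 2 = (TT X g ^ 2 - 2 * TT X g) + 2 * TT X g := fun g => by ring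
    rw [sum_congr rfl (fun g _ => h g), sum_add_distrib, ← mul_sum, H5, H8]
    ring
  exact ⟨H1, hF2, hF3, hF4, H5, hFT, hF2T, hT2⟩

include hmt hX in
theorem inner_poly {a b : G → ℂ} (c₀ c₁ c₂ c₃ c₄ d₁ d₂ d₃ e : ℂ)
    (hab : ∀ g, a g * conj (b g) = c₀ + c₁ * FF X g + c₂ * FF X g ^ 2 + c₃ * FF X g ^ 3 +
      c₄ * FF X g ^ 4 + d₁ * TT X g + d₂ * (FF X g * TT X g) + d₃ * (FF X g ^ 2 * TT X g) +
      e * TT X g ^ 2) :
    classInner a b = c₀ + c₁ + 2 * c₂ + 5 * c₃ + 15 * c₄ + d₁ + d₂ + 2 * d₃ + 3 * e := by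
  obtain ⟨H1, H2, H3, H4, H5, H6, H7, H8⟩ := moment_all (G := G) (X := X) hmt hX
  have hne : (Fintype.card G : ℂ) ≠ 0 := by
    exact_mod_cast Fintype.card_ne_zero
  rw [classInner, Nat.card_eq_fintype_card, sum_congr rfl (fun g _ => hab g)]
  simp only [sum_add_distrib, ← mul_sum, sum_const, card_univ, nsmul_eq_mul]
  rw [H1, H2, H3, H4, H5, H6, H7, H8]
  field_simp

end Moments


section Sym2Action

variable {G : Type*} [Group G] [Fintype G] {X : Type*} [Fintype X] [DecidableEq X] [MulAction G X]

/-- The action on unordered pairs. -/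
@[reducible] def sym2Action : MulAction G (Sym2 X) where
  smul g z := Sym2.map (fun x => g • x) z
  one_smul z := by
    change Sym2.map (fun x => (1 : G) • x) z = z
    simp
  mul_smul a b z := by
    change Sym2.map (fun x => (a * b) • x) z = Sym2.map (fun x => a • x) (Sym2.map (fun x => b • x) z)
    rw [Sym2.map_map]
    congr 1
    funext x
    simp [mul_smul]

theorem sym2_count (g : G) :
    2 * (univ.filter (fun z : Sym2 X => Sym2.map (fun x => g • x) z = z)).card =
      ff X g * ff X g + ff X g + tt X g := by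
  classical
  set S := univ.filter (fun z : Sym2 X => Sym2.map (fun x => g • x) z = z) with hS
  set P := (univ : Finset (X × X)).filter (fun p => s(p.1, p.2) ∈ S) with hP
  -- the preimage
  have hmem : ∀ a b : X, s(a, b) ∈ S ↔ (g • a = a ∧ g • b = b) ∨ (g • a = b ∧ g • b = a) := by
    intro a b
    rw [hS, mem_filter, Sym2.map_mk, Sym2.eq_iff]
    simp
  have hPcard : P.card = ff X g * ff X g + tt X g := by
    have h1 : P = (fixS g ×ˢ fixS g) ∪ (swS g).image (fun a => (a, g • a)) := by
      ext ⟨a, b⟩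
      simp only [hP, mem_filter, mem_univ, true_and, hmem, mem_union, mem_product, mem_fixS,
        mem_image, mem_swS, Prod.mk.injEq]
      constructor
      · rintro (h | ⟨h1, h2⟩)
        · exact Or.inl h
        · by_cases hab : g • a = a
          · left
            refine ⟨hab, ?_⟩
            rw [← h1, hab]
            exact hab
          · right
            refine ⟨a, ⟨?_, hab⟩, rfl, h1⟩
            rw [h1, h2]
      · rintro (h | ⟨c, ⟨h1, h2⟩, rfl, rfl⟩)
        · exact Or.inl h
        · exact Or.inr ⟨rfl, h1⟩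
    have h2 : Disjoint (fixS (X := X) g ×ˢ fixS g) ((swS g).image (fun a => (a, g • a))) := by
      rw [disjoint_left]
      rintro ⟨a, b⟩ h1 h2
      rw [mem_product, mem_fixS, mem_fixS] at h1
      obtain ⟨c, hc, hc2⟩ := mem_image.mp h2
      simp only [Prod.mk.injEq] at hc2
      obtain ⟨rfl, rfl⟩ := hc2
      rw [mem_swS] at hc
      exact hc.2 h1.1
    rw [h1, card_union_of_disjoint h2, card_product, card_image_of_injective]
    · rfl
    · intro a b h
      exact (Prod.mk.inj h).1
  -- the fibres
  have hfib : ∀ z ∈ S, (P.filter (fun p => s(p.1, p.2) = z)).card + (if z.IsDiag then 1 else 0) = 2 := by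
    intro z hz
    induction z using Sym2.ind with
    | _ a b =>
    have hz' : s(a, b) ∈ S := hz
    by_cases hab : a = b
    · subst hab
      have h1 : P.filter (fun p => s(p.1, p.2) = s(a, a)) = {(a, a)} := by
        ext ⟨c, d⟩
        simp only [hP, mem_filter, mem_univ, true_and, Sym2.eq_iff, mem_singleton, Prod.mk.injEq]
        constructor
        · rintro ⟨-, h | h⟩
          · exact h
          · exact ⟨h.1, h.2⟩
        · rintro ⟨rfl, rfl⟩
          exact ⟨hz', Or.inl ⟨rfl, rfl⟩⟩
      rw [h1]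
      simp
    · have h1 : P.filter (fun p => s(p.1, p.2) = s(a, b)) = {(a, b), (b, a)} := by
        ext ⟨c, d⟩
        simp only [hP, mem_filter, mem_univ, true_and, Sym2.eq_iff, mem_insert, mem_singleton,
          Prod.mk.injEq]
        constructor
        · rintro ⟨-, h⟩
          exact h
        · rintro (⟨rfl, rfl⟩ | ⟨rfl, rfl⟩)
          · exact ⟨hz', Or.inl ⟨rfl, rfl⟩⟩
          · refine ⟨?_, Or.inr ⟨rfl, rfl⟩⟩
            rwa [Sym2.eq_swap]
      rw [h1, card_pair (by simp [hab])]
      simp [hab]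
  have hmaps : ∀ p ∈ P, s(p.1, p.2) ∈ S := fun p hp => (mem_filter.mp hp).2
  have hsum := card_eq_sum_card_fiberwise (f := fun p : X × X => s(p.1, p.2)) (s := P) (t := S) hmaps
  have hdiag : (∑ z ∈ S, if z.IsDiag then 1 else 0) = ff X g := by
    rw [← card_filter]
    symm
    refine card_bij (fun a _ => s(a, a)) ?_ ?_ ?_
    · intro a ha
      rw [mem_fixS] at ha
      rw [mem_filter]
      refine ⟨(hmem a a).mpr (Or.inl ⟨ha, ha⟩), ?_⟩
      simp
    · intro a _ b _ h
      simpa using h
    · intro z hz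
      rw [mem_filter] at hz
      obtain ⟨hz1, hz2⟩ := hz
      induction z using Sym2.ind with
      | _ a b =>
      have hab : a = b := hz2
      subst hab
      refine ⟨a, ?_, rfl⟩
      rw [mem_fixS]
      rcases (hmem a a).mp hz1 with h | h
      · exact h.1
      · exact h.1
  have htotal : P.card + ff X g = 2 * S.card := by
    rw [← hdiag, hsum, ← sum_add_distrib, sum_congr rfl hfib]
    simp [mul_comm]
  omega

end Sym2Action

section Chars

variable {G : Type*} [Group G] [Fintype G] {X : Type*} [Fintype X] [DecidableEq X] [MulAction G X]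

open Cfsg.Agent.Lib.Char.Basic Cfsg.Agent.Lib.Char.Ortho Cfsg.Agent.Lib.Char.Complete
open Cfsg.Agent.Lib.Char.Clifford Cfsg.Agent.Lib.Char.Linear

theorem nat_card_fixedBy (g : G) : Nat.card (MulAction.fixedBy X g) = ff X g := by
  rw [Nat.card_eq_fintype_card, Fintype.card_subtype]
  rfl

/-- The permutation character. -/
theorem isCharacter_FF : IsCharacter G (FF (G := G) X) := by
  have h := isCharacter_of_rep (Representation.ofMulAction ℂ G X)
  have h2 : (Representation.ofMulAction ℂ G X).character = FF (G := G) X := by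
    funext g
    rw [character_ofMulAction, nat_card_fixedBy]
  rwa [h2] at h

/-- The function `(F² + F + T) / 2`. -/
noncomputable def sigF (X : Type*) [Fintype X] [DecidableEq X] [MulAction G X] (g : G) : ℂ :=
  (FF X g ^ 2 + FF X g + TT X g) / 2

theorem isCharacter_sigF : IsCharacter G (sigF (G := G) X) := by
  classical
  letI : MulAction G (Sym2 X) := sym2Action
  have h := isCharacter_of_rep (Representation.ofMulAction ℂ G (Sym2 X))
  have h2 : (Representation.ofMulAction ℂ G (Sym2 X)).character = sigF (G := G) X := by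
    funext g
    rw [character_ofMulAction, Nat.card_eq_fintype_card, Fintype.card_subtype]
    have h3 := congrArg (fun m : ℕ => (m : ℂ)) (sym2_count (X := X) g)
    simp only [Nat.cast_mul, Nat.cast_add, Nat.cast_ofNat] at h3
    rw [sigF]
    change ((univ.filter (fun z : Sym2 X => Sym2.map (fun x => g • x) z = z)).card : ℂ) = _
    rw [eq_div_iff (by norm_num), mul_comm, h3]
    ring
  rwa [h2] at h

end Chars

section Irr

variable {G : Type*} [Group G] [Fintype G] {X : Type*} [Fintype X] [DecidableEq X] [MulAction G X]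

open Cfsg.Agent.Lib.Char.Basic Cfsg.Agent.Lib.Char.Ortho Cfsg.Agent.Lib.Char.Complete
open Cfsg.Agent.Lib.Char.Clifford Cfsg.Agent.Lib.Char.Linear

/-- The function `(F² - 3F + T) / 2`, the character `(n-2,2)`. -/
noncomputable def psi2 (X : Type*) [Fintype X] [DecidableEq X] [MulAction G X] (g : G) : ℂ :=
  (FF X g ^ 2 - 3 * FF X g + TT X g) / 2

/-- The function `(F² - 3F + 2 - T) / 2`, the character `(n-2,1,1)`. -/
noncomputable def psi3 (X : Type*) [Fintype X] [DecidableEq X] [MulAction G X] (g : G) : ℂ :=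
  (FF X g ^ 2 - 3 * FF X g + 2 - TT X g) / 2

/-- The function `F - 1`. -/
noncomputable def chi1F (X : Type*) [Fintype X] [DecidableEq X] [MulAction G X] (g : G) : ℂ :=
  FF X g - 1

/-- The principal character. -/
abbrev trivF (G : Type*) : G → ℂ := fun _ => 1

theorem irr_trivF : IsIrrCharacter G (trivF G) := by
  simpa using isIrrCharacter_of_hom (1 : G →* ℂˣ)

variable (hmt : MulAction.IsMultiplyPretransitive G X 4) (hX : 4 ≤ Nat.card X)

include hmt hX

theorem irr_chi1F : IsIrrCharacter G (chi1F (G := G) X) := by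
  rw [isIrrCharacter_iff]
  constructor
  · have h1 : classInner (FF (G := G) X) (trivF G) ≠ 0 := by
      rw [inner_poly (X := X) hmt hX 0 1 0 0 0 0 0 0 0 (fun g => by simp)]
      norm_num
    have h2 := isCharacter_sub_of_classInner_ne_zero (isCharacter_FF (G := G) (X := X)) irr_trivF h1
    exact h2
  · rw [inner_poly (X := X) hmt hX 1 (-2) 1 0 0 0 0 0 0 (fun g => by
      simp only [chi1F, map_sub, map_one, Complex.conj_natCast]
      ring)]
    norm_num

theorem irr_psi2 : IsIrrCharacter G (psi2 (G := G) X) := by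
  have hχ := irr_chi1F (G := G) (X := X) hmt hX
  have h1 : classInner (sigF (G := G) X) (trivF G) ≠ 0 := by
    rw [inner_poly (X := X) hmt hX 0 (1/2) (1/2) 0 0 (1/2) 0 0 0 (fun g => by
      simp only [sigF, map_one]
      ring)]
    norm_num
  have c1 := isCharacter_sub_of_classInner_ne_zero (isCharacter_sigF (G := G) (X := X)) irr_trivF h1
  have h2 : classInner (sigF (G := G) X - trivF G) (trivF G) ≠ 0 := by
    rw [inner_poly (X := X) hmt hX (-1) (1/2) (1/2) 0 0 (1/2) 0 0 0 (fun g => by
      simp only [sigF, map_one, Pi.sub_apply]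
      ring)]
    norm_num
  have c2 := isCharacter_sub_of_classInner_ne_zero c1 irr_trivF h2
  have h3 : classInner (sigF (G := G) X - trivF G - trivF G) (chi1F (G := G) X) ≠ 0 := by
    rw [inner_poly (X := X) hmt hX 2 (-5/2) 0 (1/2) 0 (-1/2) (1/2) 0 0 (fun g => by
      simp only [sigF, chi1F, map_sub, map_one, Complex.conj_natCast, Pi.sub_apply]
      ring)]
    norm_num
  have c3 := isCharacter_sub_of_classInner_ne_zero c2 hχ h3
  have h4 : classInner (sigF (G := G) X - trivF G - trivF G - chi1F (G := G) X)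
      (chi1F (G := G) X) ≠ 0 := by
    rw [inner_poly (X := X) hmt hX 1 (-1/2) (-1) (1/2) 0 (-1/2) (1/2) 0 0 (fun g => by
      simp only [sigF, chi1F, map_sub, map_one, Complex.conj_natCast, Pi.sub_apply]
      ring)]
    norm_num
  have c4 := isCharacter_sub_of_classInner_ne_zero c3 hχ h4
  have heq : sigF (G := G) X - trivF G - trivF G - chi1F (G := G) X - chi1F (G := G) X =
      psi2 (G := G) X := by
    funext g
    simp only [sigF, chi1F, psi2, Pi.sub_apply]
    ring
  rw [heq] at c4
  rw [isIrrCharacter_iff]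
  refine ⟨c4, ?_⟩
  rw [inner_poly (X := X) hmt hX 0 0 (9/4) (-3/2) (1/4) 0 (-3/2) (1/2) (1/4) (fun g => by
    simp only [psi2, map_div₀, map_add, map_sub, map_mul, map_pow, Complex.conj_natCast, map_ofNat]
    ring)]
  norm_num

theorem irr_psi3 : IsIrrCharacter G (psi3 (G := G) X) := by
  have hχ := irr_chi1F (G := G) (X := X) hmt hX
  have hψ := irr_psi2 (G := G) (X := X) hmt hX
  have c0 : IsCharacter G (FF (G := G) X * FF (G := G) X) :=
    isCharacter_mul isCharacter_FF isCharacter_FF
  have h1 : classInner (FF (G := G) X * FF (G := G) X) (trivF G) ≠ 0 := by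
    rw [inner_poly (X := X) hmt hX 0 0 1 0 0 0 0 0 0 (fun g => by
      simp only [Pi.mul_apply, map_one]
      ring)]
    norm_num
  have c1 := isCharacter_sub_of_classInner_ne_zero c0 irr_trivF h1
  have h2 : classInner (FF (G := G) X * FF (G := G) X - trivF G) (trivF G) ≠ 0 := by
    rw [inner_poly (X := X) hmt hX (-1) 0 1 0 0 0 0 0 0 (fun g => by
      simp only [Pi.mul_apply, Pi.sub_apply, map_one]
      ring)]
    norm_num
  have c2 := isCharacter_sub_of_classInner_ne_zero c1 irr_trivF h2
  have h3 : classInner (FF (G := G) X * FF (G := G) X - trivF G - trivF G) (chi1F (G := G) X) ≠ 0 := by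
    rw [inner_poly (X := X) hmt hX 2 (-2) (-1) 1 0 0 0 0 0 (fun g => by
      simp only [chi1F, Pi.mul_apply, Pi.sub_apply, map_sub, map_one, Complex.conj_natCast]
      ring)]
    norm_num
  have c3 := isCharacter_sub_of_classInner_ne_zero c2 hχ h3
  have h4 : classInner (FF (G := G) X * FF (G := G) X - trivF G - trivF G - chi1F (G := G) X)
      (chi1F (G := G) X) ≠ 0 := by
    rw [inner_poly (X := X) hmt hX 1 0 (-2) 1 0 0 0 0 0 (fun g => by
      simp only [chi1F, Pi.mul_apply, Pi.sub_apply, map_sub, map_one, Complex.conj_natCast]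
      ring)]
    norm_num
  have c4 := isCharacter_sub_of_classInner_ne_zero c3 hχ h4
  have h5 : classInner (FF (G := G) X * FF (G := G) X - trivF G - trivF G - chi1F (G := G) X -
      chi1F (G := G) X) (chi1F (G := G) X) ≠ 0 := by
    rw [inner_poly (X := X) hmt hX 0 2 (-3) 1 0 0 0 0 0 (fun g => by
      simp only [chi1F, Pi.mul_apply, Pi.sub_apply, map_sub, map_one, Complex.conj_natCast]
      ring)]
    norm_num
  have c5 := isCharacter_sub_of_classInner_ne_zero c4 hχ h5
  have h6 : classInner (FF (G := G) X * FF (G := G) X - trivF G - trivF G - chi1F (G := G) X -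
      chi1F (G := G) X - chi1F (G := G) X) (psi2 (G := G) X) ≠ 0 := by
    rw [inner_poly (X := X) hmt hX 0 (-3/2) 5 (-3) (1/2) (1/2) (-3/2) (1/2) 0 (fun g => by
      simp only [chi1F, psi2, Pi.mul_apply, Pi.sub_apply, map_sub, map_one, Complex.conj_natCast,
        map_div₀, map_add, map_mul, map_pow, map_ofNat]
      ring)]
    norm_num
  have c6 := isCharacter_sub_of_classInner_ne_zero c5 hψ h6
  have heq : FF (G := G) X * FF (G := G) X - trivF G - trivF G - chi1F (G := G) X -
      chi1F (G := G) X - chi1F (G := G) X - psi2 (G := G) X = psi3 (G := G) X := by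
    funext g
    simp only [chi1F, psi2, psi3, Pi.mul_apply, Pi.sub_apply]
    ring
  rw [heq] at c6
  rw [isIrrCharacter_iff]
  refine ⟨c6, ?_⟩
  rw [inner_poly (X := X) hmt hX 1 (-3) (13/4) (-3/2) (1/4) (-1) (3/2) (-1/2) (1/4) (fun g => by
    simp only [psi3, map_div₀, map_add, map_sub, map_mul, map_pow, Complex.conj_natCast, map_ofNat]
    ring)]
  norm_num

end Irr

section Perm

open Equiv.Perm

variable {X : Type*} [Fintype X] [DecidableEq X]

theorem ff_perm (g : Equiv.Perm X) : ff X g + g.cycleType.sum = Fintype.card X := by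
  classical
  rw [sum_cycleType, ff]
  have h : g.support = univ.filter (fun a : X => ¬ g • a = a) := by
    ext a
    simp [Equiv.Perm.smul_def]
  rw [h, fixS, card_filter_add_card_filter_not, card_univ]

theorem tt_perm (g : Equiv.Perm X) : tt X g = 2 * g.cycleType.count 2 := by
  classical
  have h1 : swS g = ((g.cycleFactorsFinset).filter (fun c => c.support.card = 2)).biUnion
      (fun c => c.support) := by
    ext a
    simp only [mem_swS, mem_biUnion, mem_filter, Equiv.Perm.smul_def]
    constructor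
    · rintro ⟨h1, h2⟩
      have hs : a ∈ g.support := by simpa using h2
      refine ⟨g.cycleOf a, ⟨cycleOf_mem_cycleFactorsFinset_iff.mpr hs, ?_⟩, ?_⟩
      · have hc := isCycle_cycleOf g h2
        have hca : g.cycleOf a a ≠ a := by
          rw [cycleOf_apply_self]
          exact h2
        have h3 : (g.cycleOf a ^ 2) a = a := by
          rw [cycleOf_pow_apply_self, pow_two]
          exact h1
        have h4 := (hc.pow_eq_one_iff' hca).mpr h3
        have h5 := orderOf_dvd_of_pow_eq_one h4
        rw [hc.orderOf] at h5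
        have h6 := hc.two_le_card_support
        have h7 := Nat.le_of_dvd (by norm_num) h5
        omega
      · rw [mem_support_cycleOf_iff]
        exact ⟨SameCycle.refl _ _, hs⟩
    · rintro ⟨c, ⟨hc, hc2⟩, ha⟩
      have h3 := mem_cycleFactorsFinset_iff.mp hc
      have h4 := h3.2 a ha
      have h5 : c a ∈ c.support := by
        rw [apply_mem_support]
        exact ha
      have h6 := h3.2 _ h5
      have h7 : orderOf c = 2 := by
        rw [h3.1.orderOf, hc2]
      have h8 : c ^ 2 = 1 := by
        rw [← h7]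
        exact pow_orderOf_eq_one c
      have h9 : c (c a) = a := by
        have := DFunLike.congr_fun h8 a
        simpa [pow_two] using this
      refine ⟨?_, ?_⟩
      · rw [← h4, ← h6, h9]
      · rw [← h4]
        exact mem_support.mp ha
  rw [tt, h1, card_biUnion]
  · have h2 : ∀ c ∈ (g.cycleFactorsFinset).filter (fun c => c.support.card = 2), c.support.card = 2 :=
      fun c hc => (mem_filter.mp hc).2
    rw [sum_congr rfl h2, sum_const, smul_eq_mul, mul_comm]
    congr 1
    rw [cycleType_def, Multiset.count_map]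
    simp only [Finset.card_def, Finset.filter_val]
    congr 1
    apply Multiset.filter_congr
    intro c _
    simp [eq_comm]
  · intro c hc d hd hne
    have h3 := cycleFactorsFinset_pairwise_disjoint g (mem_filter.mp hc).1 (mem_filter.mp hd).1 hne
    exact Equiv.Perm.disjoint_iff_disjoint_support.mp h3

theorem sign_even_type (g : Equiv.Perm X) (h : ∀ a ∈ g.cycleType, Even a) :
    Equiv.Perm.sign g = (-1) ^ Multiset.card g.cycleType := by
  rw [sign_of_cycleType, pow_add]
  have h1 : Even g.cycleType.sum := even_iff_two_dvd.mpr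
    (Multiset.dvd_sum (fun a ha => (h a ha).two_dvd))
  rw [h1.neg_one_pow, one_mul]

end Perm

section Final

open Equiv.Perm

/-- Block multisets of `4`s and `8`s. -/
theorem exists_blocks (m e : ℕ) (hm : 1 ≤ m) (he : e < 2) (hc : m = 1 → e = 1) :
    ∃ L : Multiset ℕ, L.sum = 4 * m ∧ (∀ x ∈ L, x = 4 ∨ x = 8) ∧ Multiset.card L % 2 = e := by
  by_cases h : m % 2 = e
  · refine ⟨Multiset.replicate m 4, ?_, ?_, ?_⟩
    · simp [Multiset.sum_replicate, mul_comm]
    · intro x hx
      exact Or.inl (Multiset.eq_of_mem_replicate hx)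
    · simpa using h
  · have hm2 : 2 ≤ m := by
      by_contra hcon
      have : m = 1 := by omega
      exact h (by rw [hc this, this])
    refine ⟨8 ::ₘ Multiset.replicate (m - 2) 4, ?_, ?_, ?_⟩
    · simp only [Multiset.sum_cons, Multiset.sum_replicate, smul_eq_mul]
      omega
    · intro x hx
      rw [Multiset.mem_cons] at hx
      rcases hx with rfl | hx
      · exact Or.inr rfl
      · exact Or.inl (Multiset.eq_of_mem_replicate hx)
    · simp only [Multiset.card_cons, Multiset.card_replicate]
      omega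

variable {n : ℕ}

theorem exists_perm_type (m : Multiset ℕ) (hsum : m.sum ≤ n) (h2 : ∀ a ∈ m, 2 ≤ a) :
    ∃ g : Equiv.Perm (Fin n), g.cycleType = m := by
  have := (Equiv.Perm.exists_with_cycleType_iff (Fin n) (m := m)).mpr ⟨by simpa using hsum, h2⟩
  exact this

/-- The two-element case. -/
theorem exists_two_element (hn : 7 ≤ n) :
    ∃ g : Equiv.Perm (Fin n), Equiv.Perm.sign g = 1 ∧ (∃ j : ℕ, orderOf g = 2 ^ j) ∧
      (psi2 (Fin n) g = 0 ∨ psi3 (Fin n) g = 0) := by
  classical
  -- generic facts
  have key : ∀ (L : Multiset ℕ) (hL : ∀ x ∈ L, x = 2 ∨ x = 4 ∨ x = 8) (hcard : Multiset.card L % 2 = 0)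
      (hsum : L.sum ≤ n), ∃ g : Equiv.Perm (Fin n), g.cycleType = L ∧ Equiv.Perm.sign g = 1 ∧
        ∃ j : ℕ, orderOf g = 2 ^ j := by
    intro L hL hcard hsum
    obtain ⟨g, hg⟩ := exists_perm_type (n := n) L hsum (fun a ha => by
      rcases hL a ha with rfl | rfl | rfl <;> norm_num)
    refine ⟨g, hg, ?_, ?_⟩
    · rw [sign_even_type g (fun a ha => by
        rw [hg] at ha
        rcases hL a ha with rfl | rfl | rfl <;> decide), hg]
      exact Even.neg_one_pow (Nat.even_iff.mpr hcard)
    · have h1 : orderOf g ∣ 2 ^ 3 := by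
        rw [← lcm_cycleType, hg, Multiset.lcm_dvd]
        intro b hb
        rcases hL b hb with rfl | rfl | rfl <;> norm_num
      obtain ⟨j, -, hj⟩ := (Nat.dvd_prime_pow Nat.prime_two).mp h1
      exact ⟨j, hj⟩
  have hcard : Fintype.card (Fin n) = n := Fintype.card_fin n
  obtain ⟨m, r, hr, rfl⟩ : ∃ m r, r < 4 ∧ n = 4 * m + r :=
    ⟨n / 4, n % 4, Nat.mod_lt _ (by norm_num), (Nat.div_add_mod n 4).symm⟩
  have hm1 : 1 ≤ m := by omega
  interval_cases r
  · -- `n ≡ 0`
    obtain ⟨L, h1, h2, h3⟩ := exists_blocks m 0 hm1 (by norm_num) (by omega)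
    obtain ⟨g, hg, hs, ho⟩ := key L (fun x hx => by
      rcases h2 x hx with h | h <;> simp [h]) h3 (by rw [h1]; omega)
    refine ⟨g, hs, ho, Or.inl ?_⟩
    have hf := ff_perm g
    rw [hg, h1, hcard] at hf
    have ht := tt_perm g
    have hc2 : L.count 2 = 0 := Multiset.count_eq_zero.mpr (fun h => by
      rcases h2 2 h with h | h <;> omega)
    rw [hg, hc2] at ht
    have hf0 : ff (Fin (4 * m + 0)) g = 0 := by omega
    simp only [psi2, FF, TT, hf0, ht]
    norm_num
  · -- `n ≡ 1`
    obtain ⟨L, h1, h2, h3⟩ := exists_blocks m 0 hm1 (by norm_num) (by omega)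
    obtain ⟨g, hg, hs, ho⟩ := key L (fun x hx => by
      rcases h2 x hx with h | h <;> simp [h]) h3 (by rw [h1]; omega)
    refine ⟨g, hs, ho, Or.inr ?_⟩
    have hf := ff_perm g
    rw [hg, h1, hcard] at hf
    have ht := tt_perm g
    have hc2 : L.count 2 = 0 := Multiset.count_eq_zero.mpr (fun h => by
      rcases h2 2 h with h | h <;> omega)
    rw [hg, hc2] at ht
    have hf0 : ff (Fin (4 * m + 1)) g = 1 := by omega
    simp only [psi3, FF, TT, hf0, ht]
    norm_num
  · -- `n ≡ 2`
    obtain ⟨L, h1, h2, h3⟩ := exists_blocks m 1 hm1 (by norm_num) (by omega)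
    obtain ⟨g, hg, hs, ho⟩ := key (2 ::ₘ L) (fun x hx => by
      rcases Multiset.mem_cons.mp hx with h | h
      · simp [h]
      · rcases h2 x h with h | h <;> simp [h]) (by simp only [Multiset.card_cons]; omega)
      (by rw [Multiset.sum_cons, h1]; omega)
    refine ⟨g, hs, ho, Or.inr ?_⟩
    have hf := ff_perm g
    rw [hg, Multiset.sum_cons, h1, hcard] at hf
    have ht := tt_perm g
    have hc2 : L.count 2 = 0 := Multiset.count_eq_zero.mpr (fun h => by
      rcases h2 2 h with h | h <;> omega)
    rw [hg, Multiset.count_cons_self, hc2] at ht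
    have hf0 : ff (Fin (4 * m + 2)) g = 0 := by omega
    simp only [psi3, FF, TT, hf0, ht]
    norm_num
  · -- `n ≡ 3`
    obtain ⟨L, h1, h2, h3⟩ := exists_blocks m 1 hm1 (by norm_num) (by simp)
    obtain ⟨g, hg, hs, ho⟩ := key (2 ::ₘ L) (fun x hx => by
      rcases Multiset.mem_cons.mp hx with h | h
      · simp [h]
      · rcases h2 x h with h | h <;> simp [h]) (by simp only [Multiset.card_cons]; omega)
      (by rw [Multiset.sum_cons, h1]; omega)
    refine ⟨g, hs, ho, Or.inl ?_⟩
    have hf := ff_perm g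
    rw [hg, Multiset.sum_cons, h1, hcard] at hf
    have ht := tt_perm g
    have hc2 : L.count 2 = 0 := Multiset.count_eq_zero.mpr (fun h => by
      rcases h2 2 h with h | h <;> omega)
    rw [hg, Multiset.count_cons_self, hc2] at ht
    have hf0 : ff (Fin (4 * m + 3)) g = 1 := by omega
    simp only [psi2, FF, TT, hf0, ht]
    norm_num

/-- The three-element case. -/
theorem exists_three_element (hn : 7 ≤ n) :
    ∃ g : Equiv.Perm (Fin n), Equiv.Perm.sign g = 1 ∧ orderOf g = 3 ∧
      (psi2 (Fin n) g = 0 ∨ psi3 (Fin n) g = 0) := by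
  classical
  have hcard : Fintype.card (Fin n) = n := Fintype.card_fin n
  obtain ⟨k, r, hr, rfl⟩ : ∃ k r, r < 3 ∧ n = 3 * k + r :=
    ⟨n / 3, n % 3, Nat.mod_lt _ (by norm_num), (Nat.div_add_mod n 3).symm⟩
  have hk1 : 1 ≤ k := by omega
  obtain ⟨g, hg⟩ := exists_perm_type (n := 3 * k + r) (Multiset.replicate k 3)
    (by simp only [Multiset.sum_replicate, smul_eq_mul]; omega)
    (fun a ha => by rw [Multiset.eq_of_mem_replicate ha]; norm_num)
  have hsign : Equiv.Perm.sign g = 1 := by
    rw [sign_of_cycleType, hg]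
    simp only [Multiset.sum_replicate, Multiset.card_replicate, smul_eq_mul]
    have : 3 * k + k = 2 * (2 * k) := by ring
    rw [← mul_comm 3 k, this, pow_mul]
    simp
  have hord : orderOf g = 3 := by
    haveI : Fact (Nat.Prime 3) := ⟨by norm_num⟩
    have h1 : g ^ 3 = 1 := by
      rw [← orderOf_dvd_iff_pow_eq_one, ← lcm_cycleType, hg, Multiset.lcm_dvd]
      intro b hb
      rw [Multiset.eq_of_mem_replicate hb]
    refine orderOf_eq_prime h1 ?_
    rintro rfl
    rw [cycleType_one] at hg
    have := congrArg Multiset.card hg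
    simp only [Multiset.card_zero, Multiset.card_replicate] at this
    omega
  refine ⟨g, hsign, hord, ?_⟩
  have hf := ff_perm g
  rw [hg, hcard] at hf
  simp only [Multiset.sum_replicate, smul_eq_mul] at hf
  have ht := tt_perm g
  have hc2 : (Multiset.replicate k 3).count 2 = 0 := Multiset.count_eq_zero.mpr (fun h => by
    have := Multiset.eq_of_mem_replicate h
    omega)
  rw [hg, hc2] at ht
  have hf0 : ff (Fin (3 * k + r)) g = r := by omega
  interval_cases r
  · left
    simp only [psi2, FF, TT, hf0, ht]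
    norm_num
  · right
    simp only [psi3, FF, TT, hf0, ht]
    norm_num
  · right
    simp only [psi3, FF, TT, hf0, ht]
    norm_num

end Final

section Main

open Equiv.Perm

variable {n : ℕ}

/-- The main theorem on `A_n`. -/
theorem main (hn : 7 ≤ n) :
    (∃ χ : IrrCharacter (alternatingGroup (Fin n)),
      (∃ x : alternatingGroup (Fin n), (∃ j : ℕ, orderOf x = 2 ^ j) ∧
        (χ : alternatingGroup (Fin n) → ℂ) x = 0) ∧
      ∃ ψ : IrrCharacter (Equiv.Perm (Fin n)), ∀ x : alternatingGroup (Fin n),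
        (ψ : Equiv.Perm (Fin n) → ℂ) x = (χ : alternatingGroup (Fin n) → ℂ) x) ∧
    (∃ χ : IrrCharacter (alternatingGroup (Fin n)),
      (∃ y : alternatingGroup (Fin n), orderOf y = 3 ∧
        (χ : alternatingGroup (Fin n) → ℂ) y = 0) ∧
      ∃ ψ : IrrCharacter (Equiv.Perm (Fin n)), ∀ x : alternatingGroup (Fin n),
        (ψ : Equiv.Perm (Fin n) → ℂ) x = (χ : alternatingGroup (Fin n) → ℂ) x) := by
  classical
  have hX : 4 ≤ Nat.card (Fin n) := by
    rw [Nat.card_fin]
    omega
  have hA : MulAction.IsMultiplyPretransitive (alternatingGroup (Fin n)) (Fin n) 4 := by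
    have h1 := alternatingGroup.isMultiplyPretransitive (Fin n)
    exact MulAction.isMultiplyPretransitive_of_le (n := Nat.card (Fin n) - 2) (by
      rw [Nat.card_fin]
      omega) (Nat.sub_le _ _)
  have hS : MulAction.IsMultiplyPretransitive (Equiv.Perm (Fin n)) (Fin n) 4 :=
    Equiv.Perm.isMultiplyPretransitive (Fin n) 4
  have eq2 : ∀ x : alternatingGroup (Fin n),
      psi2 (G := Equiv.Perm (Fin n)) (Fin n) x = psi2 (G := alternatingGroup (Fin n)) (Fin n) x :=
    fun x => rfl
  have eq3 : ∀ x : alternatingGroup (Fin n),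
      psi3 (G := Equiv.Perm (Fin n)) (Fin n) x = psi3 (G := alternatingGroup (Fin n)) (Fin n) x :=
    fun x => rfl
  have c2A : IsIrrCharacter (alternatingGroup (Fin n)) (psi2 (Fin n)) := irr_psi2 hA hX
  have c3A : IsIrrCharacter (alternatingGroup (Fin n)) (psi3 (Fin n)) := irr_psi3 hA hX
  have c2S : IsIrrCharacter (Equiv.Perm (Fin n)) (psi2 (Fin n)) := irr_psi2 hS hX
  have c3S : IsIrrCharacter (Equiv.Perm (Fin n)) (psi3 (Fin n)) := irr_psi3 hS hX
  constructor
  · obtain ⟨g, hs, ⟨j, hj⟩, h0⟩ := exists_two_element hn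
    have hmem : g ∈ alternatingGroup (Fin n) := Equiv.Perm.mem_alternatingGroup.mpr hs
    have hord : orderOf (⟨g, hmem⟩ : alternatingGroup (Fin n)) = 2 ^ j := by
      rw [Subgroup.orderOf_mk, hj]
    rcases h0 with h0 | h0
    · exact ⟨⟨_, c2A⟩, ⟨⟨g, hmem⟩, ⟨j, hord⟩, h0⟩, ⟨_, c2S⟩, eq2⟩
    · exact ⟨⟨_, c3A⟩, ⟨⟨g, hmem⟩, ⟨j, hord⟩, h0⟩, ⟨_, c3S⟩, eq3⟩
  · obtain ⟨g, hs, hj, h0⟩ := exists_three_element hn
    have hmem : g ∈ alternatingGroup (Fin n) := Equiv.Perm.mem_alternatingGroup.mpr hs
    have hord : orderOf (⟨g, hmem⟩ : alternatingGroup (Fin n)) = 3 := by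
      rw [Subgroup.orderOf_mk, hj]
    rcases h0 with h0 | h0
    · exact ⟨⟨_, c2A⟩, ⟨⟨g, hmem⟩, hord, h0⟩, ⟨_, c2S⟩, eq2⟩
    · exact ⟨⟨_, c3A⟩, ⟨⟨g, hmem⟩, hord, h0⟩, ⟨_, c3S⟩, eq3⟩

end Main

end Cfsg.Agent.Lib.Char.AltTwo
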