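import Cfsg.Agent.Lib.Char.MWreath
import Mathlib.GroupTheory.FiniteAbelian.Duality
import Mathlib.RingTheory.RootsOfUnity.Complex
import Mathlib.RingTheory.RootsOfUnity.AlgebraicallyClosed
import Mathlib.GroupTheory.SemidirectProduct

/-!
# Embedding solvable groups in central quotients of groups of central type

A *bijective 1-cocycle* of `Y` with values in an abelian group `V` with a `Y`-action gives a group
`H = (μ × V^) ⋊ Y` with centre `μ` and with a faithful irreducible character that vanishes off the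
centre.  Such data is stable under the wreath product with a group of prime order.
-/

set_option autoImplicit false
set_option linter.style.haveILetI false
set_option linter.unusedVariables false
set_option linter.unusedSectionVars false

namespace Cfsg.Agent.Lib.Char.CTEmb

open Cfsg Module RegularWreathProduct
open Cfsg.Agent.Lib.Char.Basic Cfsg.Agent.Lib.Char.Ortho Cfsg.Agent.Lib.Char.Complete
open Cfsg.Agent.Lib.Char.Degree
open scoped ComplexConjugate

universe u

/-- A bijective 1-cocycle. -/
structure BCocycle (Y V : Type u) [Group Y] [CommGroup V] where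
  /-- the action -/
  ρ : Y →* MulAut V
  /-- the cocycle -/
  π : Y → V
  cocycle : ∀ g h, π (g * h) = π g * ρ g (π h)
  bij : Function.Bijective π

namespace BCocycle

variable {Y V : Type u} [Group Y] [CommGroup V] (D : BCocycle Y V)

theorem π_one : D.π 1 = 1 := by
  have := D.cocycle 1 1
  simpa using this

/-- The affine action. -/
def aff (g : Y) (v : V) : V := D.π g * D.ρ g v

theorem aff_one (v : V) : D.aff 1 v = v := by
  simp [aff, π_one]

theorem aff_mul (g h : Y) (v : V) : D.aff (g * h) v = D.aff g (D.aff h v) := by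
  simp [aff, D.cocycle, mul_assoc]

theorem eq_one_of_aff_eq {g : Y} {v : V} (h : D.aff g v = v) : g = 1 := by
  obtain ⟨k, rfl⟩ := D.bij.2 v
  have hk : D.aff k 1 = D.π k := by simp [aff]
  rw [← hk, ← aff_mul] at h
  have h1 : D.aff (g * k) 1 = D.π (g * k) := by simp [aff]
  rw [h1, hk] at h
  have := D.bij.1 h
  exact mul_eq_right.mp this

variable (m : ℕ) (hm : ∀ v : V, v ^ m = 1)

/-- The values of a linear character are `m`-th roots of unity. -/
def val (a : V →* ℂˣ) (v : V) : rootsOfUnity m ℂ :=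
  ⟨a v, by rw [mem_rootsOfUnity, ← map_pow, hm, map_one]⟩

include hm in
theorem val_coe (a : V →* ℂˣ) (v : V) : ((val m hm a v : rootsOfUnity m ℂ) : ℂˣ) = a v := rfl

/-- The normal subgroup of `H`. -/
abbrev B (V : Type u) [CommGroup V] (m : ℕ) : Type u := rootsOfUnity m ℂ × (V →* ℂˣ)

/-- The action of `Y` on `B`. -/
@[reducible] def act : MulDistribMulAction Y (B V m) where
  smul g b := (b.1 * val m hm b.2 (D.π g⁻¹), b.2.comp (D.ρ g⁻¹).toMonoidHom)
  one_smul b := by
    apply Prod.ext
    · apply Subtype.ext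
      change ((b.1 : ℂˣ) * b.2 (D.π 1⁻¹)) = b.1
      simp [π_one]
    · apply MonoidHom.ext
      intro v
      change b.2 (D.ρ 1⁻¹ v) = b.2 v
      simp
  mul_smul g h b := by
    apply Prod.ext
    · apply Subtype.ext
      change ((b.1 : ℂˣ) * b.2 (D.π (g * h)⁻¹)) =
        ((b.1 : ℂˣ) * b.2 (D.π h⁻¹)) * b.2 (D.ρ h⁻¹ (D.π g⁻¹))
      rw [mul_inv_rev, D.cocycle, map_mul, mul_assoc]
    · apply MonoidHom.ext
      intro v
      change b.2 (D.ρ (g * h)⁻¹ v) = b.2 (D.ρ h⁻¹ (D.ρ g⁻¹ v))
      simp
  smul_mul g a b := by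
    apply Prod.ext
    · apply Subtype.ext
      change (((a.1 : ℂˣ) * b.1) * (a.2 (D.π g⁻¹) * b.2 (D.π g⁻¹))) =
        ((a.1 : ℂˣ) * a.2 (D.π g⁻¹)) * ((b.1 : ℂˣ) * b.2 (D.π g⁻¹))
      exact mul_mul_mul_comm _ _ _ _
    · rfl
  smul_one g := by
    apply Prod.ext
    · apply Subtype.ext
      change ((1 : ℂˣ) * 1) = 1
      simp
    · rfl

/-- The action of `Y` on `B` by automorphisms. -/
def φ : Y →* MulAut (B V m) := @MulDistribMulAction.toMulAut Y (B V m) _ _ (act D m hm)

theorem φ_apply (g : Y) (b : B V m) :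
    φ D m hm g b = (b.1 * val m hm b.2 (D.π g⁻¹), b.2.comp (D.ρ g⁻¹).toMonoidHom) := rfl

/-- The group of central type. -/
abbrev H : Type u := SemidirectProduct (B V m) Y (φ D m hm)

/-- The representation on functions on `V`. -/
def R : Representation ℂ (H D m hm) (V → ℂ) where
  toFun x :=
    { toFun := fun f v => (((x.left.1 : rootsOfUnity m ℂ) : ℂˣ) : ℂ) * ((x.left.2 v : ℂˣ) : ℂ) *
        f (D.aff x.right⁻¹ v)
      map_add' := by
        intro f g
        funext v
        simp only [Pi.add_apply]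
        ring
      map_smul' := by
        intro c f
        funext v
        simp only [Pi.smul_apply, smul_eq_mul, RingHom.id_apply]
        ring }
  map_one' := by
    apply LinearMap.ext
    intro f
    funext v
    change (((1 : rootsOfUnity m ℂ) : ℂˣ) : ℂ) * (((1 : V →* ℂˣ) v : ℂˣ) : ℂ) * f (D.aff 1⁻¹ v) = f v
    simp [aff_one]
  map_mul' := by
    intro x y
    apply LinearMap.ext
    intro f
    funext v
    change (((x.left * φ D m hm x.right y.left).1 : ℂˣ) : ℂ) *
        (((x.left * φ D m hm x.right y.left).2 v : ℂˣ) : ℂ) * f (D.aff (x.right * y.right)⁻¹ v) =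
      ((x.left.1 : ℂˣ) : ℂ) * ((x.left.2 v : ℂˣ) : ℂ) *
        (((y.left.1 : ℂˣ) : ℂ) * ((y.left.2 (D.aff x.right⁻¹ v) : ℂˣ) : ℂ) *
          f (D.aff y.right⁻¹ (D.aff x.right⁻¹ v)))
    rw [φ_apply, mul_inv_rev, aff_mul]
    have h1 : y.left.2 (D.aff x.right⁻¹ v) =
        y.left.2 (D.π x.right⁻¹) * y.left.2 (D.ρ x.right⁻¹ v) := by
      rw [aff, map_mul]
    rw [h1]
    simp only [Prod.fst_mul, Prod.snd_mul, MonoidHom.mul_apply, Subgroup.coe_mul, Units.val_mul,
      val_coe]
    change (((x.left.1 : ℂˣ) : ℂ) * ((y.left.1 : ℂˣ) * y.left.2 (D.π x.right⁻¹) : ℂˣ)) *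
      (((x.left.2 v : ℂˣ) : ℂ) * ((y.left.2 (D.ρ x.right⁻¹ v) : ℂˣ) : ℂ)) * _ = _
    push_cast
    ring

theorem sum_linear_eq_zero [Fintype V] {a : V →* ℂˣ} (ha : a ≠ 1) : ∑ v, ((a v : ℂˣ) : ℂ) = 0 := by
  obtain ⟨v₀, hv₀⟩ : ∃ v₀, a v₀ ≠ 1 := by
    by_contra hcon
    push Not at hcon
    exact ha (MonoidHom.ext hcon)
  have h1 : ∑ v, ((a v : ℂˣ) : ℂ) = ((a v₀ : ℂˣ) : ℂ) * ∑ v, ((a v : ℂˣ) : ℂ) := by
    rw [Finset.mul_sum, ← Equiv.sum_comp (Equiv.mulLeft v₀)]
    refine Finset.sum_congr rfl fun v _ => ?_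
    simp
  have h2 : (((a v₀ : ℂˣ) : ℂ) - 1) * ∑ v, ((a v : ℂˣ) : ℂ) = 0 := by
    linear_combination -h1
  refine (mul_eq_zero.mp h2).resolve_left ?_
  intro h3
  apply hv₀
  apply Units.ext
  simpa [sub_eq_zero] using h3

open scoped Classical in
/-- The character of `R` vanishes off the centre. -/
theorem character_R_apply [Fintype V] (x : H D m hm) :
    (R D m hm).character x = if x.right = 1 ∧ x.left.2 = 1 then
      (((x.left.1 : rootsOfUnity m ℂ) : ℂˣ) : ℂ) * (Fintype.card V : ℂ) else 0 := by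
  change LinearMap.trace ℂ _ _ = _
  rw [LinearMap.trace_eq_matrix_trace ℂ (Pi.basisFun ℂ V), Matrix.trace]
  have h1 : ∀ v : V, (LinearMap.toMatrix (Pi.basisFun ℂ V) (Pi.basisFun ℂ V) (R D m hm x)).diag v =
      (((x.left.1 : rootsOfUnity m ℂ) : ℂˣ) : ℂ) * ((x.left.2 v : ℂˣ) : ℂ) *
        (Pi.single v (1 : ℂ) : V → ℂ) (D.aff x.right⁻¹ v) := by
    intro v
    simp only [Matrix.diag_apply, LinearMap.toMatrix_apply, Pi.basisFun_repr, Pi.basisFun_apply]
    rfl
  simp only [h1]
  by_cases hg : x.right = 1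
  · have h2 : ∀ v : V, D.aff x.right⁻¹ v = v := by
      intro v
      rw [hg, inv_one, aff_one]
    simp only [h2, Pi.single_eq_same, mul_one]
    rw [← Finset.mul_sum]
    by_cases ha : x.left.2 = 1
    · rw [if_pos ⟨hg, ha⟩, ha]
      simp
    · rw [if_neg (fun h => ha h.2), sum_linear_eq_zero ha, mul_zero]
  · rw [if_neg (fun h => hg h.1)]
    refine Finset.sum_eq_zero fun v _ => ?_
    have h2 : D.aff x.right⁻¹ v ≠ v := by
      intro h
      exact hg (inv_eq_one.mp (eq_one_of_aff_eq D h))
    rw [Pi.single_eq_of_ne h2, mul_zero]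

section Finite

variable [Finite Y] [Finite V] [NeZero m]

theorem card_dual : Nat.card (V →* ℂˣ) = Nat.card V := by
  haveI : NeZero ((Monoid.exponent V : ℕ) : ℂ) :=
    ⟨by exact_mod_cast (Monoid.exponent_ne_zero_of_finite (G := V))⟩
  exact CommGroup.card_monoidHom_of_hasEnoughRootsOfUnity V ℂ

theorem exists_dual_ne {v : V} (hv : v ≠ 1) : ∃ a : V →* ℂˣ, a v ≠ 1 := by
  haveI : NeZero ((Monoid.exponent V : ℕ) : ℂ) :=
    ⟨by exact_mod_cast (Monoid.exponent_ne_zero_of_finite (G := V))⟩
  exact CommGroup.exists_apply_ne_one_of_hasEnoughRootsOfUnity V ℂ hv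

instance finite_dual : Finite (V →* ℂˣ) :=
  Nat.finite_of_card_ne_zero (by rw [card_dual]; exact Nat.card_pos.ne')

theorem card_eq (D : BCocycle Y V) : Nat.card Y = Nat.card V :=
  Nat.card_congr (Equiv.ofBijective _ D.bij)

theorem card_H : Nat.card (H D m hm) = m * Nat.card V * Nat.card Y := by
  rw [SemidirectProduct.card, Nat.card_prod, card_dual, Complex.card_rootsOfUnity]

instance finite_rootsOfUnity' : Finite (rootsOfUnity m ℂ) :=
  Nat.finite_of_card_ne_zero (by rw [Complex.card_rootsOfUnity]; exact NeZero.ne m)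

instance finite_H : Finite (H D m hm) :=
  Nat.finite_of_card_ne_zero (by
    rw [card_H]
    exact mul_ne_zero (mul_ne_zero (NeZero.ne m) Nat.card_pos.ne') Nat.card_pos.ne')

theorem mem_center_iff (x : H D m hm) :
    x ∈ Subgroup.center (H D m hm) ↔ x.right = 1 ∧ x.left.2 = 1 := by
  constructor
  · intro hx
    have hcomm : ∀ y : H D m hm, y * x = x * y := fun y => (Subgroup.mem_center_iff.mp hx) y
    have h1 : x.right = 1 := by
      by_contra hne
      have hne' : D.π x.right⁻¹ ≠ 1 := by
        intro h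
        rw [← π_one D] at h
        exact hne (inv_eq_one.mp (D.bij.1 h))
      obtain ⟨a, ha⟩ := exists_dual_ne hne'
      have h2 := hcomm ⟨(1, a), 1⟩
      have h3 := congrArg (fun z : H D m hm => ((z.left.1 : rootsOfUnity m ℂ) : ℂˣ)) h2
      simp only [SemidirectProduct.mul_left, φ_apply, map_one, MulAut.one_apply] at h3
      apply ha
      have h4 : (x.left.1 : ℂˣ) = (x.left.1 : ℂˣ) * a (D.π x.right⁻¹) := by
        simpa [val_coe] using h3
      exact (mul_eq_left.mp h4.symm)
    refine ⟨h1, ?_⟩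
    apply MonoidHom.ext
    intro v
    obtain ⟨g, hg⟩ := D.bij.2 v
    have h2 := hcomm ⟨1, g⁻¹⟩
    have h3 := congrArg (fun z : H D m hm => ((z.left.1 : rootsOfUnity m ℂ) : ℂˣ)) h2
    simp only [SemidirectProduct.mul_left, φ_apply, h1, map_one, inv_inv] at h3
    have h4 : (x.left.1 : ℂˣ) * x.left.2 (D.π g) = (x.left.1 : ℂˣ) := by
      simpa [val_coe, hg] using h3
    rw [← hg]
    exact mul_eq_left.mp h4
  · rintro ⟨h1, h2⟩
    rw [Subgroup.mem_center_iff]
    intro y
    apply SemidirectProduct.ext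
    · simp only [SemidirectProduct.mul_left, h1, map_one, MulAut.one_apply, φ_apply, h2]
      apply Prod.ext
      · apply Subtype.ext
        change ((y.left.1 : ℂˣ) * ((x.left.1 : ℂˣ) * (1 : V →* ℂˣ) (D.π y.right⁻¹))) =
          (x.left.1 : ℂˣ) * y.left.1
        simp [mul_comm]
      · apply MonoidHom.ext
        intro v
        simp [h2]
    · simp [h1]

theorem card_center : Nat.card (Subgroup.center (H D m hm)) = m := by
  have h1 : Nat.card (rootsOfUnity m ℂ) = Nat.card (Subgroup.center (H D m hm)) := by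
    apply Nat.card_congr
    exact
      { toFun := fun z => ⟨⟨(z, 1), 1⟩, (mem_center_iff D m hm _).mpr ⟨rfl, rfl⟩⟩
        invFun := fun x => x.1.left.1
        left_inv := fun z => rfl
        right_inv := fun x => by
          have h := (mem_center_iff D m hm x.1).mp x.2
          apply Subtype.ext
          apply SemidirectProduct.ext
          · apply Prod.ext
            · rfl
            · exact h.2.symm
          · exact h.1.symm }
  rw [← h1, Complex.card_rootsOfUnity]

open scoped Classical in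
theorem character_R_apply' [Fintype V] (x : H D m hm) :
    (R D m hm).character x = if x ∈ Subgroup.center (H D m hm) then
      (((x.left.1 : rootsOfUnity m ℂ) : ℂˣ) : ℂ) * (Fintype.card V : ℂ) else 0 := by
  rw [character_R_apply]
  simp only [mem_center_iff]

theorem isIrr_character_R [Fintype (H D m hm)] :
    IsIrrCharacter (H D m hm) (R D m hm).character := by
  classical
  letI : Fintype V := Fintype.ofFinite _
  have hV : (Nat.card V : ℂ) ≠ 0 := by exact_mod_cast Nat.card_pos.ne'
  have hm' : (m : ℂ) ≠ 0 := by exact_mod_cast NeZero.ne m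
  apply isIrrCharacter_of_classInner_self_eq_one (isCharacter_of_rep _)
  rw [classInner]
  have h1 : ∀ x : H D m hm, (R D m hm).character x * conj ((R D m hm).character x) =
      if x ∈ Subgroup.center (H D m hm) then (Nat.card V : ℂ) ^ 2 else 0 := by
    intro x
    rw [character_R_apply']
    by_cases hx : x ∈ Subgroup.center (H D m hm)
    · rw [if_pos hx, if_pos hx, map_mul, Nat.card_eq_fintype_card, map_natCast]
      have h2 : ((x.left.1 : ℂˣ) : ℂ) * conj ((x.left.1 : ℂˣ) : ℂ) = 1 := by
        have h3 : ((x.left.1 : ℂˣ) : ℂ) ^ m = 1 := by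
          have := (mem_rootsOfUnity _ _).mp x.left.1.2
          have h := congrArg Units.val this
          simpa using h
        have h4 := Cfsg.Agent.Lib.Char.Eigen.norm_eq_one_of_pow_eq_one (NeZero.ne m) h3
        rw [Complex.mul_conj, Complex.normSq_eq_norm_sq, h4]
        simp
      calc _ = (((x.left.1 : ℂˣ) : ℂ) * conj ((x.left.1 : ℂˣ) : ℂ)) * (Fintype.card V : ℂ) ^ 2 := by
            ring
        _ = _ := by rw [h2, one_mul]
    · rw [if_neg hx, if_neg hx]
      simp
  simp only [h1]
  rw [Finset.sum_ite, Finset.sum_const_zero, add_zero, Finset.sum_const, nsmul_eq_mul]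
  have h5 : ((Finset.univ.filter fun x : H D m hm => x ∈ Subgroup.center (H D m hm)).card : ℂ) =
      (m : ℂ) := by
    have h6 := card_center D m hm
    rw [Nat.card_eq_fintype_card (α := Subgroup.center (H D m hm)), Fintype.card_subtype] at h6
    convert congrArg (fun n : ℕ => (n : ℂ)) h6
  rw [h5, card_H, card_eq D]
  push_cast
  field_simp

end Finite

end BCocycle

/-- The main construction. -/
theorem exists_of_data {G Y V : Type u} [Group G] [Finite G] [Group Y] [Finite Y] [CommGroup V]
    [Finite V] (D : BCocycle Y V) (m : ℕ) (hm0 : m ≠ 0) (hm : ∀ v : V, v ^ m = 1)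
    (hsq : Squarefree m) (hmY : ∀ p : ℕ, p.Prime → (p ∣ m ↔ p ∣ Nat.card Y))
    (hYG : ∀ p : ℕ, p.Prime → (p ∣ Nat.card Y ↔ p ∣ Nat.card G))
    (f : G →* Y) (hf : Function.Injective f) :
    ∃ (H : Type u) (_ : Group H) (_ : Finite H) (χ : Cfsg.IrrCharacter H),
      (∀ h : H, (χ : H → ℂ) h = (χ : H → ℂ) 1 → h = 1) ∧
      (Cfsg.charDegree (χ : H → ℂ)) ^ 2 = (Subgroup.center H).index ∧
      (∃ f : G →* H ⧸ Subgroup.center H, Function.Injective f) ∧
      (∀ p : ℕ, p.Prime → ((p ∣ Nat.card H ↔ p ∣ Nat.card G) ∧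
        (p ∣ Nat.card (Subgroup.center H) ↔ p ∣ Nat.card G))) ∧
      Squarefree (Nat.card (Subgroup.center H)) := by
  classical
  haveI : NeZero m := ⟨hm0⟩
  letI : Fintype V := Fintype.ofFinite _
  letI : Fintype (BCocycle.H D m hm) := Fintype.ofFinite _
  have hV : (Fintype.card V : ℂ) ≠ 0 := by exact_mod_cast Fintype.card_ne_zero
  have hcen := BCocycle.card_center D m hm
  refine ⟨BCocycle.H D m hm, inferInstance, inferInstance,
    ⟨(BCocycle.R D m hm).character, BCocycle.isIrr_character_R D m hm⟩, ?_, ?_, ?_, ?_, ?_⟩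
  · intro h hh
    change (BCocycle.R D m hm).character h = (BCocycle.R D m hm).character 1 at hh
    rw [BCocycle.character_R_apply D m hm h, BCocycle.character_R_apply D m hm 1,
      if_pos (show (1 : BCocycle.H D m hm).right = 1 ∧ (1 : BCocycle.H D m hm).left.2 = 1 from
        ⟨rfl, rfl⟩)] at hh
    have h1 : h.right = 1 ∧ h.left.2 = 1 := by
      by_contra hcon
      rw [if_neg hcon] at hh
      have h2 : (((1 : BCocycle.H D m hm).left.1 : ℂˣ) : ℂ) * (Fintype.card V : ℂ) ≠ 0 :=
        mul_ne_zero (by simp) hV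
      exact h2 hh.symm
    rw [if_pos h1] at hh
    have h2 : ((h.left.1 : ℂˣ) : ℂ) = 1 := by
      have := mul_right_cancel₀ hV hh
      simpa using this
    apply SemidirectProduct.ext
    · apply Prod.ext
      · apply Subtype.ext
        apply Units.ext
        exact h2
      · exact h1.2
    · exact h1.1
  · have h1 : Cfsg.charDegree (BCocycle.R D m hm).character = Nat.card V := by
      rw [charDegree_character, Module.finrank_fintype_fun_eq_card, Nat.card_eq_fintype_card]
    change Cfsg.charDegree (BCocycle.R D m hm).character ^ 2 = _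
    rw [h1]
    have h2 := Subgroup.card_mul_index (Subgroup.center (BCocycle.H D m hm))
    rw [hcen, BCocycle.card_H, BCocycle.card_eq D, mul_assoc] at h2
    have h3 := Nat.eq_of_mul_eq_mul_left (Nat.pos_of_ne_zero hm0) h2
    rw [h3]
    ring
  · refine ⟨(QuotientGroup.mk' _).comp ((SemidirectProduct.inr).comp f), ?_⟩
    rw [injective_iff_map_eq_one]
    intro g hg
    have h1 : SemidirectProduct.inr (f g) ∈ Subgroup.center (BCocycle.H D m hm) := by
      have := (QuotientGroup.eq_one_iff _).mp hg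
      exact this
    have h2 := ((BCocycle.mem_center_iff D m hm _).mp h1).1
    apply hf
    rw [map_one]
    exact h2
  · intro p hp
    have hVY := BCocycle.card_eq D
    constructor
    · rw [BCocycle.card_H, ← hYG p hp, ← hVY, hp.dvd_mul, hp.dvd_mul, hmY p hp]
      tauto
    · rw [hcen, hmY p hp, hYG p hp]
  · rw [hcen]
    exact hsq

section WreathStep

variable {A Q V₁ : Type u} [Group A] [Group Q] [CommGroup V₁] (D₁ : BCocycle A V₁) {q : ℕ}

/-- The module for the wreath product. -/
abbrev V₂ (Q V₁ : Type u) (q : ℕ) : Type u := (Q → V₁) × Multiplicative (ZMod q)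

/-- The action of the wreath product. -/
@[reducible] def wAct : MulDistribMulAction (A ≀ᵣ Q) (V₂ Q V₁ q) where
  smul w u := (fun x => D₁.ρ (w.left x) (u.1 (w.right⁻¹ * x)), u.2)
  one_smul u := by
    apply Prod.ext
    · funext x
      change D₁.ρ 1 (u.1 ((1 : Q)⁻¹ * x)) = u.1 x
      simp
    · rfl
  mul_smul w w' u := by
    apply Prod.ext
    · funext x
      change D₁.ρ ((w * w').left x) (u.1 ((w * w').right⁻¹ * x)) =
        D₁.ρ (w.left x) (D₁.ρ (w'.left (w.right⁻¹ * x)) (u.1 (w'.right⁻¹ * (w.right⁻¹ * x))))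
      simp [mul_left, mul_assoc]
    · rfl
  smul_mul w a b := by
    apply Prod.ext
    · funext x
      change D₁.ρ (w.left x) (a.1 (w.right⁻¹ * x) * b.1 (w.right⁻¹ * x)) =
        D₁.ρ (w.left x) (a.1 (w.right⁻¹ * x)) * D₁.ρ (w.left x) (b.1 (w.right⁻¹ * x))
      simp
    · rfl
  smul_one w := by
    apply Prod.ext
    · funext x
      change D₁.ρ (w.left x) 1 = 1
      simp
    · rfl

/-- The bijective cocycle of the wreath product. -/
def wBC (ε : Q ≃* Multiplicative (ZMod q)) : BCocycle (A ≀ᵣ Q) (V₂ Q V₁ q) where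
  ρ := @MulDistribMulAction.toMulAut _ _ _ _ (wAct D₁)
  π w := (fun x => D₁.π (w.left x), ε w.right)
  cocycle w w' := by
    apply Prod.ext
    · funext x
      change D₁.π ((w * w').left x) = D₁.π (w.left x) * D₁.ρ (w.left x) (D₁.π (w'.left (w.right⁻¹ * x)))
      rw [mul_left, Pi.mul_apply, D₁.cocycle]
    · change ε (w.right * w'.right) = ε w.right * ε w'.right
      exact map_mul _ _ _
  bij := by
    constructor
    · intro w w' h
      have h1 : ∀ x, D₁.π (w.left x) = D₁.π (w'.left x) := fun x => congrFun (congrArg Prod.fst h) x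
      have h2 : ε w.right = ε w'.right := congrArg Prod.snd h
      ext x
      · exact D₁.bij.1 (h1 x)
      · exact ε.injective h2
    · rintro ⟨u, c⟩
      refine ⟨⟨fun x => Function.surjInv D₁.bij.2 (u x), ε.symm c⟩, ?_⟩
      apply Prod.ext
      · funext x
        exact Function.surjInv_eq D₁.bij.2 (u x)
      · exact ε.apply_symm_apply c

end WreathStep

/-- The data exist for every solvable group. -/
theorem exists_data (n : ℕ) : ∀ (G : Type u) [Group G] [Finite G] [Group.IsSolvable G],
    Nat.card G = n → ∃ (Y V : Type u) (_ : Group Y) (_ : Finite Y) (_ : CommGroup V) (_ : Finite V)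
      (_ : BCocycle Y V) (m : ℕ), m ≠ 0 ∧ (∀ v : V, v ^ m = 1) ∧ Squarefree m ∧
      (∀ p : ℕ, p.Prime → (p ∣ m ↔ p ∣ Nat.card Y)) ∧
      (∀ p : ℕ, p.Prime → (p ∣ Nat.card Y ↔ p ∣ Nat.card G)) ∧
      ∃ f : G →* Y, Function.Injective f := by
  induction n using Nat.strong_induction_on with
  | _ n ih =>
    intro G _ _ _ hn
    by_cases hG : Nontrivial G
    · obtain ⟨K, hKn, hKp⟩ := Cfsg.Agent.Lib.FG7.FrobeniusCoset.exists_normal_prime_index (G := G)
      haveI := hKn
      have hlt : Nat.card K < n := by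
        rw [← hn, ← Subgroup.card_mul_index K]
        have := hKp.one_lt
        have h0 : 0 < Nat.card K := Nat.card_pos
        nlinarith
      obtain ⟨Y₁, V₁, _, _, _, _, D₁, m₁, hm0, hm, hsq, hmY, hYG, f₁, hf₁⟩ := ih _ hlt K rfl
      obtain ⟨f, hf⟩ := Cfsg.Agent.Lib.Char.MWreath.exists_embed K f₁ hf₁
      set q := K.index with hq
      haveI : Fact q.Prime := ⟨hKp⟩
      have hQ : Nat.card (G ⧸ K) = q := rfl
      have hQ' : Nat.card (Multiplicative (ZMod q)) = q := by
        rw [Nat.card_congr (Multiplicative.toAdd), Nat.card_zmod]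
      let ε : (G ⧸ K) ≃* Multiplicative (ZMod q) := mulEquivOfPrimeCardEq hQ hQ'
      have hcard : ∀ p : ℕ, p.Prime → (p ∣ Nat.card (Y₁ ≀ᵣ (G ⧸ K)) ↔ p ∣ Nat.card Y₁ ∨ p ∣ q) := by
        intro p hp
        rw [RegularWreathProduct.card, hQ, hp.dvd_mul]
        constructor
        · rintro (h | h)
          · exact Or.inl (hp.dvd_of_dvd_pow h)
          · exact Or.inr h
        · rintro (h | h)
          · exact Or.inl (dvd_pow h hKp.ne_zero)
          · exact Or.inr h
      refine ⟨Y₁ ≀ᵣ (G ⧸ K), V₂ (G ⧸ K) V₁ q, inferInstance, inferInstance, inferInstance,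
        inferInstance, wBC D₁ ε, if q ∣ m₁ then m₁ else m₁ * q, ?_, ?_, ?_, ?_, ?_, f, hf⟩
      · split_ifs
        · exact hm0
        · exact mul_ne_zero hm0 hKp.ne_zero
      · rintro ⟨u, c⟩
        have hd1 : m₁ ∣ (if q ∣ m₁ then m₁ else m₁ * q) := by
          split_ifs
          · exact dvd_rfl
          · exact dvd_mul_right _ _
        have hd2 : q ∣ (if q ∣ m₁ then m₁ else m₁ * q) := by
          split_ifs with h
          · exact h
          · exact dvd_mul_left _ _
        obtain ⟨k₁, hk₁⟩ := hd1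
        obtain ⟨k₂, hk₂⟩ := hd2
        apply Prod.ext
        · funext x
          change (u x) ^ _ = 1
          rw [hk₁, pow_mul, hm, one_pow]
        · change c ^ _ = 1
          rw [hk₂, pow_mul]
          have : c ^ q = 1 := by
            have := pow_card_eq_one' (x := c)
            rwa [hQ'] at this
          rw [this, one_pow]
      · split_ifs with h
        · exact hsq
        · exact (Nat.squarefree_mul ((Nat.Prime.coprime_iff_not_dvd hKp).mpr h).symm).mpr
            ⟨hsq, hKp.prime.squarefree⟩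
      · intro p hp
        rw [hcard p hp, ← hmY p hp]
        split_ifs with h
        · constructor
          · exact Or.inl
          · rintro (h1 | h1)
            · exact h1
            · exact h1.trans h
        · rw [hp.dvd_mul]
      · intro p hp
        rw [hcard p hp, hYG p hp, ← Subgroup.card_mul_index K, hp.dvd_mul]
    · rw [not_nontrivial_iff_subsingleton] at hG
      refine ⟨G, PUnit, inferInstance, inferInstance, inferInstance, inferInstance,
        ⟨1, fun _ => 1, fun _ _ => rfl, ⟨fun a b _ => Subsingleton.elim _ _,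
          fun _ => ⟨1, rfl⟩⟩⟩, 1, one_ne_zero, fun v => rfl, squarefree_one, ?_, fun p hp => Iff.rfl,
        MonoidHom.id G, Function.injective_id⟩
      intro p hp
      rw [Nat.card_of_subsingleton (1 : G)]

end Cfsg.Agent.Lib.Char.CTEmb
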