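import Cfsg.Agent.Lib.Char.OddIndexReal
import Mathlib.LinearAlgebra.Matrix.Kronecker
import Mathlib.LinearAlgebra.Trace
import Mathlib.Tactic

/-!
# Parity of multiplicities in characters of indicator `-1`

If `χ` has Frobenius–Schur indicator `-1` and `β` is an irreducible character of a subgroup
with indicator `1`, then `[χ_H, β]` is even.
-/

set_option autoImplicit false

namespace Cfsg.Agent.Lib.Char.FSParity

open Cfsg Module
open Cfsg.Agent.Lib.Char.Basic Cfsg.Agent.Lib.Char.Ortho Cfsg.Agent.Lib.Char.Complete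
open Cfsg.Agent.Lib.Char.FrobSchur Cfsg.Agent.Lib.Char.OddIndexReal
open scoped ComplexConjugate Matrix Kronecker

universe u

/-- A nondegenerate alternating form lives on an even-dimensional space. -/
theorem even_finrank_of_alt {W : Type*} [AddCommGroup W] [Module ℂ W] [FiniteDimensional ℂ W]
    (B : W →ₗ[ℂ] W →ₗ[ℂ] ℂ) (halt : ∀ x y, B x y = -B y x)
    (hnd : ∀ y, (∀ x, B x y = 0) → y = 0) : Even (finrank ℂ W) := by
  classical
  let b := Module.finBasis ℂ W
  let N : Matrix (Fin (finrank ℂ W)) (Fin (finrank ℂ W)) ℂ := Matrix.of fun i j => B (b i) (b j)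
  have hNt : Nᵀ = -N := by
    ext i j
    simp [N, halt (b j) (b i)]
  have hdet : N.det ≠ 0 := by
    intro h0
    obtain ⟨c, hc, hNc⟩ := Matrix.exists_mulVec_eq_zero_iff.mpr h0
    apply hc
    have hy : (∑ j, c j • b j) = 0 := by
      apply hnd
      have hbi : ∀ i, B (b i) (∑ j, c j • b j) = 0 := by
        intro i
        have h1 := congrFun hNc i
        simp only [Matrix.mulVec, dotProduct, N, Matrix.of_apply, Pi.zero_apply] at h1
        simp only [map_sum, map_smul, smul_eq_mul]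
        rw [← h1]
        exact Finset.sum_congr rfl fun j _ => mul_comm _ _
      intro x
      rw [← b.sum_repr x]
      simp only [map_sum (B : W →ₗ[ℂ] W →ₗ[ℂ] ℂ), LinearMap.sum_apply, map_smul,
        LinearMap.smul_apply, smul_eq_mul]
      apply Finset.sum_eq_zero
      intro i _
      rw [hbi i, mul_zero]
    funext j
    exact (Fintype.linearIndependent_iff.mp b.linearIndependent) c hy j
  have h1 : N.det = (-1) ^ (finrank ℂ W) * N.det := by
    conv_lhs => rw [← Matrix.det_transpose, hNt, Matrix.det_neg]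
    simp
  have h2 : (-1 : ℂ) ^ (finrank ℂ W) = 1 := mul_right_cancel₀ hdet (by rw [one_mul]; exact h1.symm)
  by_contra hodd
  rw [Nat.not_even_iff_odd] at hodd
  rw [hodd.neg_one_pow] at h2
  norm_num at h2

section Parity

variable {H : Type*} [Group H] [Fintype H] {ι : Type*} [Fintype ι] [DecidableEq ι]

/-- The average trace of a group of matrices preserving an alternating form is even. -/
theorem even_trace_of_alt (A : H → Matrix ι ι ℂ) (hA1 : A 1 = 1)
    (hmul : ∀ g h, A (g * h) = A g * A h) (M : Matrix ι ι ℂ) (halt : Mᵀ = -M) (hM : IsUnit M)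
    (hinv : ∀ h, (A h)ᵀ * M * A h = M) :
    ∃ k : ℕ, (Nat.card H : ℂ)⁻¹ * ∑ h, Matrix.trace (A h) = ((2 * k : ℕ) : ℂ) := by
  classical
  have hcard : (Nat.card H : ℂ) ≠ 0 := Nat.cast_ne_zero.mpr Nat.card_pos.ne'
  let e : Matrix ι ι ℂ := (Nat.card H : ℂ)⁻¹ • ∑ h, A h
  let W : Submodule ℂ (ι → ℂ) :=
    { carrier := {v | ∀ h, A h *ᵥ v = v}
      add_mem' := by
        intro a b ha hb h
        rw [Matrix.mulVec_add, ha h, hb h]
      zero_mem' := by
        intro h
        rw [Matrix.mulVec_zero]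
      smul_mem' := by
        intro c v hv h
        rw [Matrix.mulVec_smul, hv h] }
  have hmemW : ∀ v, v ∈ W ↔ ∀ h, A h *ᵥ v = v := fun v => Iff.rfl
  have hE1 : ∀ v, e *ᵥ v ∈ W := by
    intro v g
    have h1 : A g * e = e := by
      simp only [e]
      rw [Matrix.mul_smul, Finset.mul_sum]
      congr 1
      refine Fintype.sum_equiv (Equiv.mulLeft g) _ _ fun h => ?_
      simp [hmul]
    rw [Matrix.mulVec_mulVec, h1]
  have hsum : ∀ (v : ι → ℂ), e *ᵥ v = (Nat.card H : ℂ)⁻¹ • ∑ h, A h *ᵥ v := by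
    intro v
    simp only [e]
    rw [Matrix.smul_mulVec, Matrix.sum_mulVec]
  have hE2 : ∀ w ∈ W, e *ᵥ w = w := by
    intro w hw
    rw [hsum]
    have h1 : ∑ h, A h *ᵥ w = ∑ _h : H, w := Finset.sum_congr rfl fun h _ => hw h
    rw [h1, Finset.sum_const, Finset.card_univ, ← Nat.card_eq_fintype_card, ← Nat.cast_smul_eq_nsmul ℂ,
      smul_smul, inv_mul_cancel₀ hcard, one_smul]
  let E := Matrix.toLin' e
  have hproj : LinearMap.IsProj W E := ⟨fun v => hE1 v, fun w hw => hE2 w hw⟩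
  have htr : LinearMap.trace ℂ (ι → ℂ) E = (finrank ℂ W : ℂ) := hproj.trace
  have htr2 : LinearMap.trace ℂ (ι → ℂ) E = (Nat.card H : ℂ)⁻¹ * ∑ h, Matrix.trace (A h) := by
    simp only [E]
    rw [Matrix.trace_toLin'_eq]
    simp only [e]
    rw [Matrix.trace_smul, Matrix.trace_sum, smul_eq_mul]
  -- the form
  have hdot : ∀ (g : H) (x v : ι → ℂ), x ⬝ᵥ (M *ᵥ (A g *ᵥ v)) = (A g⁻¹ *ᵥ x) ⬝ᵥ (M *ᵥ v) := by
    intro g x v
    have h1 : M * A g = (A g⁻¹)ᵀ * M := by
      have h2 := hinv g⁻¹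
      have h3 : A g⁻¹ * A g = 1 := by rw [← hmul, inv_mul_cancel, hA1]
      calc M * A g = (A g⁻¹)ᵀ * M * A g⁻¹ * A g := by rw [h2]
        _ = (A g⁻¹)ᵀ * M * (A g⁻¹ * A g) := by simp only [mul_assoc]
        _ = _ := by rw [h3, mul_one]
    rw [Matrix.mulVec_mulVec, h1, ← Matrix.mulVec_mulVec, Matrix.dotProduct_mulVec x (A g⁻¹)ᵀ,
      Matrix.vecMul_transpose]
  let B : W →ₗ[ℂ] W →ₗ[ℂ] ℂ := LinearMap.mk₂ ℂ (fun x y => (x : ι → ℂ) ⬝ᵥ (M *ᵥ (y : ι → ℂ)))
    (by intro a b c; simp [add_dotProduct]) (by intro c a b; simp [smul_dotProduct])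
    (by intro a b c; simp [Matrix.mulVec_add, dotProduct_add])
    (by intro c a b; simp [Matrix.mulVec_smul, dotProduct_smul])
  have hB : ∀ x y : W, B x y = (x : ι → ℂ) ⬝ᵥ (M *ᵥ (y : ι → ℂ)) := fun x y => rfl
  have hanti : ∀ x y : W, B x y = -B y x := by
    intro x y
    rw [hB, hB]
    calc (x : ι → ℂ) ⬝ᵥ (M *ᵥ (y : ι → ℂ)) = ((x : ι → ℂ) ᵥ* M) ⬝ᵥ (y : ι → ℂ) :=
          Matrix.dotProduct_mulVec _ _ _
      _ = (y : ι → ℂ) ⬝ᵥ ((x : ι → ℂ) ᵥ* M) := dotProduct_comm _ _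
      _ = (y : ι → ℂ) ⬝ᵥ (Mᵀ *ᵥ (x : ι → ℂ)) := by rw [Matrix.mulVec_transpose]
      _ = -((y : ι → ℂ) ⬝ᵥ (M *ᵥ (x : ι → ℂ))) := by
          rw [halt, Matrix.neg_mulVec, dotProduct_neg]
  have hnd : ∀ y : W, (∀ x : W, B x y = 0) → y = 0 := by
    intro y hy
    have h1 : ∀ v : ι → ℂ, v ⬝ᵥ (M *ᵥ (y : ι → ℂ)) = 0 := by
      intro v
      -- average `v`
      have h2 := hy ⟨e *ᵥ v, hE1 v⟩
      rw [hB] at h2
      have h3 : (e *ᵥ v) ⬝ᵥ (M *ᵥ (y : ι → ℂ)) = v ⬝ᵥ (M *ᵥ (y : ι → ℂ)) := by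
        rw [hsum, smul_dotProduct, sum_dotProduct]
        have h4 : ∀ h : H, (A h *ᵥ v) ⬝ᵥ (M *ᵥ (y : ι → ℂ)) = v ⬝ᵥ (M *ᵥ (y : ι → ℂ)) := by
          intro h
          have h5 := hdot h (A h *ᵥ v) (y : ι → ℂ)
          rw [y.2 h] at h5
          rw [h5, Matrix.mulVec_mulVec, ← hmul, inv_mul_cancel, hA1, Matrix.one_mulVec]
        simp only [h4, Finset.sum_const, Finset.card_univ]
        rw [← Nat.card_eq_fintype_card, ← Nat.cast_smul_eq_nsmul ℂ, smul_smul, inv_mul_cancel₀ hcard,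
          one_smul]
      rw [← h3]
      exact h2
    have h2 : M *ᵥ (y : ι → ℂ) = 0 := by
      funext i
      have h3 := h1 (Pi.single i 1)
      simpa using h3
    have hinj : Function.Injective M.mulVec := (Matrix.mulVec_injective_iff_isUnit).mpr hM
    have h3 : (y : ι → ℂ) = 0 := hinj (by rw [h2, Matrix.mulVec_zero])
    exact Subtype.ext h3
  obtain ⟨k, hk⟩ := even_finrank_of_alt B hanti hnd
  refine ⟨k, ?_⟩
  rw [← htr2, htr, hk]
  push_cast
  ring

end Parity

section Main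

variable {G : Type u} [Group G] [Fintype G]

/-- Multiplicities of indicator-one constituents in a character of indicator `-1` are even. -/
theorem classInner_even_of_nu_neg (H : Subgroup G) [Fintype H] {χ : G → ℂ}
    (hχ : IsIrrCharacter G χ) (hν : nu χ = -1) {β : H → ℂ} (hβ : IsIrrCharacter H β)
    (hνβ : nu β = 1) : ∃ k : ℕ, classInner (fun h : H => χ h) β = ((2 * k : ℕ) : ℂ) := by
  classical
  have hβr := real_of_nu_ne_zero hβ (by rw [hνβ]; exact one_ne_zero)
  have hχr := real_of_nu_ne_zero hχ (by rw [hν]; norm_num)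
  obtain ⟨n, ρ, hρ, rfl⟩ := hχ
  obtain ⟨m, σ, hσ, rfl⟩ := hβ
  have hreal : ∀ g, (ρ.character g).im = 0 := fun g => Complex.conj_eq_iff_im.mp (hχr g)
  have hrealβ : ∀ g, (σ.character g).im = 0 := fun g => Complex.conj_eq_iff_im.mp (hβr g)
  obtain ⟨-, ⟨M, hM, hMne⟩, hMt⟩ := indicator_real ρ hρ hreal
  obtain ⟨-, ⟨M', hM', hMne'⟩, hMt'⟩ := indicator_real σ hσ hrealβ
  have hMt1 : Mᵀ = -M := by
    have := hMt M hM
    have e : (Nat.card G : ℂ)⁻¹ * ∑ s : G, ρ.character (s * s) = -1 := hν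
    rw [e] at this
    simpa using this
  have hMt2 : M'ᵀ = M' := by
    have := hMt' M' hM'
    have e : (Nat.card H : ℂ)⁻¹ * ∑ s : H, σ.character (s * s) = 1 := hνβ
    rw [e] at this
    simpa using this
  have hU := isUnit_of_mem_invForms ρ hρ hM hMne
  have hU' := isUnit_of_mem_invForms σ hσ hM' hMne'
  let Ak : H → Matrix (Fin n × Fin m) (Fin n × Fin m) ℂ := fun h => (A ρ (h : G)) ⊗ₖ (A σ h)
  obtain ⟨k, hk⟩ := even_trace_of_alt Ak
    (by
      simp only [Ak]
      rw [OneMemClass.coe_one, A_one, A_one, Matrix.kroneckerMap_one_one _ (by simp) (by simp) (by simp)])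
    (by
      intro g h
      simp only [Ak]
      rw [Subgroup.coe_mul, A_mul, A_mul, Matrix.mul_kronecker_mul])
    (M ⊗ₖ M')
    (by
      rw [← Matrix.kroneckerMap_transpose, hMt1, hMt2]
      ext i j
      simp)
    (by
      obtain ⟨u, rfl⟩ := hU
      obtain ⟨u', rfl⟩ := hU'
      refine IsUnit.of_mul_eq_one (↑u⁻¹ ⊗ₖ ↑u'⁻¹) ?_
      rw [← Matrix.mul_kronecker_mul]
      simp [Matrix.kroneckerMap_one_one])
    (by
      intro h
      simp only [Ak]
      rw [← Matrix.kroneckerMap_transpose, ← Matrix.mul_kronecker_mul, ← Matrix.mul_kronecker_mul,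
        hM (h : G), hM' h])
  refine ⟨k, ?_⟩
  rw [← hk, classInner_def]
  congr 1
  refine Finset.sum_congr rfl fun h _ => ?_
  simp only [Ak]
  rw [Matrix.trace_kronecker, trace_A, trace_A, hβr h]

/-- If a constituent of indicator one occurs with odd multiplicity in a real irreducible character,
then the indicator of the latter is one. -/
theorem nu_eq_one_of_classInner_odd (H : Subgroup G) [Fintype H] {χ : G → ℂ}
    (hχ : IsIrrCharacter G χ) (hreal : ∀ g, conj (χ g) = χ g) {β : H → ℂ}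
    (hβ : IsIrrCharacter H β) (hνβ : nu β = 1) {k : ℕ}
    (hk : classInner (fun h : H => χ h) β = (k : ℂ)) (hodd : Odd k) : nu χ = 1 := by
  rcases nu_cases hχ with h | h | h
  · exfalso
    obtain ⟨n, ρ, hρ, rfl⟩ := hχ
    obtain ⟨s, hs⟩ := (frobeniusSchur ρ hρ).2.mp h
    exact hs (Complex.conj_eq_iff_im.mp (hreal s))
  · exact h
  · exfalso
    obtain ⟨j, hj⟩ := classInner_even_of_nu_neg H hχ h hβ hνβ
    rw [hk] at hj
    have h1 : k = 2 * j := by exact_mod_cast hj
    rw [h1] at hodd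
    exact (Nat.not_even_iff_odd.mpr hodd) (even_two_mul j)

end Main

end Cfsg.Agent.Lib.Char.FSParity
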