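import Cfsg.Agent.Lib.Char.RVPiece
import Mathlib

/-!
# The Gauss sum piece

For an `H`-invariant nondegenerate symmetric bilinear form `b` on a finite abelian `p`-group `W`
with `p ∤ |H|`, the Gauss sum `G(h) = ∑ₓ e(b((1 - h) x, x))` satisfies `|G(h)|² = |W| |C_W(h)|` and
`G` is divisible by `|C_W(h)|`; the quotient is a piece.
-/

set_option autoImplicit false
set_option linter.style.haveILetI false

namespace Cfsg.Agent.Lib.Char.GaussPiece

open Cfsg Module
open Cfsg.Agent.Lib.Char.AlgSpan Cfsg.Agent.Lib.Char.PSmall Cfsg.Agent.Lib.Char.Galois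
open Cfsg.Agent.Lib.Char.RVPiece
open scoped ComplexConjugate

universe u v

section Char

variable {p : ℕ} [Fact p.Prime]

/-- The standard additive character of `ZMod p`. -/
noncomputable abbrev ee (x : ZMod p) : ℂ := ZMod.stdAddChar (N := p) x

theorem ee_add (x y : ZMod p) : ee (x + y) = ee x * ee y := AddChar.map_add_eq_mul _ _ _

theorem ee_zero : ee (0 : ZMod p) = 1 := AddChar.map_zero_eq_one _

theorem ee_pow (x : ZMod p) : ee x ^ p = 1 := by
  have h := AddChar.map_nsmul_eq_pow (ZMod.stdAddChar (N := p)) p x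
  rw [← h]
  simp

theorem ee_inj {x y : ZMod p} (h : ee x = ee y) : x = y := ZMod.injective_stdAddChar h

theorem ee_ne_one {x : ZMod p} (h : x ≠ 0) : ee x ≠ 1 := by
  intro h1
  exact h (ee_inj (h1.trans ee_zero.symm))

theorem ee_sub (x y : ZMod p) : ee (x - y) = ee x * conj (ee y) := by
  rw [sub_eq_add_neg, ee_add]
  congr 1
  exact AddChar.map_neg_eq_conj _ _

theorem isIntegral_ee (x : ZMod p) : IsIntegral ℤ (ee x) :=
  IsIntegral.of_pow (Fact.out : p.Prime).pos (by rw [ee_pow]; exact isIntegral_one)

variable {W : Type*} [AddCommGroup W] [Fintype W]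

/-- Nontrivial characters sum to zero. -/
theorem sum_ee_eq_zero (f : W →+ ZMod p) {w₀ : W} (h : f w₀ ≠ 0) : ∑ w, ee (f w) = 0 := by
  have h1 : ∑ w, ee (f w) = ∑ w, ee (f (w + w₀)) := (Equiv.sum_comp (Equiv.addRight w₀) _).symm
  have h2 : ∀ w, ee (f (w + w₀)) = ee (f w) * ee (f w₀) := fun w => by
    rw [map_add, ee_add]
  simp_rw [h2] at h1
  rw [← Finset.sum_mul] at h1
  have h3 : (∑ w, ee (f w)) * (1 - ee (f w₀)) = 0 := by
    rw [mul_sub, ← h1]
    ring
  exact (mul_eq_zero.mp h3).resolve_right (sub_ne_zero.mpr (ee_ne_one h).symm)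

/-- Sum over the cosets of a subgroup. -/
theorem sum_eq_card_mul_sum_out (K : AddSubgroup W) [Fintype (W ⧸ K)]
    (F : W → ℂ) (hF : ∀ w, ∀ k ∈ K, F (w + k) = F w) :
    ∑ w, F w = (Nat.card K : ℂ) * ∑ c : W ⧸ K, F (Quotient.out c) := by
  classical
  rw [← Finset.sum_fiberwise Finset.univ (fun w => (QuotientAddGroup.mk w : W ⧸ K)) F, Finset.mul_sum]
  refine Finset.sum_congr rfl fun c _ => ?_
  set a : W := Quotient.out c with ha
  have hac : (QuotientAddGroup.mk a : W ⧸ K) = c := QuotientAddGroup.out_eq' c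
  have h1 : ∀ w ∈ Finset.univ.filter (fun w => (QuotientAddGroup.mk w : W ⧸ K) = c), F w = F a := by
    intro w hw
    have h2 := (Finset.mem_filter.mp hw).2
    rw [← hac, QuotientAddGroup.eq] at h2
    have h3 := hF w _ h2
    rw [add_neg_cancel_left] at h3
    exact h3.symm
  rw [Finset.sum_congr rfl h1, Finset.sum_const, nsmul_eq_mul]
  congr 1
  have hcard : (Finset.univ.filter (fun w => (QuotientAddGroup.mk w : W ⧸ K) = c)).card = Nat.card K := by
    rw [← Fintype.card_subtype, ← Nat.card_eq_fintype_card]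
    refine Nat.card_congr
      { toFun := fun w => ⟨-a + w.1, ?_⟩
        invFun := fun k => ⟨a + k.1, ?_⟩
        left_inv := ?_
        right_inv := ?_ }
    · have h2 : (QuotientAddGroup.mk a : W ⧸ K) = QuotientAddGroup.mk w.1 := hac.trans w.2.symm
      exact QuotientAddGroup.eq.mp h2
    · rw [← hac]
      exact (QuotientAddGroup.eq.mpr (by simp)).symm
    · intro w
      simp
    · intro k
      simp
  rw [hcard]

/-- A nontrivial group killed by `p` has order divisible by `p`. -/
theorem dvd_card_of_ne {A : Type*} [AddCommGroup A] [Finite A] (hA : ∀ a : A, p • a = 0) {a : A}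
    (ha : a ≠ 0) : p ∣ Nat.card A := by
  have hp : p.Prime := Fact.out
  have h1 : addOrderOf a ∣ p := addOrderOf_dvd_of_nsmul_eq_zero (hA a)
  have h2 : addOrderOf a ≠ 1 := fun h => ha (AddMonoid.addOrderOf_eq_one_iff.mp h)
  have h3 : addOrderOf a = p := ((Nat.dvd_prime hp).mp h1).resolve_left h2
  rw [← h3]
  exact addOrderOf_dvd_natCard a

end Char

section Gauss

variable {p : ℕ} [Fact p.Prime]
variable {H : Type u} [Group H] {W : Type v} [AddCommGroup W] [DistribMulAction H W]

/-- The quadratic function attached to `h`. -/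
def qq (b : W →+ W →+ ZMod p) (h : H) (x : W) : ZMod p := b (x - h • x) x

/-- Invariance under translation by fixed points. -/
theorem qq_add_fix (b : W →+ W →+ ZMod p) (hinv : ∀ (h : H) x y, b (h • x) (h • y) = b x y) (h : H)
    (x : W) {f : W} (hf : h • f = f) : qq b h (x + f) = qq b h x := by
  unfold qq
  have h1 : x + f - h • (x + f) = x - h • x := by
    rw [smul_add, hf]
    abel
  rw [h1, map_add]
  have h2 : b (x - h • x) f = 0 := by
    have h3 := hinv h x f
    rw [hf] at h3
    simp only [map_sub, AddMonoidHom.sub_apply, h3, sub_self]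
  rw [h2, add_zero]

/-- Fixed points have value zero. -/
theorem qq_of_fix (b : W →+ W →+ ZMod p) (h : H) {z : W} (hz : h • z = z) : qq b h z = 0 := by
  unfold qq
  rw [hz, sub_self]
  simp

/-- The decomposition of `q (y + z)`. -/
theorem qq_add (b : W →+ W →+ ZMod p) (h : H) (y z : W) :
    qq b h (y + z) = qq b h y + qq b h z + (b (y - h • y) z + b (z - h • z) y) := by
  unfold qq
  have h1 : y + z - h • (y + z) = (y - h • y) + (z - h • z) := by
    rw [smul_add]
    abel
  rw [h1]
  simp only [map_add, AddMonoidHom.add_apply]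
  ring

/-- The elementary coprimality fact. -/
theorem fix_of_eq_zero [Finite H] (hcop : ¬ p ∣ Nat.card H) (hWp : ∀ w : W, p • w = 0) (h : H) {z : W}
    (hz : z + z - h⁻¹ • z - h • z = 0) : h • z = z := by
  have hp : p.Prime := Fact.out
  set y := h • z - z with hy
  have h1 : h • y = y := by
    have h2 := congrArg (fun t => h • t) hz
    simp only [smul_sub, smul_add, smul_inv_smul, smul_zero] at h2
    rw [hy, smul_sub]
    have h3 : h • h • z - h • z = h • z - z := by
      have : h • h • z - h • z - (h • z - z) = -(h • z + h • z - z - h • h • z) := by abel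
      rw [← sub_eq_zero, this, h2, neg_zero]
    exact h3
  have h4 : ∀ k : ℕ, h ^ k • z = z + k • y := by
    intro k
    induction k with
    | zero => simp
    | succ k ih =>
      have h5 : h • (k • y) = k • (h • y) := map_nsmul (DistribSMul.toAddMonoidHom W h) k y
      have h6 : h • z = z + y := by rw [hy]; abel
      rw [pow_succ', mul_smul, ih, smul_add, h5, h1, h6, succ_nsmul]
      abel
  have h7 := h4 (orderOf h)
  rw [pow_orderOf_eq_one, one_smul] at h7
  have h8 : orderOf h • y = 0 := by
    have := h7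
    exact left_eq_add.mp this
  have h9 : addOrderOf y ∣ orderOf h := addOrderOf_dvd_of_nsmul_eq_zero h8
  have h10 : addOrderOf y ∣ p := addOrderOf_dvd_of_nsmul_eq_zero (hWp y)
  have h11 : addOrderOf y ≠ p := by
    intro h12
    rw [h12] at h9
    exact hcop (h9.trans (orderOf_dvd_natCard h))
  have h13 : addOrderOf y = 1 := ((Nat.dvd_prime hp).mp h10).resolve_right h11
  have h14 : y = 0 := AddMonoid.addOrderOf_eq_one_iff.mp h13
  exact sub_eq_zero.mp h14

section Main

variable [Fintype W]

/-- The Gauss sum. -/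
noncomputable def gauss (b : W →+ W →+ ZMod p) (h : H) : ℂ := ∑ x : W, ee (qq b h x)

/-- The kernel of the operator whose traces are the Gauss sums. -/
noncomputable def kernel (b : W →+ W →+ ZMod p) : Matrix W W ℂ :=
  Matrix.of fun x y => ee (b x x - b y x)

/-- The Gauss sum is in the span of the characters. -/
theorem gauss_span [DecidableEq W] (b : W →+ W →+ ZMod p)
    (hinv : ∀ (h : H) x y, b (h • x) (h • y) = b x y) :
    InAlgSpan (fun h : H => gauss b h) := by
  have h1 := inAlgSpan_trace (permRep (H := H) W) (Matrix.toLin' (kernel b))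
    (fun h => commute_toLin'_permRep W _ (fun h x y => by
      simp only [kernel, Matrix.of_apply, hinv]) h)
    (fun μ hμ => isIntegral_of_hasEigenvalue_toLin' _ (fun i j => isIntegral_ee _) μ hμ)
  refine h1.congr fun h => ?_
  rw [trace_toLin'_comp_permRep]
  refine Finset.sum_congr rfl fun x _ => ?_
  simp only [kernel, Matrix.of_apply, qq, map_sub, AddMonoidHom.sub_apply]

/-- The value at the identity. -/
theorem gauss_one (b : W →+ W →+ ZMod p) : gauss b (1 : H) = Nat.card W := by
  unfold gauss qq
  simp [Nat.card_eq_fintype_card]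

/-- Factoring out the fixed points. -/
theorem gauss_eq (b : W →+ W →+ ZMod p) (hinv : ∀ (h : H) x y, b (h • x) (h • y) = b x y) (h : H)
    [Fintype (W ⧸ fixSub W h)] :
    gauss b h = (fx W h : ℂ) * ∑ c : W ⧸ fixSub W h, ee (qq b h (Quotient.out c)) := by
  unfold gauss
  rw [fx_eq_card]
  exact sum_eq_card_mul_sum_out (fixSub W h) _ fun w k hk => by
    rw [qq_add_fix b hinv h w hk]

/-- The absolute value. -/
theorem gauss_mul_conj [Finite H] (hcop : ¬ p ∣ Nat.card H) (hWp : ∀ w : W, p • w = 0)
    (b : W →+ W →+ ZMod p) (hsymm : ∀ x y, b x y = b y x)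
    (hinv : ∀ (h : H) x y, b (h • x) (h • y) = b x y) (hnd : ∀ x, (∀ y, b x y = 0) → x = 0) (h : H) :
    gauss b h * conj (gauss b h) = (Nat.card W : ℂ) * fx W h := by
  classical
  have h1 : gauss b h * conj (gauss b h) = ∑ y : W, ∑ z : W, ee (qq b h (y + z) - qq b h y) := by
    unfold gauss
    rw [map_sum, Finset.sum_mul_sum, Finset.sum_comm]
    refine Finset.sum_congr rfl fun y _ => ?_
    refine (Equiv.sum_comp (Equiv.addLeft y) _).symm.trans ?_
    refine Finset.sum_congr rfl fun z _ => ?_
    rw [ee_sub]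
    rfl
  -- the linear form in `y`
  let L : W → W →+ ZMod p := fun z => AddMonoidHom.mk' (fun y => b (y - h • y) z + b (z - h • z) y)
    (fun a c => by
      have : a + c - h • (a + c) = (a - h • a) + (c - h • c) := by
        rw [smul_add]
        abel
      simp only [this, map_add, AddMonoidHom.add_apply]
      ring)
  have hL : ∀ y z, L z y = b (y - h • y) z + b (z - h • z) y := fun y z => rfl
  have h2 : ∀ y z, qq b h (y + z) - qq b h y = qq b h z + L z y := by
    intro y z
    rw [qq_add, hL]
    ring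
  have h3 : ∑ y : W, ∑ z : W, ee (qq b h (y + z) - qq b h y) =
      ∑ z : W, ee (qq b h z) * ∑ y : W, ee (L z y) := by
    rw [Finset.sum_comm]
    refine Finset.sum_congr rfl fun z _ => ?_
    rw [Finset.mul_sum]
    refine Finset.sum_congr rfl fun y _ => ?_
    rw [h2, ee_add]
  rw [h1, h3]
  have h4 : ∀ z : W, ee (qq b h z) * ∑ y : W, ee (L z y) =
      if h • z = z then (Nat.card W : ℂ) else 0 := by
    intro z
    split_ifs with hz
    · rw [qq_of_fix b h hz, ee_zero, one_mul]
      have h5 : ∀ y, L z y = 0 := by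
        intro y
        rw [hL, hz, sub_self]
        have h6 := hinv h y z
        rw [hz] at h6
        simp [h6]
      simp [h5, Nat.card_eq_fintype_card]
    · have h5 : ∃ y, L z y ≠ 0 := by
        by_contra hcon
        push Not at hcon
        apply hz
        apply fix_of_eq_zero (p := p) hcop hWp h
        apply hnd
        intro y
        have h6 := hcon y
        rw [hL] at h6
        have e1 : b (h • y) z = b y (h⁻¹ • z) := by
          have := hinv h y (h⁻¹ • z)
          rwa [smul_inv_smul] at this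
        simp only [map_sub, AddMonoidHom.sub_apply, e1] at h6
        simp only [map_sub, map_add, AddMonoidHom.sub_apply, AddMonoidHom.add_apply]
        rw [hsymm z y] at h6
        rw [hsymm z y, hsymm (h⁻¹ • z) y]
        linear_combination h6
      obtain ⟨y, hy⟩ := h5
      rw [sum_ee_eq_zero _ hy, mul_zero]
  simp_rw [h4]
  rw [Finset.sum_ite, Finset.sum_const_zero, add_zero, Finset.sum_const, nsmul_eq_mul, fx,
    Nat.card_eq_fintype_card (α := {w : W // h • w = w}), Fintype.card_subtype]
  ring

end Main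

theorem fx_one : fx W (1 : H) = Nat.card W := by
  unfold fx
  simp only [one_smul]
  exact Nat.card_congr (Equiv.subtypeUnivEquiv fun _ => trivial)

/-- The Gauss piece. -/
theorem exists_piece [Finite H] [Finite W] (hcop : ¬ p ∣ Nat.card H) (hWp : ∀ w : W, p • w = 0)
    (b : W →+ W →+ ZMod p) (hsymm : ∀ x y, b x y = b y x)
    (hinv : ∀ (h : H) x y, b (h • x) (h • y) = b x y) (hnd : ∀ x, (∀ y, b x y = 0) → x = 0) :
    ∃ lam : H → ℂ, IsPiece W p lam := by
  classical
  have hp : p.Prime := Fact.out
  letI := Fintype.ofFinite W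
  letI : ∀ h : H, Fintype (W ⧸ fixSub W h) := fun h => Fintype.ofFinite _
  let lam : H → ℂ := fun h => ∑ c : W ⧸ fixSub W h, ee (qq b h (Quotient.out c))
  have hlam : ∀ h, gauss b h = (fx W h : ℂ) * lam h := fun h => gauss_eq b hinv h
  have hfx0 : ∀ h : H, (fx W h : ℂ) ≠ 0 := fun h => Nat.cast_ne_zero.mpr (fx_pos W h).ne'
  have hW0 : (Nat.card W : ℂ) ≠ 0 := Nat.cast_ne_zero.mpr Nat.card_pos.ne'
  refine ⟨lam, ?_⟩
  refine
    { one := ?_
      integral := ?_
      small := ?_
      normSq := ?_
      span := ?_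
      cyc := ?_ }
  · have h1 := hlam 1
    rw [gauss_one, fx_one] at h1
    exact (mul_eq_left₀ hW0).mp h1.symm
  · intro h
    exact IsIntegral.sum _ fun c _ => isIntegral_ee _
  · rintro h ⟨w, hw⟩
    have h1 : lam h = ∑ c : W ⧸ fixSub W h, (ee (qq b h (Quotient.out c)) - 1) +
        (Nat.card (W ⧸ fixSub W h) : ℂ) := by
      rw [Finset.sum_sub_distrib]
      simp [lam, Nat.card_eq_fintype_card]
    rw [h1]
    refine (isSmall_sum _ _ fun c _ => isSmall_sub_one hp (ee_pow _)).add
      (isSmall_natCast_of_dvd ?_)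
    refine dvd_card_of_ne (p := p) (a := (QuotientAddGroup.mk w : W ⧸ fixSub W h)) ?_ ?_
    · intro a
      induction a using QuotientAddGroup.induction_on with
      | H z =>
        rw [← QuotientAddGroup.mk_nsmul, hWp]
        rfl
    · intro h0
      exact hw ((QuotientAddGroup.eq_zero_iff w).mp h0)
  · intro h
    have h1 := gauss_mul_conj hcop hWp b hsymm hinv hnd h
    rw [hlam, map_mul, Complex.conj_natCast] at h1
    have h2 : (fx W h : ℂ) * (lam h * conj (lam h)) = (Nat.card W : ℂ) := by
      apply mul_left_cancel₀ (hfx0 h)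
      linear_combination h1
    rw [Complex.mul_conj, Complex.normSq_eq_norm_sq] at h2
    have h3 : (fx W h : ℝ) * ‖lam h‖ ^ 2 = (Nat.card W : ℝ) := by
      exact_mod_cast h2
    rw [mul_comm]
    exact h3
  · refine (gauss_span (H := H) b hinv).congr fun h => ?_
    exact (hlam h).symm
  · refine ⟨p, hp.ne_zero, fun h => ?_⟩
    refine sum_mem fun c _ => ?_
    exact mem_Kn_of_pow_eq_one hp.ne_zero (ee_pow _)

end Gauss

end Cfsg.Agent.Lib.Char.GaussPiece
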