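import Cfsg.Agent.Lib.Char.GaussPiece
import Cfsg.Agent.Lib.Char.Complete
import Mathlib

/-!
# Heisenberg groups

For a bilinear form `b` on an abelian group `W` with values in `ZMod p`, `Heis b` is `W × ZMod p` with
the product `(x, s) (y, t) = (x + y, s + t + b x y)`.  If the commutator form `b x y - b y x` is
nondegenerate, then it has an irreducible character of degree `m` with `m ^ 2 = |W|`, vanishing off
the centre, and equal to `m e(s)` at the central element `(0, s)`.
-/

set_option autoImplicit false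
set_option linter.style.haveILetI false
set_option linter.dupNamespace false

namespace Cfsg.Agent.Lib.Char.Heis

open Cfsg Module
open Cfsg.Agent.Lib.Char.GaussPiece Cfsg.Agent.Lib.Char.Complete Cfsg.Agent.Lib.Char.Ortho
open Cfsg.Agent.Lib.Char.Basic
open scoped ComplexConjugate

universe u

variable {W : Type u} [AddCommGroup W] {p : ℕ}

/-- The Heisenberg group of a bilinear form. -/
@[ext] structure Heis (b : W →+ W →+ ZMod p) where
  x : W
  s : ZMod p

variable (b : W →+ W →+ ZMod p)

instance : Mul (Heis b) := ⟨fun a c => ⟨a.x + c.x, a.s + c.s + b a.x c.x⟩⟩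
instance : One (Heis b) := ⟨⟨0, 0⟩⟩
instance : Inv (Heis b) := ⟨fun a => ⟨-a.x, -a.s + b a.x a.x⟩⟩

variable {b}

@[simp] theorem mul_x (a c : Heis b) : (a * c).x = a.x + c.x := rfl
@[simp] theorem mul_s (a c : Heis b) : (a * c).s = a.s + c.s + b a.x c.x := rfl
@[simp] theorem one_x : (1 : Heis b).x = 0 := rfl
@[simp] theorem one_s : (1 : Heis b).s = 0 := rfl
@[simp] theorem inv_x (a : Heis b) : (a⁻¹).x = -a.x := rfl
@[simp] theorem inv_s (a : Heis b) : (a⁻¹).s = -a.s + b a.x a.x := rfl

instance : Group (Heis b) :=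
  Group.ofLeftAxioms
    (fun a c d => by
      refine Heis.ext (by simp [add_assoc]) ?_
      simp only [mul_s, mul_x, map_add, AddMonoidHom.add_apply]
      ring)
    (fun a => by
      refine Heis.ext (by simp) ?_
      simp)
    (fun a => by
      refine Heis.ext (by simp) ?_
      simp)

/-- The underlying product. -/
def equivProd (b : W →+ W →+ ZMod p) : Heis b ≃ W × ZMod p where
  toFun a := (a.x, a.s)
  invFun a := ⟨a.1, a.2⟩
  left_inv _ := rfl
  right_inv _ := rfl

instance [Finite W] [NeZero p] : Finite (Heis b) := Finite.of_equiv _ (equivProd b).symm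

noncomputable instance [Fintype W] [NeZero p] : Fintype (Heis b) := Fintype.ofEquiv _ (equivProd b).symm

theorem card_heis [Finite W] [NeZero p] : Nat.card (Heis b) = Nat.card W * p := by
  rw [Nat.card_congr (equivProd b), Nat.card_prod, Nat.card_zmod]

theorem sum_heis [Fintype W] [NeZero p] (F : Heis b → ℂ) :
    ∑ g, F g = ∑ w : W, ∑ s : ZMod p, F ⟨w, s⟩ := by
  rw [← Fintype.sum_prod_type']
  exact Fintype.sum_equiv (equivProd b) _ _ fun _ => rfl

/-- Conjugation. -/
theorem conj_eq (a c : Heis b) : a * c * a⁻¹ = ⟨c.x, c.s + b a.x c.x - b c.x a.x⟩ := by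
  refine Heis.ext (by simp) ?_
  simp only [mul_s, mul_x, inv_s, inv_x, map_add, AddMonoidHom.add_apply, map_neg]
  ring

/-- Central elements. -/
def zz (s : ZMod p) : Heis b := ⟨0, s⟩

theorem zz_mul (t : ZMod p) (g : Heis b) : zz t * g = ⟨g.x, t + g.s⟩ := by
  refine Heis.ext (by simp [zz]) ?_
  simp [zz]

theorem zz_mem_center (t : ZMod p) : (zz t : Heis b) ∈ Subgroup.center (Heis b) := by
  rw [Subgroup.mem_center_iff]
  intro g
  rw [zz_mul]
  refine Heis.ext (by simp [zz]) ?_
  simp [zz, add_comm]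

section Tau

variable [Fact p.Prime]

theorem ee_mul_conj (t : ZMod p) : ee t * conj (ee t) = 1 := by
  rw [← ee_sub, sub_self, ee_zero]

theorem rep_zz_of_classInner {n : ℕ} [Fintype (Heis b)] (ρ : Representation ℂ (Heis b) (Fin n → ℂ))
    (hρ : ρ.IsIrreducible) (F : Heis b → ℂ) (hF : ∀ t g, F (zz t * g) = ee t * F g)
    (h0 : classInner F ρ.character ≠ 0) (t : ZMod p) :
    ρ (zz t) = ee t • (1 : Module.End ℂ (Fin n → ℂ)) := by
  classical
  haveI := hρ
  obtain ⟨ω, hω⟩ := Cfsg.Agent.Lib.Char.Central.center_acts_scalar ρ (zz t) (zz_mem_center t)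
  rw [hω]
  congr 1
  have hτ : ∀ g, ρ.character (zz t * g) = ω * ρ.character g := by
    intro g
    change LinearMap.trace ℂ _ (ρ (zz t * g)) = ω * LinearMap.trace ℂ _ (ρ g)
    rw [map_mul, hω, smul_mul_assoc, one_mul, map_smul, smul_eq_mul]
  rw [classInner_def] at h0
  set S := ∑ g, F g * conj (ρ.character g) with hS
  have h1 : S = ee t * conj ω * S := by
    rw [hS, Finset.mul_sum]
    refine (Equiv.sum_comp (Equiv.mulLeft (zz t : Heis b)) _).symm.trans ?_
    refine Finset.sum_congr rfl fun g _ => ?_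
    simp only [Equiv.coe_mulLeft]
    rw [hF, hτ, map_mul]
    ring
  have hS0 : S ≠ 0 := by
    intro h
    apply h0
    rw [h, mul_zero]
  have h2 : ee t * conj ω = 1 := by
    have : (ee t * conj ω - 1) * S = 0 := by
      rw [sub_mul, ← h1]
      ring
    exact sub_eq_zero.mp ((mul_eq_zero.mp this).resolve_right hS0)
  have h3 : conj ω = conj (ee t) := by
    have h4 := ee_mul_conj t
    have h5 : ee t ≠ 0 := fun h => by
      rw [h, zero_mul] at h4
      exact zero_ne_one h4
    exact mul_left_cancel₀ h5 (h2.trans h4.symm)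
  exact (RingHom.injective (starRingEnd ℂ)) h3

/-- The irreducible character of the Heisenberg group. -/
theorem exists_tau [Finite W] (hnd : ∀ y, y ≠ 0 → ∃ x, b x y - b y x ≠ 0) :
    ∃ (τ : Heis b → ℂ) (m : ℕ), IsIrrCharacter (Heis b) τ ∧ τ 1 = m ∧ m ^ 2 = Nat.card W ∧
      (∀ s, τ ⟨0, s⟩ = m * ee s) ∧ (∀ w s, w ≠ 0 → τ ⟨w, s⟩ = 0) := by
  classical
  have hp : p.Prime := Fact.out
  letI := Fintype.ofFinite W
  let F : Heis b → ℂ := fun g => if g.x = 0 then ee g.s else 0
  have hF : ∀ t g, F (zz t * g) = ee t * F g := by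
    intro t g
    rw [zz_mul]
    simp only [F]
    split_ifs with h
    · rw [ee_add]
    · rw [mul_zero]
  have hFc : IsClassFunction (Heis b) F := by
    intro g a
    rw [conj_eq]
    simp only [F]
    split_ifs with h
    · simp [h]
    · rfl
  have hne : F ≠ 0 := by
    intro h0
    have h1 := congrFun h0 1
    simp only [F, one_x, if_true, one_s, ee_zero, Pi.zero_apply] at h1
    exact one_ne_zero h1
  have hex : ∃ χ, IsIrrCharacter (Heis b) χ ∧ classInner F χ ≠ 0 := by
    by_contra hcon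
    push Not at hcon
    exact hne (eq_zero_of_classInner_irr_eq_zero hFc hcon)
  obtain ⟨χ, ⟨n, ρ, hρ, rfl⟩, h0⟩ := hex
  have hz := rep_zz_of_classInner ρ hρ F hF h0
  have hirr : IsIrrCharacter (Heis b) ρ.character := ⟨n, ρ, hρ, rfl⟩
  have hτz : ∀ t g, ρ.character (zz t * g) = ee t * ρ.character g := by
    intro t g
    change LinearMap.trace ℂ _ (ρ (zz t * g)) = ee t * LinearMap.trace ℂ _ (ρ g)
    rw [map_mul, hz, smul_mul_assoc, one_mul, map_smul, smul_eq_mul]
  obtain ⟨m, hm⟩ := exists_deg_of_isCharacter (isCharacter_of_isIrrCharacter hirr)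
  have hs : ∀ s, ρ.character ⟨0, s⟩ = m * ee s := by
    intro s
    have h1 : (⟨0, s⟩ : Heis b) = zz s * 1 := by
      rw [mul_one]
      rfl
    rw [h1, hτz, hm]
    ring
  have hoff : ∀ w s, w ≠ 0 → ρ.character ⟨w, s⟩ = 0 := by
    intro w s hw
    obtain ⟨x, hx⟩ := hnd w hw
    set c := b x w - b w x with hc
    let a : Heis b := ⟨x, 0⟩
    have h1 : a * (⟨w, s⟩ : Heis b) * a⁻¹ = zz c * ⟨w, s⟩ := by
      rw [conj_eq, zz_mul]
      refine Heis.ext rfl ?_
      simp only [a, hc]
      ring
    have h2 := isClassFunction_of_isIrrCharacter hirr ⟨w, s⟩ a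
    rw [h1, hτz] at h2
    have h3 : (ee c - 1) * ρ.character ⟨w, s⟩ = 0 := by
      rw [sub_mul, h2]
      ring
    exact (mul_eq_zero.mp h3).resolve_left (sub_ne_zero.mpr (ee_ne_one hx))
  refine ⟨ρ.character, m, hirr, hm, ?_, hs, hoff⟩
  have h1 := classInner_self_of_isIrr hirr
  rw [classInner_def, sum_heis, Finset.sum_eq_single (0 : W)] at h1
  · have h2 : ∀ s : ZMod p, ρ.character ⟨0, s⟩ * conj (ρ.character ⟨0, s⟩) = (m : ℂ) ^ 2 := by
      intro s
      rw [hs, map_mul, Complex.conj_natCast]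
      have := ee_mul_conj s
      linear_combination (m : ℂ) ^ 2 * this
    simp only [h2, Finset.sum_const, Finset.card_univ, ZMod.card, nsmul_eq_mul] at h1
    rw [card_heis] at h1
    have hp0 : (p : ℂ) ≠ 0 := Nat.cast_ne_zero.mpr hp.ne_zero
    have hW0 : (Nat.card W : ℂ) ≠ 0 := Nat.cast_ne_zero.mpr Nat.card_pos.ne'
    push_cast at h1
    field_simp at h1
    exact_mod_cast h1
  · intro w _ hw
    refine Finset.sum_eq_zero fun s _ => ?_
    rw [hoff w s hw, zero_mul]
  · intro h
    exact absurd (Finset.mem_univ _) h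

end Tau

end Cfsg.Agent.Lib.Char.Heis
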