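import Cfsg.Agent.Lib.Char.ClassSum
import Cfsg.Agent.Lib.Char.Linear
import Cfsg.Agent.Lib.Coprime.Generation
import Cfsg.Agent.Lib.Coprime.Action

/-!
# Characters multiplicative on products of elements of coprime prime power orders

If `χ (x y) = χ x * χ y` for all irreducible `χ` and all nontrivial `x`, `y` of prime power orders
for two different primes, then every nonlinear `χ` satisfies `χ x * χ y = 0 = χ (x y)`; the coset
`x y G'` is a conjugacy class.  It follows that `G` is a `p`-group, abelian, or `G = A P` with the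
structure below, and conversely.
-/

set_option autoImplicit false
set_option linter.style.haveILetI false
set_option linter.unusedVariables false
set_option linter.unusedSectionVars false

namespace Cfsg.Agent.Lib.Char.MultCoprime

open Cfsg
open Cfsg.Agent.Lib.Char.Basic Cfsg.Agent.Lib.Char.Ortho Cfsg.Agent.Lib.Char.Complete
open Cfsg.Agent.Lib.Char.ClassSum Cfsg.Agent.Lib.Char.Linear
open scoped ComplexConjugate commutatorElement

universe u

variable {G : Type u} [Group G]

/-- Nontrivial elements of prime power orders for two different primes. -/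
def PPair (x y : G) : Prop :=
  x ≠ 1 ∧ y ≠ 1 ∧ ∃ p q a b : ℕ, p.Prime ∧ q.Prime ∧ p ≠ q ∧ orderOf x = p ^ a ∧ orderOf y = q ^ b

theorem PPair.symm {x y : G} (h : PPair x y) : PPair y x := by
  obtain ⟨hx, hy, p, q, a, b, hp, hq, hpq, h1, h2⟩ := h
  exact ⟨hy, hx, q, p, b, a, hq, hp, hpq.symm, h2, h1⟩

theorem orderOf_conj' (t x : G) : orderOf (t * x * t⁻¹) = orderOf x := by
  have := orderOf_injective (MulAut.conj t).toMonoidHom (MulAut.conj t).injective x
  simpa [MulAut.conj_apply] using this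

theorem orderOf_eq_of_isConj {a b : G} (h : IsConj a b) : orderOf a = orderOf b := by
  obtain ⟨c, rfl⟩ := isConj_iff.mp h
  exact (orderOf_conj' c a).symm

theorem PPair.conj_right {x y : G} (h : PPair x y) (t : G) : PPair x (t * y * t⁻¹) := by
  obtain ⟨hx, hy, p, q, a, b, hp, hq, hpq, h1, h2⟩ := h
  refine ⟨hx, ?_, p, q, a, b, hp, hq, hpq, h1, ?_⟩
  · intro h
    apply hy
    have : y = t⁻¹ * (t * y * t⁻¹) * t := by group
    rw [this, h]; group
  · rw [orderOf_conj', h2]

section Forward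

variable [Finite G]

/-- The hypothesis of the theorem. -/
def Mult (G : Type u) [Group G] : Prop :=
  ∀ (x y : G) (χ : IrrCharacter G), PPair x y → (χ : G → ℂ) (x * y) = (χ : G → ℂ) x * (χ : G → ℂ) y

variable (hm : Mult G)
include hm

theorem mul_eq_zero_of_nonlinear (χ : IrrCharacter G) (hχ : (χ : G → ℂ) 1 ≠ 1) {x y : G}
    (hxy : PPair x y) : (χ : G → ℂ) x * (χ : G → ℂ) y = 0 := by
  classical
  let _ := Fintype.ofFinite G
  have h1 := sum_irr_mul_conj' χ.2 x y
  have h2 : ∀ t : G, (χ : G → ℂ) (x * (t * y * t⁻¹)) = (χ : G → ℂ) x * (χ : G → ℂ) y := by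
    intro t
    rw [hm x _ χ (hxy.conj_right t), isClassFunction_of_isIrrCharacter χ.2 y t]
  simp only [h2, Finset.sum_const, Finset.card_univ, nsmul_eq_mul] at h1
  rw [← Nat.card_eq_fintype_card] at h1
  have hc : (Nat.card G : ℂ) ≠ 0 := by exact_mod_cast Nat.card_pos.ne'
  have h0 := irr_one_ne_zero χ.2
  have h3 : (χ : G → ℂ) x * (χ : G → ℂ) y * (χ : G → ℂ) 1 = (χ : G → ℂ) x * (χ : G → ℂ) y := by
    have := h1
    field_simp at this
    linear_combination this
  have h4 : (χ : G → ℂ) x * (χ : G → ℂ) y * ((χ : G → ℂ) 1 - 1) = 0 := by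
    linear_combination h3
  exact (mul_eq_zero.mp h4).resolve_right (sub_ne_zero.mpr hχ)

theorem mul_apply_eq_zero (χ : IrrCharacter G) (hχ : (χ : G → ℂ) 1 ≠ 1) {x y : G}
    (hxy : PPair x y) : (χ : G → ℂ) (x * y) = 0 := by
  rw [hm x y χ hxy, mul_eq_zero_of_nonlinear hm χ hχ hxy]

omit hm in
theorem deg_one_commutator (χ : IrrCharacter G) (hχ : (χ : G → ℂ) 1 = 1) {d : G}
    (hd : d ∈ commutator G) (g : G) : (χ : G → ℂ) (g * d) = (χ : G → ℂ) g := by
  obtain ⟨lam, hlam⟩ := exists_hom_of_deg_one (isCharacter_of_isIrrCharacter χ.2) hχ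
  rw [hlam]
  have : lam d = 1 := by
    have := Abelianization.commutator_subset_ker lam hd
    exact this
  simp [this]

omit hm in
theorem deg_one_mul_conj (χ : IrrCharacter G) (hχ : (χ : G → ℂ) 1 = 1) (g : G) :
    (χ : G → ℂ) g * conj ((χ : G → ℂ) g) = 1 := by
  obtain ⟨lam, hlam⟩ := exists_hom_of_deg_one (isCharacter_of_isIrrCharacter χ.2) hχ
  rw [hlam]
  have h1 : ((lam g : ℂˣ) : ℂ) ^ orderOf g = 1 := by
    rw [← Units.val_pow_eq_pow_val, ← map_pow, pow_orderOf_eq_one, map_one, Units.val_one]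
  have h2 := Cfsg.Agent.Lib.Char.Eigen.norm_eq_one_of_pow_eq_one (orderOf_pos g).ne' h1
  rw [Complex.mul_conj, Complex.normSq_eq_norm_sq, h2]
  simp

/-- The coset `x y G'` is one conjugacy class. -/
theorem isConj_mul_commutator {x y : G} (hxy : PPair x y) {d : G} (hd : d ∈ commutator G) :
    IsConj (x * y * d) (x * y) := by
  classical
  let _ := Fintype.ofFinite G
  have := finite_irrCharacter (G := G)
  let _ := Fintype.ofFinite (IrrCharacter G)
  by_contra hnot
  have h1 := sum_irr_mul_conj (x * y * d) (x * y)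
  rw [if_neg hnot] at h1
  have h2 : ∀ χ : IrrCharacter G, (χ : G → ℂ) (x * y * d) * conj ((χ : G → ℂ) (x * y)) =
      if (χ : G → ℂ) 1 = 1 then 1 else 0 := by
    intro χ
    by_cases hχ : (χ : G → ℂ) 1 = 1
    · rw [if_pos hχ, deg_one_commutator χ hχ hd, deg_one_mul_conj χ hχ]
    · rw [if_neg hχ, mul_apply_eq_zero hm χ hχ hxy]
      simp
  simp only [h2] at h1
  rw [Finset.sum_boole] at h1
  have h3 : ((Finset.univ.filter fun χ : IrrCharacter G => (χ : G → ℂ) 1 = 1).card : ℂ) ≠ 0 := by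
    have hpos : (Finset.univ.filter fun χ : IrrCharacter G => (χ : G → ℂ) 1 = 1).card ≠ 0 := by
      apply Finset.card_ne_zero_of_mem (a := ⟨fun g => ((1 : G →* ℂˣ) g : ℂ),
        isIrrCharacter_of_hom 1⟩)
      simp
    exact_mod_cast hpos
  exact h3 h1

/-- The property `K y`: the coset `y G'` lies in the class of `y`. -/
def CosetConj (y : G) : Prop := ∀ d ∈ commutator G, IsConj (y * d) y

/-- If `G'` has a nontrivial element `x` of prime power order and `y` has prime power order for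
another prime, then `y G'` is contained in the class of `y`. -/
theorem cosetConj_of_mem {x y : G} (hxy : PPair x y) (hx : x ∈ commutator G) : CosetConj y := by
  intro d hd
  have hn : (commutator G).Normal := inferInstance
  have he : y⁻¹ * x⁻¹ * y ∈ commutator G := by
    have := hn.conj_mem _ ((commutator G).inv_mem hx) y⁻¹
    simpa using this
  have h1 : IsConj y (x * y) := by
    have := isConj_mul_commutator hm hxy he
    have e : x * y * (y⁻¹ * x⁻¹ * y) = y := by group
    rwa [e] at this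
  have h2 : IsConj (y * d) (x * y) := by
    have := isConj_mul_commutator hm hxy ((commutator G).mul_mem he hd)
    have e : x * y * (y⁻¹ * x⁻¹ * y * d) = y * d := by group
    rwa [e] at this
  exact h2.trans h1.symm

omit hm in
theorem eq_one_of_cosetConj_mem {y : G} (hy : CosetConj y) (hy' : y ∈ commutator G) : y = 1 := by
  have := hy y⁻¹ ((commutator G).inv_mem hy')
  rw [mul_inv_cancel] at this
  exact isConj_one_right.mp this

omit hm in
/-- An element of `G'` commuting with `y` and of coprime order is trivial. -/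
theorem eq_one_of_cosetConj_commute {y d : G} (hy : CosetConj y) (hd : d ∈ commutator G)
    (hc : y * d = d * y) (hco : (orderOf y).Coprime (orderOf d)) : d = 1 := by
  have h1 := orderOf_eq_of_isConj (hy d hd)
  have h2 := (show Commute y d from hc).orderOf_mul_eq_mul_orderOf_of_coprime hco
  rw [h2] at h1
  have h3 : orderOf d = 1 := by
    have h4 : 0 < orderOf y := orderOf_pos y
    nlinarith [orderOf_pos d]
  exact orderOf_eq_one_iff.mp h3

/-- The structure theorem: the forward direction. -/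
theorem exists_struct (hna : ¬ IsMulCommutative G) (hnp : ¬ ∃ p : ℕ, p.Prime ∧ IsPGroup p G) :
    ∃ (p : ℕ) (_ : Fact p.Prime) (P : Sylow p G) (A : Subgroup G), (P : Subgroup G).Normal ∧
      IsCyclic ↥A ∧ A ≠ ⊥ ∧ (Nat.card ↥A).Coprime p ∧ A ⊔ (P : Subgroup G) = ⊤ ∧
      IsMulCommutative ↥((P : Subgroup G) ⊓ Subgroup.centralizer (A : Set G)) ∧
      (⁅A, (P : Subgroup G)⁆).Normal ∧
      ((P : Subgroup G) ⊓ Subgroup.centralizer (A : Set G)) ⊔ ⁅A, (P : Subgroup G)⁆ =
        (P : Subgroup G) ∧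
      ((P : Subgroup G) ⊓ Subgroup.centralizer (A : Set G)) ⊓ ⁅A, (P : Subgroup G)⁆ = ⊥ ∧
      ∀ a ∈ A, a ≠ 1 → ∀ d ∈ ⁅A, (P : Subgroup G)⁆, a * d = d * a → d = 1 := by
  classical
  set K : Subgroup G := commutator G with hK
  have hKn : K.Normal := inferInstance
  -- `G'` is nontrivial
  have hK1 : K ≠ ⊥ := by
    intro h
    apply hna
    refine ⟨⟨fun a b => ?_⟩⟩
    have h1 : ⁅a, b⁆ ∈ K := Subgroup.commutator_mem_commutator (Subgroup.mem_top a)
      (Subgroup.mem_top b)
    rw [h, Subgroup.mem_bot] at h1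
    exact commutatorElement_eq_one_iff_mul_comm.mp h1
  have hcardK : Nat.card K ≠ 1 := by
    intro h
    exact hK1 ((Subgroup.eq_bot_iff_card K).mpr h)
  obtain ⟨p, hp, hpK⟩ := Nat.exists_prime_and_dvd hcardK
  haveI : Fact p.Prime := ⟨hp⟩
  obtain ⟨x₀', hx₀'⟩ := exists_prime_orderOf_dvd_card' p hpK
  set x₀ : G := (x₀' : G) with hx₀
  have hx₀K : x₀ ∈ K := x₀'.2
  have hx₀o : orderOf x₀ = p := by
    rw [hx₀, Subgroup.orderOf_coe, hx₀']
  have hx₀1 : x₀ ≠ 1 := by
    intro h
    rw [h, orderOf_one] at hx₀o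
    exact hp.one_lt.ne hx₀o
  have hpair : ∀ y : G, y ≠ 1 → ∀ r a : ℕ, r.Prime → r ≠ p → orderOf y = r ^ a → PPair x₀ y := by
    intro y hy r a hr hrp hya
    exact ⟨hx₀1, hy, p, r, 1, a, hp, hr, hrp.symm, by simpa using hx₀o, hya⟩
  -- `G'` is a `p`-group
  have hKp : IsPGroup p K := by
    have h1 : ∀ {q : ℕ}, q.Prime → q ∣ Nat.card K → q = p := by
      intro q hq hqK
      by_contra hqp
      haveI : Fact q.Prime := ⟨hq⟩
      obtain ⟨y', hy'⟩ := exists_prime_orderOf_dvd_card' q hqK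
      have hyo : orderOf (y' : G) = q := by rw [Subgroup.orderOf_coe, hy']
      have hy1 : (y' : G) ≠ 1 := by
        intro h
        rw [h, orderOf_one] at hyo
        exact hq.one_lt.ne hyo
      have h2 := cosetConj_of_mem hm (hpair _ hy1 q 1 hq hqp (by simpa using hyo)) hx₀K
      exact hy1 (eq_one_of_cosetConj_mem h2 y'.2)
    have h3 := Nat.eq_prime_pow_of_unique_prime_dvd (Nat.card_pos (α := K)).ne' h1
    exact IsPGroup.of_card h3
  obtain ⟨P, hKP⟩ := hKp.exists_le_sylow
  have hcomm_mem : ∀ a b : G, ⁅a, b⁆ ∈ K := fun a b =>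
    Subgroup.commutator_mem_commutator (Subgroup.mem_top a) (Subgroup.mem_top b)
  have hPn : (P : Subgroup G).Normal := by
    refine ⟨fun n hn g => ?_⟩
    have h1 := hKP (hcomm_mem g n)
    have e : g * n * g⁻¹ = ⁅g, n⁆ * n := by
      rw [commutatorElement_def]; group
    rw [e]
    exact (P : Subgroup G).mul_mem h1 hn
  obtain ⟨A, hA⟩ := Subgroup.exists_right_complement'_of_coprime P.card_coprime_index
  have hAsup : A ⊔ (P : Subgroup G) = ⊤ := by rw [sup_comm]; exact hA.sup_eq_top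
  have hAdisj : Disjoint (P : Subgroup G) A := hA.disjoint
  have hAidx : (P : Subgroup G).index = Nat.card A := hA.symm.index_eq_card
  have hAcopp : (Nat.card A).Coprime p := by
    rw [← hAidx]
    exact ((Nat.Prime.coprime_iff_not_dvd hp).mpr P.not_dvd_index).symm
  have hAcopP : (Nat.card A).Coprime (Nat.card (P : Subgroup G)) := by
    rw [← hAidx]
    exact P.card_coprime_index.symm
  have hAcopK : (Nat.card A).Coprime (Nat.card K) := by
    obtain ⟨k, hk⟩ := IsPGroup.iff_card.mp hKp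
    rw [hk]
    exact hAcopp.pow_right k
  have hA1 : A ≠ ⊥ := by
    intro h
    apply hnp
    refine ⟨p, hp, ?_⟩
    have hPtop : (P : Subgroup G) = ⊤ := by
      rw [h, sup_comm, sup_bot_eq] at hAsup
      exact hAsup
    intro g
    obtain ⟨k, hk⟩ := P.isPGroup' ⟨g, by rw [hPtop]; exact Subgroup.mem_top g⟩
    refine ⟨k, ?_⟩
    have := congrArg Subtype.val hk
    simpa using this
  have hAcomm : ∀ a ∈ A, ∀ b ∈ A, a * b = b * a := by
    intro a ha b hb
    have h1 : ⁅a, b⁆ ∈ A := by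
      rw [commutatorElement_def]
      exact A.mul_mem (A.mul_mem (A.mul_mem ha hb) (A.inv_mem ha)) (A.inv_mem hb)
    have h2 := Subgroup.disjoint_def.mp hAdisj (hKP (hcomm_mem a b)) h1
    exact commutatorElement_eq_one_iff_mul_comm.mp h2
  haveI hAc : IsMulCommutative A := ⟨⟨fun a b => Subtype.ext (hAcomm a a.2 b b.2)⟩⟩
  haveI hAsolv : Group.IsSolvable A := Group.isSolvable_of_comm (fun a b => Subtype.ext (hAcomm a a.2 b b.2))
  -- the action is fixed point free
  have hfpf : ∀ a ∈ A, a ≠ 1 → ∀ d ∈ K, a * d = d * a → d = 1 := by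
    intro a ha ha1 d hd hc
    have hoa : orderOf a ≠ 1 := fun h => ha1 (orderOf_eq_one_iff.mp h)
    obtain ⟨r, hr, hra⟩ := Nat.exists_prime_and_dvd hoa
    have hoa0 : orderOf a ≠ 0 := (orderOf_pos a).ne'
    set y : G := a ^ (orderOf a / r) with hy
    have hyo : orderOf y = r := orderOf_pow_orderOf_div hoa0 hra
    have hy1 : y ≠ 1 := by
      intro h
      rw [h, orderOf_one] at hyo
      exact hr.one_lt.ne hyo
    have hrp : r ≠ p := by
      rintro rfl
      have h1 : orderOf a ∣ Nat.card A := by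
        have := orderOf_dvd_natCard (⟨a, ha⟩ : A)
        rwa [Subgroup.orderOf_mk] at this
      have h2 := Nat.dvd_gcd (hra.trans h1) (dvd_refl r)
      rw [hAcopp.gcd_eq_one] at h2
      exact hr.one_lt.ne' (Nat.dvd_one.mp h2)
    have hKy := cosetConj_of_mem hm (hpair y hy1 r 1 hr hrp (by simpa using hyo)) hx₀K
    have hcy : y * d = d * y := by
      have : Commute a d := hc
      exact (this.pow_left _)
    have hcop : (orderOf y).Coprime (orderOf d) := by
      obtain ⟨k, hk⟩ := (IsPGroup.iff_orderOf.mp hKp) ⟨d, hd⟩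
      rw [Subgroup.orderOf_mk] at hk
      rw [hk, hyo]
      exact ((Nat.coprime_primes hr hp).mpr hrp).pow_right k
    exact eq_one_of_cosetConj_commute hKy hd hcy hcop
  obtain ⟨⟨a₀, ha₀⟩, ha₀1⟩ := (Subgroup.ne_bot_iff_exists_ne_one).mp hA1
  have ha₀1' : a₀ ≠ 1 := fun h => ha₀1 (Subtype.ext h)
  have hleK : A ≤ Subgroup.normalizer (K : Set G) := by
    have := Subgroup.normalizer_eq_top_iff.mpr hKn
    rw [this]
    exact le_top
  have hleP : A ≤ Subgroup.normalizer ((P : Subgroup G) : Set G) := by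
    have := Subgroup.normalizer_eq_top_iff.mpr hPn
    rw [this]
    exact le_top
  -- cyclic
  have hAcyc : IsCyclic A := by
    by_contra hnc
    have h1 := Cfsg.Agent.Lib.Coprime.Generation.iSup_centralizer_eq hnc hleK hAcopK
    apply hK1
    rw [← h1, eq_bot_iff]
    refine iSup₂_le ?_
    rintro a ⟨ha, ha1⟩ d ⟨hdK, hdC⟩
    have h2 := hfpf a ha ha1 d hdK (Subgroup.mem_centralizer_iff.mp hdC a rfl)
    rw [Subgroup.mem_bot]
    exact h2
  have hKC : K ⊓ Subgroup.centralizer (A : Set G) = ⊥ := by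
    rw [eq_bot_iff]
    rintro d ⟨hdK, hdC⟩
    rw [Subgroup.mem_bot]
    exact hfpf a₀ ha₀ ha₀1' d hdK (Subgroup.mem_centralizer_iff.mp hdC a₀ ha₀)
  -- `D = G'`
  have hD : ⁅A, (P : Subgroup G)⁆ = K := by
    apply le_antisymm
    · exact Subgroup.commutator_mono le_top le_top
    · have h1 := Cfsg.Agent.Lib.Coprime.Action.commutator_sup_fixed hleK hAcopK (Or.inl hAsolv)
      rw [hKC, sup_bot_eq] at h1
      rw [← h1, Subgroup.commutator_comm]
      exact Subgroup.commutator_mono le_rfl hKP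
  refine ⟨p, inferInstance, P, A, hPn, hAcyc, hA1, hAcopp, hAsup, ?_, ?_, ?_, ?_, ?_⟩
  · refine ⟨⟨fun u v => ?_⟩⟩
    apply Subtype.ext
    have h1 : ⁅(u : G), (v : G)⁆ ∈ (P : Subgroup G) ⊓ Subgroup.centralizer (A : Set G) := by
      rw [commutatorElement_def]
      exact Subgroup.mul_mem _ (Subgroup.mul_mem _ (Subgroup.mul_mem _ u.2 v.2)
        (Subgroup.inv_mem _ u.2)) (Subgroup.inv_mem _ v.2)
    have h2 : ⁅(u : G), (v : G)⁆ ∈ K ⊓ Subgroup.centralizer (A : Set G) :=
      ⟨hcomm_mem _ _, h1.2⟩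
    rw [hKC, Subgroup.mem_bot] at h2
    exact commutatorElement_eq_one_iff_mul_comm.mp h2
  · rw [hD]; exact hKn
  · have h1 := Cfsg.Agent.Lib.Coprime.Action.commutator_sup_fixed hleP hAcopP (Or.inl hAsolv)
    rwa [sup_comm, Subgroup.commutator_comm] at h1
  · rw [hD, eq_bot_iff]
    rintro e ⟨⟨_, heC⟩, heK⟩
    have : e ∈ K ⊓ Subgroup.centralizer (A : Set G) := ⟨heK, heC⟩
    rwa [hKC] at this
  · rw [hD]
    exact hfpf

end Forward

section Converse

variable [Finite G]

theorem mult_of_isPGroup {p : ℕ} (hp : p.Prime) (h : IsPGroup p G) : Mult G := by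
  haveI : Fact p.Prime := ⟨hp⟩
  rintro x y χ ⟨hx, hy, r, s, a, b, hr, hs, hrs, h1, h2⟩
  exfalso
  have key : ∀ (z : G) (t c : ℕ), z ≠ 1 → t.Prime → orderOf z = t ^ c → t = p := by
    intro z t c hz ht hzo
    obtain ⟨k, hk⟩ := IsPGroup.iff_orderOf.mp h z
    have hc : c ≠ 0 := by
      rintro rfl
      rw [pow_zero] at hzo
      exact hz (orderOf_eq_one_iff.mp hzo)
    have h3 : t ∣ p ^ k := by
      rw [← hk, hzo]
      exact dvd_pow_self t hc
    exact (Nat.prime_dvd_prime_iff_eq ht hp).mp (ht.dvd_of_dvd_pow h3)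
  exact hrs ((key x r a hx hr h1).trans (key y s b hy hs h2).symm)

theorem mult_of_comm (h : IsMulCommutative G) : Mult G := by
  rintro x y χ -
  have hc : ∀ a b : G, a * b = b * a := fun a b => h.is_comm.comm a b
  exact deg_one_mul (isCharacter_of_isIrrCharacter χ.2) (isIrr_deg_one_of_comm hc χ.2) x y

/-- If `χ` is irreducible, `χ h ≠ χ 1` and all `g * (t h t⁻¹)` are conjugate to `g`, then
`χ g = 0`. -/
theorem eq_zero_of_forall_isConj {χ : G → ℂ} (hχ : IsIrrCharacter G χ) {g h : G}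
    (hh : χ h ≠ χ 1) (hg : ∀ t : G, IsConj (g * (t * h * t⁻¹)) g) : χ g = 0 := by
  classical
  let _ := Fintype.ofFinite G
  have h1 := sum_irr_mul_conj' hχ g h
  have h2 : ∀ t : G, χ (g * (t * h * t⁻¹)) = χ g := fun t =>
    isClassFunction_iff_isConj.mp (isClassFunction_of_isIrrCharacter hχ) _ _ (hg t)
  simp only [h2, Finset.sum_const, Finset.card_univ, nsmul_eq_mul] at h1
  rw [← Nat.card_eq_fintype_card] at h1
  have hc : (Nat.card G : ℂ) ≠ 0 := by exact_mod_cast Nat.card_pos.ne'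
  have h0 := irr_one_ne_zero hχ
  have h3 : χ g * (χ 1 - χ h) = 0 := by
    field_simp at h1
    have := h1
    linear_combination this
  exact (mul_eq_zero.mp h3).resolve_right (sub_ne_zero.mpr hh.symm)

/-- A fixed point free `b`: the coset `b D` is in the class of `b`. -/
theorem isConj_mul_of_fpf {D : Subgroup G} (hD : D.Normal) {b : G}
    (hb : ∀ h ∈ D, b * h = h * b → h = 1) {e : G} (he : e ∈ D) : IsConj (b * e) b := by
  let f : D → D := fun h => ⟨b⁻¹ * h * b * (h : G)⁻¹, by
    have h1 := hD.conj_mem _ h.2 b⁻¹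
    rw [inv_inv] at h1
    exact D.mul_mem h1 (D.inv_mem h.2)⟩
  have hf : Function.Injective f := by
    intro u v huv
    have h1 : b⁻¹ * (u : G) * b * (u : G)⁻¹ = b⁻¹ * (v : G) * b * (v : G)⁻¹ :=
      congrArg Subtype.val huv
    have h2 : b * ((v : G)⁻¹ * u) = ((v : G)⁻¹ * u) * b := by
      have h3 : (u : G) * b * (u : G)⁻¹ = (v : G) * b * (v : G)⁻¹ := by
        have := congrArg (fun z => b * z) h1
        simpa [mul_assoc] using this
      have h4 : b = (v : G)⁻¹ * (u * b * (u : G)⁻¹) * v := by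
        rw [h3]; group
      calc b * ((v : G)⁻¹ * u) = ((v : G)⁻¹ * (u * b * (u : G)⁻¹) * v) * ((v : G)⁻¹ * u) := by
            rw [← h4]
        _ = ((v : G)⁻¹ * u) * b := by group
    have h5 := hb _ (D.mul_mem (D.inv_mem v.2) u.2) h2
    apply Subtype.ext
    have h6 : (u : G) = v * ((v : G)⁻¹ * u) := by group
    rw [h6, h5, mul_one]
  obtain ⟨h, hh⟩ := (Finite.injective_iff_surjective.mp hf) ⟨e, he⟩
  have h1 : b⁻¹ * (h : G) * b * (h : G)⁻¹ = e := congrArg Subtype.val hh
  refine IsConj.symm (isConj_iff.mpr ⟨h, ?_⟩)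
  rw [← h1]
  group

variable {p : ℕ} [hp : Fact p.Prime] {P : Sylow p G} {A : Subgroup G}

theorem eq_of_mem_sylow {x : G} (hx : x ∈ (P : Subgroup G)) (hx1 : x ≠ 1) {r a : ℕ} (hr : r.Prime)
    (ho : orderOf x = r ^ a) : r = p := by
  obtain ⟨k, hk⟩ := IsPGroup.iff_orderOf.mp P.isPGroup' ⟨x, hx⟩
  rw [Subgroup.orderOf_mk] at hk
  have hc : a ≠ 0 := by
    rintro rfl
    rw [pow_zero] at ho
    exact hx1 (orderOf_eq_one_iff.mp ho)
  have h3 : r ∣ p ^ k := by
    rw [← hk, ho]
    exact dvd_pow_self r hc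
  exact (Nat.prime_dvd_prime_iff_eq hr hp.out).mp (hr.dvd_of_dvd_pow h3)

theorem mul_not_mem_of_ppair (hPn : (P : Subgroup G).Normal) {x y : G} (hxy : PPair x y) :
    (x ∉ (P : Subgroup G) ∨ y ∉ (P : Subgroup G)) ∧ x * y ∉ (P : Subgroup G) := by
  obtain ⟨hx, hy, r, s, a, b, hr, hs, hrs, h1, h2⟩ := hxy
  have hboth : ¬ (x ∈ (P : Subgroup G) ∧ y ∈ (P : Subgroup G)) := by
    rintro ⟨hxP, hyP⟩
    exact hrs ((eq_of_mem_sylow hxP hx hr h1).trans (eq_of_mem_sylow hyP hy hs h2).symm)
  refine ⟨by tauto, ?_⟩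
  intro hmem
  have hx' : x ∉ (P : Subgroup G) := by
    intro hxP
    apply hboth
    refine ⟨hxP, ?_⟩
    have := (P : Subgroup G).mul_mem ((P : Subgroup G).inv_mem hxP) hmem
    simpa using this
  have hy' : y ∉ (P : Subgroup G) := by
    intro hyP
    apply hboth
    refine ⟨?_, hyP⟩
    have := (P : Subgroup G).mul_mem hmem ((P : Subgroup G).inv_mem hyP)
    simpa using this
  apply hx'
  let π := QuotientGroup.mk' (P : Subgroup G)
  have h3 : π x * π y = 1 := by
    rw [← map_mul]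
    exact (QuotientGroup.eq_one_iff _).mpr hmem
  have h4 : π x = (π y)⁻¹ := eq_inv_of_mul_eq_one_left h3
  have h5 : orderOf (π x) ∣ r ^ a := by
    rw [← h1]
    exact orderOf_map_dvd π x
  have h6 : orderOf (π x) ∣ s ^ b := by
    rw [h4, orderOf_inv, ← h2]
    exact orderOf_map_dvd π y
  have h7 : orderOf (π x) = 1 :=
    Nat.eq_one_of_dvd_coprimes (((Nat.coprime_primes hr hs).mpr hrs).pow a b) h5 h6
  exact (QuotientGroup.eq_one_iff _).mp (orderOf_eq_one_iff.mp h7)

/-- The converse, for the third alternative. -/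
theorem mult_of_struct (hPn : (P : Subgroup G).Normal) (hAcyc : IsCyclic ↥A)
    (hAcop : (Nat.card ↥A).Coprime p) (hsup : A ⊔ (P : Subgroup G) = ⊤)
    (hCab : IsMulCommutative ↥((P : Subgroup G) ⊓ Subgroup.centralizer (A : Set G)))
    (hDn : (⁅A, (P : Subgroup G)⁆).Normal)
    (hCD : ((P : Subgroup G) ⊓ Subgroup.centralizer (A : Set G)) ⊔ ⁅A, (P : Subgroup G)⁆ =
        (P : Subgroup G))
    (hfpf : ∀ a ∈ A, a ≠ 1 → ∀ d ∈ ⁅A, (P : Subgroup G)⁆, a * d = d * a → d = 1) : Mult G := by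
  classical
  set C : Subgroup G := (P : Subgroup G) ⊓ Subgroup.centralizer (A : Set G) with hC
  set D : Subgroup G := ⁅A, (P : Subgroup G)⁆ with hD
  haveI := hPn
  haveI := hDn
  -- decomposition
  have hdec : ∀ g : G, ∃ a ∈ A, ∃ c ∈ C, ∃ e ∈ D, g = a * c * e := by
    intro g
    have h1 : g ∈ A ⊔ (P : Subgroup G) := by rw [hsup]; exact Subgroup.mem_top g
    obtain ⟨a, ha, u, hu, rfl⟩ := Subgroup.mem_sup_of_normal_right.mp h1
    have h2 : u ∈ C ⊔ D := by rw [hCD]; exact hu
    obtain ⟨c, hc, e, he, rfl⟩ := Subgroup.mem_sup_of_normal_right.mp h2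
    exact ⟨a, ha, c, hc, e, he, by group⟩
  have hAc : ∀ a ∈ A, ∀ b ∈ A, a * b = b * a := by
    intro a ha b hb
    have := (isMulCommutative_iff.mp hAcyc.isMulCommutative) ⟨a, ha⟩ ⟨b, hb⟩
    exact congrArg Subtype.val this
  have hCc : ∀ a ∈ C, ∀ b ∈ C, a * b = b * a := by
    intro a ha b hb
    have := hCab.is_comm.comm ⟨a, ha⟩ ⟨b, hb⟩
    exact congrArg Subtype.val this
  have hAC : ∀ a ∈ A, ∀ c ∈ C, a * c = c * a := by
    intro a ha c hc
    exact Subgroup.mem_centralizer_iff.mp hc.2 a ha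
  -- `G' ≤ D`
  have hGD : commutator G ≤ D := by
    rw [commutator_def, Subgroup.commutator_le]
    intro g _ h _
    obtain ⟨a, ha, c, hc, e, he, rfl⟩ := hdec g
    obtain ⟨a', ha', c', hc', e', he', rfl⟩ := hdec h
    let π := QuotientGroup.mk' D
    have hπe : π e = 1 := (QuotientGroup.eq_one_iff _).mpr he
    have hπe' : π e' = 1 := (QuotientGroup.eq_one_iff _).mpr he'
    have k1 : Commute (π a) (π a') := by
      change π a * π a' = π a' * π a
      rw [← map_mul, ← map_mul, hAc a ha a' ha']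
    have k2 : Commute (π a) (π c') := by
      change π a * π c' = π c' * π a
      rw [← map_mul, ← map_mul, hAC a ha c' hc']
    have k3 : Commute (π c) (π a') := by
      change π c * π a' = π a' * π c
      rw [← map_mul, ← map_mul, hAC a' ha' c hc]
    have k4 : Commute (π c) (π c') := by
      change π c * π c' = π c' * π c
      rw [← map_mul, ← map_mul, hCc c hc c' hc']
    have k5 : Commute (π (a * c * e)) (π (a' * c' * e')) := by
      simp only [map_mul, hπe, hπe', mul_one]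
      exact (k1.mul_right k2).mul_left (k3.mul_right k4)
    have k6 : π ⁅a * c * e, a' * c' * e'⁆ = 1 := by
      rw [map_commutatorElement, commutatorElement_eq_one_iff_mul_comm]
      exact k5
    exact (QuotientGroup.eq_one_iff _).mp k6
  -- nonlinear characters are nontrivial on `D`
  have hnl : ∀ χ : IrrCharacter G, (χ : G → ℂ) 1 ≠ 1 → ∃ h ∈ D, (χ : G → ℂ) h ≠ (χ : G → ℂ) 1 := by
    intro χ hχ
    by_contra hcon
    push Not at hcon
    obtain ⟨φ, hφ, hφe⟩ := isIrrCharacter_descend (QuotientGroup.mk' (commutator G))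
      (QuotientGroup.mk'_surjective _) χ.2 (fun k hk => by
        rw [QuotientGroup.ker_mk'] at hk
        exact hcon k (hGD hk))
    apply hχ
    rw [hφe]
    have hc : ∀ a b : G ⧸ commutator G, a * b = b * a := fun a b =>
      mul_comm (G := Abelianization G) a b
    simpa using isIrr_deg_one_of_comm hc hφ
  -- fixed point freeness of `a * c`
  have hb : ∀ a ∈ A, a ≠ 1 → ∀ c ∈ C, ∀ h ∈ D, (a * c) * h = h * (a * c) → h = 1 := by
    intro a ha ha1 c hc h hh hcomm
    have hac : Commute a c := hAC a ha c hc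
    have hco : (orderOf a).Coprime (orderOf c) := by
      obtain ⟨k, hk⟩ := IsPGroup.iff_orderOf.mp P.isPGroup' ⟨c, hc.1⟩
      rw [Subgroup.orderOf_mk] at hk
      rw [hk]
      have h1 : orderOf a ∣ Nat.card A := by
        have := orderOf_dvd_natCard (⟨a, ha⟩ : A)
        rwa [Subgroup.orderOf_mk] at this
      exact (hAcop.coprime_dvd_left h1).pow_right k
    obtain ⟨m, hm1, hm2⟩ := Nat.chineseRemainder hco 1 0
    have h1 : (a * c) ^ m = a := by
      rw [hac.mul_pow]
      have e1 : a ^ m = a ^ 1 := pow_eq_pow_iff_modEq.mpr hm1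
      have e2 : c ^ m = c ^ 0 := pow_eq_pow_iff_modEq.mpr hm2
      rw [e1, e2, pow_one, pow_zero, mul_one]
    have h2 : Commute (a * c) h := hcomm
    have h3 : Commute a h := by
      have := h2.pow_left m
      rwa [h1] at this
    exact hfpf a ha ha1 h hh h3
  -- the coset property
  have hconj : ∀ g : G, g ∉ (P : Subgroup G) → ∀ d ∈ D, IsConj (g * d) g := by
    intro g hg d hd
    obtain ⟨a, ha, c, hc, e, he, rfl⟩ := hdec g
    have ha1 : a ≠ 1 := by
      rintro rfl
      apply hg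
      rw [one_mul, ← hCD]
      exact Subgroup.mul_mem_sup hc he
    have h1 := isConj_mul_of_fpf hDn (hb a ha ha1 c hc) he
    have h2 := isConj_mul_of_fpf hDn (hb a ha ha1 c hc) (D.mul_mem he hd)
    have e1 : a * c * e * d = a * c * (e * d) := by group
    rw [e1]
    exact h2.trans h1.symm
  -- vanishing off `P`
  have hvan : ∀ χ : IrrCharacter G, (χ : G → ℂ) 1 ≠ 1 → ∀ g : G, g ∉ (P : Subgroup G) →
      (χ : G → ℂ) g = 0 := by
    intro χ hχ g hg
    obtain ⟨h, hhD, hh⟩ := hnl χ hχ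
    exact eq_zero_of_forall_isConj χ.2 hh (fun t => hconj g hg _ (hDn.conj_mem h hhD t))
  rintro x y χ hxy
  by_cases hχ : (χ : G → ℂ) 1 = 1
  · exact deg_one_mul (isCharacter_of_isIrrCharacter χ.2) hχ x y
  · obtain ⟨h1, h2⟩ := mul_not_mem_of_ppair hPn hxy
    rw [hvan χ hχ _ h2]
    rcases h1 with h1 | h1
    · rw [hvan χ hχ _ h1, zero_mul]
    · rw [hvan χ hχ _ h1, mul_zero]

end Converse

end Cfsg.Agent.Lib.Char.MultCoprime
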