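import Cfsg.Prelude.Def_Transfer
import Cfsg.Agent.S0867
import Cfsg.Agent.Lib.Char.RelGraph
import Cfsg.Agent.Lib.Char.Gallagher
import Cfsg.Agent.Lib.BlockCover.Basic
import Cfsg.Agent.Lib.Blocks.PIndex
import Cfsg.Agent.Lib.Blocks.PPart
import Cfsg.Agent.Lib.Glauberman.Canonical
import Cfsg.Agent.Lib.OddChar.GaloisConj

/-!
# `p'`-degree characters of the principal block over `O^p(G)` with cyclic quotient
-/

set_option autoImplicit false
set_option linter.style.haveILetI false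
set_option linter.unusedVariables false
set_option linter.unusedSectionVars false
set_option linter.style.multiGoal false
set_option linter.style.longLine false

namespace Cfsg.Agent.Lib.Char.OpCyclic

open Cfsg Module
open Cfsg.Agent.Lib.Char.Basic Cfsg.Agent.Lib.Char.Ortho Cfsg.Agent.Lib.Char.Complete
open Cfsg.Agent.Lib.Char.Conj Cfsg.Agent.Lib.Char.Induced Cfsg.Agent.Lib.Char.Clifford
open Cfsg.Agent.Lib.Char.CliffordCorr Cfsg.Agent.Lib.Char.Degree
open Cfsg.Agent.Lib.Char.Linear Cfsg.Agent.Lib.Char.RelGraph Cfsg.Agent.Lib.Char.Gallagher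
open Cfsg.Agent.Lib.Blocks.PPart
open scoped ComplexConjugate

universe u

section Basics

variable {G : Type u} [Group G] [Finite G] {p : ℕ} [hp : Fact p.Prime] {N : Subgroup G}

theorem mem_N (hNres : N = pResidual p G) {x : G} (hx : Nat.Coprime (orderOf x) p) : x ∈ N := by
  rw [hNres]
  exact Subgroup.subset_closure hx

theorem index_pow [hN : N.Normal] (hNres : N = pResidual p G) : ∃ c, N.index = p ^ c := by
  have h : IsPGroup p (G ⧸ N) := by
    intro q
    induction q using QuotientGroup.induction_on with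
    | H g =>
      obtain ⟨x, y, hxy, hc, ⟨k, hk⟩, hy⟩ := exists_isPPart (p := p) g
      refine ⟨k, ?_⟩
      have hyN : y ∈ N := mem_N hNres ((Nat.Prime.coprime_iff_not_dvd hp.out).mpr hy).symm
      rw [← hxy, QuotientGroup.mk_mul, (QuotientGroup.eq_one_iff y).mpr hyN, mul_one,
        ← QuotientGroup.mk_pow, ← hk, pow_orderOf_eq_one]
      rfl
  obtain ⟨c, hc⟩ := IsPGroup.iff_card.mp h
  exact ⟨c, hc⟩

theorem sup_eq_top [hN : N.Normal] (hNres : N = pResidual p G) (P : Sylow p G) :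
    N ⊔ (P : Subgroup G) = ⊤ := by
  obtain ⟨c, hc⟩ := index_pow hNres
  have h1 : (N ⊔ (P : Subgroup G)).index ∣ p ^ c := by
    rw [← hc]
    exact Subgroup.index_dvd_of_le le_sup_left
  have h2 : (N ⊔ (P : Subgroup G)).index ∣ (P : Subgroup G).index :=
    Subgroup.index_dvd_of_le le_sup_right
  obtain ⟨j, -, hj⟩ := (Nat.dvd_prime_pow hp.out).mp h1
  rw [← Subgroup.index_eq_one]
  rcases Nat.eq_zero_or_pos j with rfl | hjpos
  · simpa using hj
  · exfalso
    have h3 : p ∣ (N ⊔ (P : Subgroup G)).index := by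
      rw [hj]
      exact dvd_pow_self p hjpos.ne'
    exact P.not_dvd_index (h3.trans h2)

theorem hom_pow_eq_one_of_coprime {z : ℂˣ} {a b : ℕ} (hab : Nat.Coprime a b) (h1 : z ^ a = 1)
    (h2 : z ^ b = 1) : z = 1 := by
  have h3 : orderOf z ∣ a := orderOf_dvd_of_pow_eq_one h1
  have h4 : orderOf z ∣ b := orderOf_dvd_of_pow_eq_one h2
  exact orderOf_eq_one_iff.mp (Nat.eq_one_of_dvd_coprimes hab h3 h4)

/-- A homomorphism of `p`-power order on `O^p(G)` is trivial. -/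
theorem hom_eq_one_of_pow [hN : N.Normal] (hNres : N = pResidual p G) {μ : N →* ℂˣ}
    (hμ : μ ^ p = 1) : μ = 1 := by
  have hclos : pResidual p G ≤ (μ.ker).map N.subtype := by
    rw [pResidual, Subgroup.closure_le]
    intro g hg
    have hg' : Nat.Coprime (orderOf g) p := hg
    have hgN : g ∈ N := mem_N hNres hg'
    refine ⟨⟨g, hgN⟩, ?_, rfl⟩
    rw [SetLike.mem_coe, MonoidHom.mem_ker]
    refine hom_pow_eq_one_of_coprime hg' ?_ ?_
    · rw [← map_pow]
      have : (⟨g, hgN⟩ : N) ^ orderOf g = 1 := by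
        apply Subtype.ext
        simp [pow_orderOf_eq_one]
      rw [this, map_one]
    · have := DFunLike.congr_fun hμ ⟨g, hgN⟩
      simpa using this
  have hle : N ≤ (μ.ker).map N.subtype := fun x hx => hclos (hNres ▸ hx)
  ext n
  obtain ⟨m, hm, hmn⟩ := hle n.2
  have h1 : m = n := Subtype.ext hmn
  rw [← h1, (MonoidHom.mem_ker).mp hm]
  simp

theorem detOrder_not_dvd [hN : N.Normal] (hNres : N = pResidual p G) {θ : N → ℂ}
    (hθ : IsCharacter N θ) : ¬ p ∣ detOrder θ := by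
  intro hdvd
  obtain ⟨lam, hlam⟩ := Cfsg.Agent.Lib.CharDeep.Det.detChar_of_isCharacter hθ
  have hord : detOrder θ = orderOf lam := by
    unfold detOrder
    rw [hlam]
    let F : (N →* ℂˣ) →* (N → ℂ) :=
      { toFun := fun l n => ((l n : ℂˣ) : ℂ)
        map_one' := by
          funext n
          simp
        map_mul' := by
          intro a b
          funext n
          simp }
    have hF : Function.Injective F := by
      intro a b h
      ext n
      exact congrFun h n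
    exact orderOf_injective F hF lam
  rw [hord] at hdvd
  obtain ⟨t, ht⟩ := hdvd
  have h1 : (lam ^ t) ^ p = 1 := by
    refine MonoidHom.ext fun n => ?_
    have h0 := DFunLike.congr_fun (pow_orderOf_eq_one lam) n
    simp only [MonoidHom.pow_apply, MonoidHom.one_apply, ht] at h0 ⊢
    rw [← pow_mul, mul_comm]
    exact h0
  have h2 := hom_eq_one_of_pow hNres h1
  have h3 : orderOf lam ∣ t := orderOf_dvd_of_pow_eq_one h2
  have hpos : 0 < orderOf lam := orderOf_pos lam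
  have ht0 : 0 < t := Nat.pos_of_ne_zero (by
    rintro rfl
    rw [mul_zero] at ht
    omega)
  have h4 := Nat.le_of_dvd ht0 h3
  have h5 := hp.out.two_le
  nlinarith

end Basics

section Canon

variable {G : Type u} [Group G] [Fintype G] {p : ℕ} [hp : Fact p.Prime] {N : Subgroup G}
  [hN : N.Normal] [Fintype N]

/-- Translate invariance statements. -/
theorem inv_iff {θ : N → ℂ} :
    (∀ (g : G) (n : N), θ ⟨g * n * g⁻¹, hN.conj_mem (n : G) n.2 g⟩ = θ n) ↔
      ∀ g : G, conjOn hN g θ = θ := by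
  constructor
  · intro h g
    funext n
    exact h g n
  · intro h g n
    exact congrFun (h g) n

theorem inv_of_sylow (hNres : N = pResidual p G) (P : Sylow p G) {θ : N → ℂ}
    (hθ : IsClassFunction N θ)
    (h : ∀ x ∈ (P : Subgroup G), ∀ n : N, θ ⟨x * n * x⁻¹, hN.conj_mem n n.2 x⟩ = θ n) :
    ∀ g : G, conjOn hN g θ = θ := by
  have h1 : (P : Subgroup G) ≤ inertia hN θ := by
    intro x hx
    rw [mem_inertia]
    funext n
    exact h x hx n
  have h2 : N ≤ inertia hN θ := le_inertia hN hθ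
  have h3 : inertia hN θ = ⊤ := by
    rw [eq_top_iff, ← sup_eq_top hNres P]
    exact sup_le h2 h1
  intro g
  have h4 : g ∈ inertia hN θ := by
    rw [h3]
    exact Subgroup.mem_top g
  exact (mem_inertia hN θ g).mp h4

/-- The canonical extension. -/
theorem exists_canon (hNres : N = pResidual p G) {θ : N → ℂ} (hθ : IsIrrCharacter N θ)
    (hinv : ∀ g : G, conjOn hN g θ = θ) (hdeg : ¬ p ∣ charDegree θ) :
    ∃ χ₀ : G → ℂ, IsIrrCharacter G χ₀ ∧ (∀ n : N, χ₀ n = θ n) ∧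
      Nat.Coprime N.index (detOrder χ₀) ∧
      ∀ χ' : G → ℂ, IsIrrCharacter G χ' → (∀ n : N, χ' n = θ n) →
        Nat.Coprime N.index (detOrder χ') → χ' = χ₀ := by
  have hθc := isCharacter_of_isIrrCharacter hθ
  obtain ⟨c, hc⟩ := index_pow hNres
  have hdet := detOrder_not_dvd hNres hθc
  have hcop1 : Nat.Coprime N.index (detOrder θ) := by
    rw [hc]
    exact Nat.Coprime.pow_left c ((Nat.Prime.coprime_iff_not_dvd hp.out).mpr hdet)
  have hcop2 : Nat.Coprime N.index (charDegree θ) := by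
    rw [hc]
    exact Nat.Coprime.pow_left c ((Nat.Prime.coprime_iff_not_dvd hp.out).mpr hdeg)
  obtain ⟨χ₀, ⟨h1, h2, h3⟩, h4⟩ := Cfsg.Agent.S0867.result N θ hθ (inv_iff.mpr hinv) (charDegree θ)
    (charDegree_natCast hθc).symm (Nat.Coprime.mul_right hcop1 hcop2)
  exact ⟨χ₀, h1, h2, by rw [h3]; exact hcop1, h4⟩

/-- The canonical extension is fixed by the power maps fixing `θ`. -/
theorem canon_fixed {θ : N → ℂ} {χ₀ : G → ℂ} (hχ₀ : IsIrrCharacter G χ₀)
    (hext : ∀ n : N, χ₀ n = θ n) (hcop : Nat.Coprime N.index (detOrder χ₀))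
    (huniq : ∀ χ' : G → ℂ, IsIrrCharacter G χ' → (∀ n : N, χ' n = θ n) →
        Nat.Coprime N.index (detOrder χ') → χ' = χ₀) {k : ℕ} (hk : k.Coprime (Nat.card G))
    (hfix : ∀ n : N, θ (n ^ k) = θ n) : (fun g => χ₀ (g ^ k)) = χ₀ := by
  obtain ⟨f, hf⟩ := Cfsg.Agent.Lib.OddChar.GaloisConj.exists_ringEquiv_pow (Nat.card G) k
    Nat.card_pos.ne' hk
  have hc := isCharacter_of_isIrrCharacter hχ₀
  have hψeq : (fun g => χ₀ (g ^ k)) = (f : ℂ →+* ℂ) ∘ χ₀ := by
    funext g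
    exact (Cfsg.Agent.Lib.OddChar.GaloisConj.comp_character_eq (f := (f : ℂ →+* ℂ)) hf dvd_rfl hc g).symm
  have hirr : IsIrrCharacter G (fun g => χ₀ (g ^ k)) :=
    Cfsg.Agent.Lib.OddChar.GaloisConj.isIrrCharacter_pow hk hχ₀
  have hdet : detOrder (fun g => χ₀ (g ^ k)) = detOrder χ₀ := by
    rw [hψeq]
    exact Cfsg.Agent.Lib.Glauberman.Canonical.detOrder_comp_ringHom f hc
  refine huniq _ hirr (fun n => ?_) (by rw [hdet]; exact hcop)
  have h1 : ((n : G)) ^ k = ((n ^ k : N) : G) := by simp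
  rw [h1, hext, hfix]

end Canon

section Gall

variable {G : Type u} [Group G] [Fintype G] {N : Subgroup G} [hN : N.Normal] [Fintype N]

omit [Fintype G] in
theorem triv_mul_eq (θ : N → ℂ) : triv N * θ = θ := by
  funext n
  simp

theorem conj_triv (g : G) : conjOn hN g (triv N) = triv N := rfl

/-- The bijection in Gallagher's theorem. -/
theorem bij_of_ext {θ χ₀ : _} (hθ : IsIrrCharacter N θ) (hinv : ∀ g : G, conjOn hN g θ = θ)
    (hχ₀ : IsIrrCharacter G χ₀) (hext : (fun n : N => χ₀ n) = θ) :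
    Set.BijOn (fun β : G → ℂ => β * χ₀)
      {β : G → ℂ | IsIrrCharacter G β ∧ classInner (indFun N (triv N)) β ≠ 0}
      {ψ : G → ℂ | IsIrrCharacter G ψ ∧ classInner (indFun N θ) ψ ≠ 0} := by
  have h := bijOn_mul_extension hN (φ := triv N) (ϑ := θ) (isIrr_triv N) (conj_triv) hinv
    (by rw [triv_mul_eq]; exact hθ) hχ₀ hext
  rwa [triv_mul_eq] at h

theorem linear_of_over (hcyc : IsCyclic (G ⧸ N)) {β : G → ℂ} (hβ : IsIrrCharacter G β)
    (hov : classInner (indFun N (triv N)) β ≠ 0) :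
    ∃ lam : G →* ℂˣ, (∀ n ∈ N, lam n = 1) ∧ β = lc lam := by
  classical
  have h1 : Over β (triv N) := by
    rw [classInner_indFun_left N (triv N) β (isClassFunction_of_isIrrCharacter hβ)] at hov
    exact classInner_ne_zero_comm hov
  have h2 := clifford_restrict hN hβ (isIrr_triv N) h1
  have h3 : orbitFinset hN (triv N) = {triv N} := by
    ext φ
    simp only [mem_orbitFinset, Finset.mem_singleton]
    constructor
    · rintro ⟨g, rfl⟩
      rfl
    · rintro rfl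
      exact ⟨1, rfl⟩
  rw [h3, Finset.sum_singleton] at h2
  have hker : ∀ n ∈ N, β n = β 1 := by
    intro n hn
    have h4 := congrFun h2 ⟨n, hn⟩
    have h5 := congrFun h2 1
    simp only [Pi.smul_apply, smul_eq_mul, mul_one] at h4 h5
    rw [show ((1 : N) : G) = 1 from rfl] at h5
    exact h4.trans h5.symm
  obtain ⟨φ, hφ, hβφ⟩ := isIrrCharacter_descend (QuotientGroup.mk' N)
    (QuotientGroup.mk'_surjective N) hβ (fun k hk => hker k (by simpa using hk))
  have h6 : φ 1 = 1 := by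
    letI := IsCyclic.commGroup (α := G ⧸ N)
    exact isIrr_deg_one_of_comm (fun a b => mul_comm a b) hφ
  have h7 : β 1 = 1 := by
    rw [hβφ, Function.comp, map_one, h6]
  obtain ⟨lam, hlam⟩ := exists_hom_of_deg_one (isCharacter_of_isIrrCharacter hβ) h7
  refine ⟨lam, fun n hn => ?_, hlam⟩
  have h8 : ((lam n : ℂˣ) : ℂ) = 1 := by
    have h9 : β n = ((lam n : ℂˣ) : ℂ) := congrFun hlam n
    rw [← h9, hker n hn, h7]
  exact Units.ext h8

theorem over_of_hom {lam : G →* ℂˣ} (hlam : ∀ n ∈ N, lam n = 1) :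
    IsIrrCharacter G (lc lam) ∧ classInner (indFun N (triv N)) (lc lam) ≠ 0 := by
  have h1 := isIrrCharacter_of_hom lam
  refine ⟨h1, ?_⟩
  rw [classInner_indFun_left N (triv N) (lc lam) (isClassFunction_of_isIrrCharacter h1)]
  have h2 : (fun n : N => lc lam n) = triv N := by
    funext n
    simp [lc, hlam n n.2]
  rw [h2, classInner_self_of_isIrr (isIrr_triv N)]
  exact one_ne_zero

/-- Irreducible characters over `θ` are the twists. -/
theorem exists_lam (hcyc : IsCyclic (G ⧸ N)) {θ χ₀ χ : _} (hθ : IsIrrCharacter N θ)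
    (hinv : ∀ g : G, conjOn hN g θ = θ)
    (hχ₀ : IsIrrCharacter G χ₀) (hext : (fun n : N => χ₀ n) = θ) (hχ : IsIrrCharacter G χ)
    (hov : Over χ θ) : ∃ lam : G →* ℂˣ, (∀ n ∈ N, lam n = 1) ∧ χ = lc lam * χ₀ := by
  have hB := bij_of_ext hθ hinv hχ₀ hext
  have hmem : χ ∈ {ψ : G → ℂ | IsIrrCharacter G ψ ∧ classInner (indFun N θ) ψ ≠ 0} := by
    refine ⟨hχ, ?_⟩
    rw [classInner_indFun_left N θ χ (isClassFunction_of_isIrrCharacter hχ)]
    exact classInner_ne_zero_comm hov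
  obtain ⟨β, ⟨hβ, hβ2⟩, hβeq⟩ := hB.surjOn hmem
  obtain ⟨lam, hlam, rfl⟩ := linear_of_over hcyc hβ hβ2
  exact ⟨lam, hlam, hβeq.symm⟩

theorem lam_inj {θ χ₀ : _} (hθ : IsIrrCharacter N θ) (hinv : ∀ g : G, conjOn hN g θ = θ)
    (hχ₀ : IsIrrCharacter G χ₀) (hext : (fun n : N => χ₀ n) = θ) {a b : G →* ℂˣ}
    (ha : ∀ n ∈ N, a n = 1) (hb : ∀ n ∈ N, b n = 1) (h : lc a * χ₀ = lc b * χ₀) : a = b := by
  have hB := bij_of_ext hθ hinv hχ₀ hext
  exact lc_inj (hB.injOn (over_of_hom ha) (over_of_hom hb) h)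

end Gall

section Count

variable {G : Type u} [Group G] [Finite G] {N : Subgroup G} [hN : N.Normal]

/-- The number of homomorphisms trivial on `N` with `p`-th power `1`. -/
theorem card_hom_pow {p : ℕ} (hp : p.Prime) (hcyc : IsCyclic (G ⧸ N)) (hpd : p ∣ N.index) :
    Nat.card {lam : G →* ℂˣ // (∀ n ∈ N, lam n = 1) ∧ lam ^ p = 1} = p := by
  classical
  letI : CommGroup (G ⧸ N) := IsCyclic.commGroup
  haveI : NeZero ((Monoid.exponent (G ⧸ N) : ℕ) : ℂ) :=
    ⟨by exact_mod_cast (Monoid.exponent_ne_zero_of_finite (G := G ⧸ N))⟩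
  obtain ⟨e⟩ := CommGroup.monoidHom_mulEquiv_of_hasEnoughRootsOfUnity (G ⧸ N) ℂ
  have h1 : Nat.card ((powMonoidHom p : (G ⧸ N) →* (G ⧸ N)).ker) =
      Nat.gcd (Nat.card (G ⧸ N)) p := IsCyclic.card_powMonoidHom_ker (G := G ⧸ N) p
  have h2 : Nat.card (G ⧸ N) = N.index := rfl
  rw [h2, Nat.gcd_eq_right hpd] at h1
  have hto : ∀ lam : {lam : G →* ℂˣ // (∀ n ∈ N, lam n = 1) ∧ lam ^ p = 1},
      e (QuotientGroup.lift N lam.1 (fun n hn => lam.2.1 n hn)) ∈
        (powMonoidHom p : (G ⧸ N) →* (G ⧸ N)).ker := by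
    intro lam
    rw [MonoidHom.mem_ker, powMonoidHom_apply]
    have h3 : (QuotientGroup.lift N lam.1 (fun n hn => lam.2.1 n hn)) ^ p = 1 := by
      refine MonoidHom.ext fun q => ?_
      induction q using QuotientGroup.induction_on with
      | H g =>
        have := DFunLike.congr_fun lam.2.2 g
        simp only [MonoidHom.pow_apply, MonoidHom.one_apply] at this ⊢
        exact this
    have h4 : e ((QuotientGroup.lift N lam.1 (fun n hn => lam.2.1 n hn)) ^ p) =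
        (e (QuotientGroup.lift N lam.1 (fun n hn => lam.2.1 n hn))) ^ p := map_pow e _ p
    rw [← h4, h3]
    exact map_one e
  have hinv1 : ∀ x : (powMonoidHom p : (G ⧸ N) →* (G ⧸ N)).ker,
      ∀ n ∈ N, ((e.symm x.1).comp (QuotientGroup.mk' N)) n = 1 := by
    intro x n hn
    simp [(QuotientGroup.eq_one_iff n).mpr hn]
  have hinv2 : ∀ x : (powMonoidHom p : (G ⧸ N) →* (G ⧸ N)).ker,
      ((e.symm x.1).comp (QuotientGroup.mk' N)) ^ p = 1 := by
    intro x
    have h3 : (e.symm x.1) ^ p = 1 := by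
      have h4 : e.symm (x.1 ^ p) = (e.symm x.1) ^ p := map_pow e.symm _ p
      rw [← h4]
      have h5 : x.1 ^ p = 1 := by
        have := (MonoidHom.mem_ker).mp x.2
        simpa using this
      rw [h5]
      exact map_one e.symm
    refine MonoidHom.ext fun g => ?_
    have := DFunLike.congr_fun h3 (g : G ⧸ N)
    simpa using this
  refine Eq.trans (Nat.card_congr
    { toFun := fun lam => ⟨e (QuotientGroup.lift N lam.1 (fun n hn => lam.2.1 n hn)), hto lam⟩
      invFun := fun x => ⟨(e.symm x.1).comp (QuotientGroup.mk' N), hinv1 x, hinv2 x⟩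
      left_inv := ?_
      right_inv := ?_ }) h1
  · intro lam
    apply Subtype.ext
    refine MonoidHom.ext fun g => ?_
    simp only [MulEquiv.symm_apply_apply]
    rfl
  · intro x
    apply Subtype.ext
    change e (QuotientGroup.lift N _ _) = x.1
    have h3 : QuotientGroup.lift N ((e.symm x.1).comp (QuotientGroup.mk' N))
        (fun n hn => by simp [(QuotientGroup.eq_one_iff n).mpr hn]) = e.symm x.1 := by
      refine MonoidHom.ext fun q => ?_
      induction q using QuotientGroup.induction_on with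
      | H g => simp
    rw [h3]
    exact e.apply_symm_apply x.1

end Count

section Final

variable {G : Type u} [Group G] [Fintype G] {p : ℕ} [hp : Fact p.Prime] {N : Subgroup G}
  [hN : N.Normal] [Fintype N] {k : ℕ}

theorem lam_pow_k (hNres : N = pResidual p G)
    (hk₁ : ∀ g : G, (∃ j : ℕ, orderOf g = p ^ j) → g ^ k = g ^ (1 + p))
    (hk₂ : ∀ g : G, Nat.Coprime (orderOf g) p → g ^ k = g) {lam : G →* ℂˣ}
    (hlam : ∀ n ∈ N, lam n = 1) (g : G) : lam (g ^ k) = lam g ^ (1 + p) := by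
  obtain ⟨x, y, hxy, hc, hx, hy⟩ := exists_isPPart (p := p) g
  have hyc : Nat.Coprime (orderOf y) p := ((Nat.Prime.coprime_iff_not_dvd hp.out).mpr hy).symm
  have hyN := mem_N hNres hyc
  have h1 : lam y = 1 := hlam y hyN
  rw [← hxy, hc.mul_pow, hk₁ x hx, hk₂ y hyc, map_mul, map_mul, h1, mul_one, mul_one, map_pow]

theorem k_coprime (hk₁ : ∀ g : G, (∃ j : ℕ, orderOf g = p ^ j) → g ^ k = g ^ (1 + p))
    (hk₂ : ∀ g : G, Nat.Coprime (orderOf g) p → g ^ k = g) : k.Coprime (Nat.card G) := by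
  refine Nat.coprime_of_dvd fun q hq hqk hqG => ?_
  haveI : Fact q.Prime := ⟨hq⟩
  obtain ⟨g, hg⟩ := exists_prime_orderOf_dvd_card' q hqG
  have h1 : g ^ k = 1 := orderOf_dvd_iff_pow_eq_one.mp (hg ▸ hqk)
  have hg1 : g ≠ 1 := by
    rintro rfl
    rw [orderOf_one] at hg
    exact hq.one_lt.ne hg
  by_cases hqp : q = p
  · subst hqp
    have h2 := hk₁ g ⟨1, by rw [hg, pow_one]⟩
    rw [h1, add_comm, pow_succ, ← hg, pow_orderOf_eq_one, one_mul] at h2
    exact hg1 h2.symm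
  · have h2 := hk₂ g (by rw [hg]; exact (Nat.coprime_primes hq hp.out).mpr hqp)
    rw [h1] at h2
    exact hg1 h2.symm

open Cfsg.Agent.Lib.BlockT.Fong Cfsg.Agent.Lib.Blocks.Third Cfsg.Agent.Lib.Blocks.PIndex in
theorem covers_of_principal {H : Type u} [Group H] [Fintype H] {M : Ideal AlgInt}
    (hM : IsPModular p M) (N' : Subgroup H) (hN' : N'.Normal) [Fintype N'] {c : ℕ}
    (hNi : N'.index = p ^ c) {η : IrrCharacter H} (hη : η ∈ principalBlock M H) :
    η ∈ covers N' (principalBlock M N') := by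
  classical
  haveI := Cfsg.Agent.Lib.Blocks.Local.isPrime_of_pModular hM
  haveI := finite_irrCharacter (G := H)
  letI := Fintype.ofFinite (IrrCharacter H)
  haveI := finite_irrCharacter (G := N')
  letI := Fintype.ofFinite (IrrCharacter N')
  have hb : IsPBlock M (principalBlock M N') := isPBlock_principal M
  have hinv : Cfsg.Agent.Lib.BlockT.Fong.IsInv hN' (principalBlock M N') := by
    intro t θ hθ
    have h1 : SameBlock M (fun _ : N' => (1 : ℂ)) (θ : N' → ℂ) := hθ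
    have h2 := Cfsg.Agent.Lib.BlockT.Normal.sameBlock_conjOn hN' M t h1
    exact h2
  have honeN : oneI N' ∈ principalBlock M N' := Cfsg.Agent.Lib.Blocks.Central.mem_blockOf_self (oneI N')
  have hone : oneI H ∈ covers N' (principalBlock M N') := by
    refine ⟨oneI N', honeN, ?_⟩
    have : (fun n : N' => ((oneI H : IrrCharacter H) : H → ℂ) n) = ((oneI N' : IrrCharacter N') : N' → ℂ) := rfl
    rw [this, classInner_self_of_isIrr (oneI N').2]
    exact one_ne_zero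
  have key : blockOf M ((oneI H : IrrCharacter H) : H → ℂ) = covers N' (principalBlock M N') := by
    refine blockOf_eq_covers hN' hinv hb hone fun g hg => ?_
    refine Cfsg.Agent.Lib.BlockP.Stable.blockCoeff_eq_zero hM ⟨oneI H, rfl⟩ ?_
    by_contra h
    exact hg (mem_of_coprime hN' hNi h)
  rw [← key]
  exact hη

/-- A `p'`-degree member of the principal block lies over an invariant `p'`-degree member of the
principal block of `N`. -/
theorem exists_of_lhs {M : Ideal AlgInt} (hM : IsPModular p M) (hNres : N = pResidual p G)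
    {χ : IrrCharacter G} (hχ : χ ∈ principalBlock M G) (hdeg : ¬ p ∣ charDegree (χ : G → ℂ)) :
    ∃ θ : IrrCharacter N, θ ∈ principalBlock M N ∧ Over (χ : G → ℂ) (θ : N → ℂ) ∧
      (∀ g : G, conjOn hN g (θ : N → ℂ) = θ) ∧ ¬ p ∣ charDegree (θ : N → ℂ) := by
  classical
  obtain ⟨c, hc⟩ := index_pow hNres
  obtain ⟨θ, hθ, hov⟩ := covers_of_principal hM N hN hc hχ
  have hov' : Over (χ : G → ℂ) (θ : N → ℂ) := hov
  refine ⟨θ, hθ, hov', ?_, fun h => hdeg (h.trans (deg_dvd hN χ.2 θ.2 hov'))⟩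
  obtain ⟨e, he⟩ := exists_mult (N := N) χ.2 θ.2
  have h1 := deg_eq hN χ.2 θ.2 hov' he
  have h2 : (orbitFinset hN (θ : N → ℂ)).card ∣ p ^ c := by
    rw [card_orbit_eq_index, ← hc]
    exact Subgroup.index_dvd_of_le (le_inertia hN (isClassFunction_of_isIrrCharacter θ.2))
  obtain ⟨j, -, hj⟩ := (Nat.dvd_prime_pow hp.out).mp h2
  have h3 : (orbitFinset hN (θ : N → ℂ)).card = 1 := by
    rcases Nat.eq_zero_or_pos j with rfl | hjpos
    · simpa using hj
    · exfalso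
      apply hdeg
      rw [h1, hj]
      exact Dvd.dvd.mul_right (Dvd.dvd.mul_left (dvd_pow_self p hjpos.ne') _) _
  exact fun g => inv_of_card_orbit_one hN h3 g

omit [Fintype G] [Fintype N] hp hN in
theorem charDegree_of_ext {θ : N → ℂ} {χ₀ : G → ℂ} (hext : ∀ n : N, χ₀ n = θ n) :
    charDegree χ₀ = charDegree θ := by
  have h : χ₀ 1 = θ 1 := hext 1
  simp only [charDegree, h]

omit [Fintype G] [Fintype N] hp hN in
theorem res_twist {θ : N → ℂ} {χ₀ : G → ℂ} (hext : ∀ n : N, χ₀ n = θ n) {lam : G →* ℂˣ}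
    (hlam : ∀ n ∈ N, lam n = 1) (n : N) : (lc lam * χ₀) n = θ n := by
  simp [lc, hlam n n.2, hext n]

omit [Fintype G] [Fintype N] hp hN in
theorem charDegree_twist (lam : G →* ℂˣ) (χ₀ : G → ℂ) : charDegree (lc lam * χ₀) = charDegree χ₀ := by
  have h1 : (lc lam * χ₀) 1 = χ₀ 1 := by simp [lc]
  simp only [charDegree, h1]

theorem twist_mem {M : Ideal AlgInt} (hM : IsPModular p M) (hNres : N = pResidual p G)
    {θ : IrrCharacter N} (hθ : θ ∈ principalBlock M N) {χ₀ : G → ℂ}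
    (hχ₀ : IsIrrCharacter G χ₀) (hext : ∀ n : N, χ₀ n = (θ : N → ℂ) n) {lam : G →* ℂˣ}
    (hlam : ∀ n ∈ N, lam n = 1) :
    (⟨lc lam * χ₀, isIrr_lc_mul lam hχ₀⟩ : IrrCharacter G) ∈ principalBlock M G := by
  refine Cfsg.Agent.Lib.BlockCover.Basic.mem_principal_of_constituent hM (index_pow hNres) _ θ hθ ?_
  have h1 : (fun n : N => (lc lam * χ₀) n) = (θ : N → ℂ) := funext (res_twist hext hlam)
  change classInner (fun n : N => (lc lam * χ₀) n) (θ : N → ℂ) ≠ 0
  rw [h1, classInner_self_of_isIrr θ.2]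
  exact one_ne_zero

theorem twist_fix (hNres : N = pResidual p G)
    (hk₁ : ∀ g : G, (∃ j : ℕ, orderOf g = p ^ j) → g ^ k = g ^ (1 + p))
    (hk₂ : ∀ g : G, Nat.Coprime (orderOf g) p → g ^ k = g) {χ₀ : G → ℂ}
    (hfix : ∀ g, χ₀ (g ^ k) = χ₀ g) {lam : G →* ℂˣ} (hlam : ∀ n ∈ N, lam n = 1)
    (hlp : lam ^ p = 1) (g : G) : (lc lam * χ₀) (g ^ k) = (lc lam * χ₀) g := by
  have h1 : lam g ^ p = 1 := by
    have := DFunLike.congr_fun hlp g
    simpa using this
  have h2 : lam (g ^ k) = lam g := by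
    rw [lam_pow_k hNres hk₁ hk₂ hlam, add_comm, pow_succ, h1, one_mul]
  simp only [Pi.mul_apply, lc, hfix, h2]

theorem lam_pow_eq_one (hNres : N = pResidual p G)
    (hk₁ : ∀ g : G, (∃ j : ℕ, orderOf g = p ^ j) → g ^ k = g ^ (1 + p))
    (hk₂ : ∀ g : G, Nat.Coprime (orderOf g) p → g ^ k = g) {θ : N → ℂ} {χ₀ : G → ℂ}
    (hθ : IsIrrCharacter N θ) (hinv : ∀ g : G, conjOn hN g θ = θ)
    (hχ₀ : IsIrrCharacter G χ₀) (hext : (fun n : N => χ₀ n) = θ)
    (hfix : ∀ g, χ₀ (g ^ k) = χ₀ g) {lam : G →* ℂˣ} (hlam : ∀ n ∈ N, lam n = 1)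
    (h : ∀ g, (lc lam * χ₀) (g ^ k) = (lc lam * χ₀) g) : lam ^ p = 1 := by
  let lam' : G →* ℂˣ := lam ^ (1 + p)
  have hlam' : ∀ n ∈ N, lam' n = 1 := by
    intro n hn
    simp [lam', hlam n hn]
  have h1 : lc lam' * χ₀ = lc lam * χ₀ := by
    funext g
    have h2 := h g
    simp only [Pi.mul_apply, lc, hfix, lam_pow_k hNres hk₁ hk₂ hlam] at h2 ⊢
    simpa [lam'] using h2
  have h3 := lam_inj hθ hinv hχ₀ hext hlam' hlam h1
  refine MonoidHom.ext fun g => ?_
  have h4 := DFunLike.congr_fun h3 g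
  simp only [lam', MonoidHom.pow_apply] at h4
  simp only [MonoidHom.pow_apply, MonoidHom.one_apply]
  rw [add_comm, pow_succ] at h4
  exact mul_left_cancel (a := lam g) (by rw [mul_one, mul_comm]; exact h4)

end Final

section Main

theorem main {G : Type*} [Group G] [Finite G] (p : ℕ) [Fact p.Prime] (M : Ideal Cfsg.AlgInt)
    (hM : Cfsg.IsPModular p M) (P : Sylow p G) (N : Subgroup G) [hN : N.Normal]
    (hNres : N = Cfsg.pResidual p G) (hcyc : IsCyclic (G ⧸ N)) (hnt : N ≠ ⊤) (k : ℕ)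
    (hk₁ : ∀ g : G, (∃ j : ℕ, orderOf g = p ^ j) → g ^ k = g ^ (1 + p))
    (hk₂ : ∀ g : G, Nat.Coprime (orderOf g) p → g ^ k = g) :
    Nat.card {χ : Cfsg.IrrCharacter G // χ ∈ Cfsg.principalBlock M G ∧
      ¬ p ∣ Cfsg.charDegree (χ : G → ℂ) ∧ ∀ g : G, (χ : G → ℂ) (g ^ k) = (χ : G → ℂ) g} =
    p * Nat.card {θ : Cfsg.IrrCharacter ↥N // θ ∈ Cfsg.principalBlock M ↥N ∧
      ¬ p ∣ Cfsg.charDegree (θ : ↥N → ℂ) ∧
      (∀ x ∈ (P : Subgroup G), ∀ n : ↥N,
        (θ : ↥N → ℂ) ⟨x * n * x⁻¹, hN.conj_mem n n.2 x⟩ = (θ : ↥N → ℂ) n) ∧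
      ∀ n : ↥N, (θ : ↥N → ℂ) (n ^ k) = (θ : ↥N → ℂ) n} := by
  classical
  cases nonempty_fintype G
  letI : Fintype N := Fintype.ofFinite _
  have hpp : p.Prime := Fact.out
  have hpd : p ∣ N.index := by
    obtain ⟨c, hc⟩ := index_pow hNres
    rcases Nat.eq_zero_or_pos c with rfl | hcpos
    · exfalso
      apply hnt
      rw [← Subgroup.index_eq_one, hc, pow_zero]
    · rw [hc]
      exact dvd_pow_self p hcpos.ne'
  have hL := card_hom_pow hpp hcyc hpd
  set L := {lam : G →* ℂˣ // (∀ n ∈ N, lam n = 1) ∧ lam ^ p = 1} with hLdef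
  set RHS := {θ : Cfsg.IrrCharacter ↥N // θ ∈ Cfsg.principalBlock M ↥N ∧
      ¬ p ∣ Cfsg.charDegree (θ : ↥N → ℂ) ∧
      (∀ x ∈ (P : Subgroup G), ∀ n : ↥N,
        (θ : ↥N → ℂ) ⟨x * n * x⁻¹, hN.conj_mem n n.2 x⟩ = (θ : ↥N → ℂ) n) ∧
      ∀ n : ↥N, (θ : ↥N → ℂ) (n ^ k) = (θ : ↥N → ℂ) n} with hRdef
  set LHS := {χ : Cfsg.IrrCharacter G // χ ∈ Cfsg.principalBlock M G ∧
      ¬ p ∣ Cfsg.charDegree (χ : G → ℂ) ∧ ∀ g : G, (χ : G → ℂ) (g ^ k) = (χ : G → ℂ) g} with hLHS
  have hinvR : ∀ θ : RHS, ∀ g : G, conjOn hN g ((θ.1 : IrrCharacter N) : N → ℂ) = θ.1 := fun θ =>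
    inv_of_sylow hNres P (isClassFunction_of_isIrrCharacter θ.1.2) θ.2.2.2.1
  have hcan : ∀ θ : RHS, ∃ χ₀ : G → ℂ, IsIrrCharacter G χ₀ ∧ (∀ n : N, χ₀ n = (θ.1 : N → ℂ) n) ∧
      Nat.Coprime N.index (detOrder χ₀) ∧
      ∀ χ' : G → ℂ, IsIrrCharacter G χ' → (∀ n : N, χ' n = (θ.1 : N → ℂ) n) →
        Nat.Coprime N.index (detOrder χ') → χ' = χ₀ := fun θ =>
    exists_canon hNres θ.1.2 (hinvR θ) θ.2.2.1
  choose c hc1 hc2 hc3 hc4 using hcan
  have hcopk : k.Coprime (Nat.card G) := k_coprime hk₁ hk₂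
  have hfixc : ∀ θ : RHS, ∀ g, c θ (g ^ k) = c θ g := fun θ g =>
    congrFun (canon_fixed (hc1 θ) (hc2 θ) (hc3 θ) (hc4 θ) hcopk θ.2.2.2.2) g
  have hmemF : ∀ x : RHS × L, (⟨lc x.2.1 * c x.1, isIrr_lc_mul x.2.1 (hc1 x.1)⟩ : IrrCharacter G) ∈
      principalBlock M G ∧ ¬ p ∣ charDegree (lc x.2.1 * c x.1) ∧
      ∀ g : G, (lc x.2.1 * c x.1) (g ^ k) = (lc x.2.1 * c x.1) g := by
    intro x
    refine ⟨twist_mem hM hNres x.1.2.1 (hc1 x.1) (hc2 x.1) x.2.2.1, ?_,
      twist_fix hNres hk₁ hk₂ (hfixc x.1) x.2.2.1 x.2.2.2⟩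
    rw [charDegree_twist, charDegree_of_ext (hc2 x.1)]
    exact x.1.2.2.1
  let F : RHS × L → LHS := fun x => ⟨⟨lc x.2.1 * c x.1, isIrr_lc_mul x.2.1 (hc1 x.1)⟩, hmemF x⟩
  have hFinj : Function.Injective F := by
    rintro ⟨θ, l⟩ ⟨θ', l'⟩ hxy
    have h1 : lc l.1 * c θ = lc l'.1 * c θ' := congrArg (fun z : LHS => ((z.1 : IrrCharacter G) : G → ℂ)) hxy
    have h2 : θ = θ' := by
      apply Subtype.ext
      apply Subtype.ext
      funext n
      rw [← res_twist (hc2 θ) l.2.1 n, ← res_twist (hc2 θ') l'.2.1 n, h1]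
    subst h2
    have h3 := lam_inj θ.1.2 (hinvR θ) (hc1 θ) (funext (hc2 θ)) l.2.1 l'.2.1 h1
    have h4 : l = l' := Subtype.ext h3
    rw [h4]
  have hFsurj : Function.Surjective F := by
    rintro ⟨χ, hχ, hdeg, hfix⟩
    obtain ⟨θ, hθ, hov, hinv, hdegθ⟩ := exists_of_lhs hM hNres hχ hdeg
    obtain ⟨χ₀, h1, h2, h3, h4⟩ := exists_canon hNres θ.2 hinv hdegθ
    obtain ⟨lam, hlam, hχeq⟩ := exists_lam hcyc θ.2 hinv h1 (funext h2) χ.2 hov
    have hres : ∀ n : N, (χ : G → ℂ) n = (θ : N → ℂ) n := by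
      intro n
      rw [hχeq]
      exact res_twist h2 hlam n
    have hfixθ : ∀ n : N, (θ : N → ℂ) (n ^ k) = (θ : N → ℂ) n := by
      intro n
      rw [← hres, ← hres, ← hfix n]
      simp
    let θ' : RHS := ⟨θ, hθ, hdegθ, fun x _ n => congrFun (hinv x) n, hfixθ⟩
    have hc : χ₀ = c θ' := hc4 θ' χ₀ h1 h2 h3
    have hfix₀ : ∀ g, χ₀ (g ^ k) = χ₀ g := fun g =>
      congrFun (canon_fixed h1 h2 h3 h4 hcopk hfixθ) g
    have hlp : lam ^ p = 1 := lam_pow_eq_one hNres hk₁ hk₂ θ.2 hinv h1 (funext h2) hfix₀ hlam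
      (by rw [← hχeq]; exact hfix)
    refine ⟨(θ', ⟨lam, hlam, hlp⟩), ?_⟩
    apply Subtype.ext
    apply Subtype.ext
    change lc lam * c θ' = (χ : G → ℂ)
    rw [← hc, ← hχeq]
  have hEq : Nat.card LHS = Nat.card (RHS × L) :=
    (Nat.card_congr (Equiv.ofBijective F ⟨hFinj, hFsurj⟩)).symm
  rw [hEq, Nat.card_prod, hL, mul_comm]

end Main

end Cfsg.Agent.Lib.Char.OpCyclic
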