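import Cfsg.Agent.Lib.Char.Eigen
import Cfsg.Agent.Lib.Char.Central
import Mathlib

/-!
# The radical of `p` in the algebraic integers

`PSmall p x` says that `x` is an algebraic integer and a power of `x` is `p` times an algebraic
integer.  These numbers form an ideal of the algebraic integers; it contains `ε - 1` for `ε` with
`ε ^ p = 1`, and a natural number only if it is divisible by `p`.
-/

set_option autoImplicit false

namespace Cfsg.Agent.Lib.Char.PSmall

open Cfsg Module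

/-- The radical of `p` in the algebraic integers. -/
noncomputable def rad (p : ℕ) : Ideal (integralClosure ℤ ℂ) :=
  (Ideal.span {((p : ℕ) : integralClosure ℤ ℂ)}).radical

/-- Membership in the radical of `p`. -/
def IsSmall (p : ℕ) (x : ℂ) : Prop := ∃ h : IsIntegral ℤ x, (⟨x, h⟩ : integralClosure ℤ ℂ) ∈ rad p

variable {p : ℕ}

theorem IsSmall.isIntegral {x : ℂ} (h : IsSmall p x) : IsIntegral ℤ x := h.1

theorem isSmall_zero : IsSmall p 0 := ⟨isIntegral_zero, by
  have : (⟨0, isIntegral_zero⟩ : integralClosure ℤ ℂ) = 0 := rfl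
  rw [this]
  exact Ideal.zero_mem _⟩

theorem IsSmall.add {x y : ℂ} (hx : IsSmall p x) (hy : IsSmall p y) : IsSmall p (x + y) := by
  obtain ⟨h1, h2⟩ := hx
  obtain ⟨h3, h4⟩ := hy
  exact ⟨h1.add h3, Ideal.add_mem _ h2 h4⟩

theorem IsSmall.mul_left {x y : ℂ} (hx : IsSmall p x) (hy : IsIntegral ℤ y) : IsSmall p (y * x) := by
  obtain ⟨h1, h2⟩ := hx
  refine ⟨hy.mul h1, ?_⟩
  have : (⟨y * x, hy.mul h1⟩ : integralClosure ℤ ℂ) =
      (⟨y, hy⟩ : integralClosure ℤ ℂ) * ⟨x, h1⟩ := rfl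
  rw [this]
  exact Ideal.mul_mem_left _ _ h2

theorem IsSmall.mul_right {x y : ℂ} (hx : IsSmall p x) (hy : IsIntegral ℤ y) : IsSmall p (x * y) := by
  rw [mul_comm]
  exact hx.mul_left hy

theorem IsSmall.sub {x y : ℂ} (hx : IsSmall p x) (hy : IsSmall p y) : IsSmall p (x - y) := by
  have h1 : IsSmall p (-1 * y) := hy.mul_left (isIntegral_one.neg)
  have h2 := hx.add h1
  have h3 : x + -1 * y = x - y := by ring
  rwa [h3] at h2

theorem isSmall_sum {ι : Type*} (s : Finset ι) (f : ι → ℂ) (hf : ∀ i ∈ s, IsSmall p (f i)) :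
    IsSmall p (∑ i ∈ s, f i) := by
  classical
  induction s using Finset.induction_on with
  | empty => simpa using isSmall_zero
  | insert i s hi ih =>
    rw [Finset.sum_insert hi]
    exact (hf i (Finset.mem_insert_self _ _)).add
      (ih fun j hj => hf j (Finset.mem_insert_of_mem hj))

/-- Multiples of `p` are small. -/
theorem isSmall_natCast_mul {y : ℂ} (hy : IsIntegral ℤ y) : IsSmall p ((p : ℂ) * y) := by
  have hp : IsIntegral ℤ (p : ℂ) := by
    exact_mod_cast (isIntegral_algebraMap (R := ℤ) (A := ℂ) (x := (p : ℤ)))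
  refine ⟨hp.mul hy, ?_⟩
  refine Ideal.le_radical ?_
  rw [Ideal.mem_span_singleton']
  exact ⟨⟨y, hy⟩, Subtype.ext (by
    change y * (p : ℂ) = (p : ℂ) * y
    ring)⟩

theorem isSmall_natCast_of_dvd {n : ℕ} (h : p ∣ n) : IsSmall p (n : ℂ) := by
  obtain ⟨m, rfl⟩ := h
  have hm : IsIntegral ℤ (m : ℂ) := by
    exact_mod_cast (isIntegral_algebraMap (R := ℤ) (A := ℂ) (x := (m : ℤ)))
  have := isSmall_natCast_mul (p := p) hm
  push_cast
  exact this

/-- A natural number is small only if it is divisible by `p`. -/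
theorem dvd_of_isSmall_natCast (hp : p.Prime) {n : ℕ} (h : IsSmall p (n : ℂ)) : p ∣ n := by
  obtain ⟨h1, h2⟩ := h
  obtain ⟨k, hk⟩ := (Ideal.mem_radical_iff).mp h2
  rw [Ideal.mem_span_singleton'] at hk
  obtain ⟨y, hy⟩ := hk
  have h3 := congrArg (fun z : integralClosure ℤ ℂ => (z : ℂ)) hy
  have h4 : (y : ℂ) * (p : ℂ) = (n : ℂ) ^ k := by
    simpa using h3
  have hp0 : (p : ℂ) ≠ 0 := Nat.cast_ne_zero.mpr hp.ne_zero
  have h5 : ((n ^ k : ℕ) : ℂ) / (p : ℂ) = y := by
    push_cast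
    rw [← h4]
    field_simp
  have h6 : IsIntegral ℤ (((n ^ k : ℕ) : ℂ) / (p : ℂ)) := by
    rw [h5]
    exact y.2
  have h7 := Cfsg.Agent.Lib.Char.Central.nat_dvd_of_isIntegral_div hp.ne_zero h6
  exact hp.dvd_of_dvd_pow h7

/-- `ε - 1` is small for `ε ^ p = 1`. -/
theorem isSmall_sub_one (hp : p.Prime) {ε : ℂ} (hε : ε ^ p = 1) : IsSmall p (ε - 1) := by
  have hi : IsIntegral ℤ ε := IsIntegral.of_pow hp.pos (by rw [hε]; exact isIntegral_one)
  refine ⟨hi.sub isIntegral_one, ?_⟩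
  refine (Ideal.mem_radical_iff).mpr ⟨p, ?_⟩
  rw [Ideal.mem_span_singleton']
  obtain ⟨r, hr⟩ := exists_add_pow_prime_eq hp (⟨ε, hi⟩ : integralClosure ℤ ℂ) (-1)
  have h1 : (⟨ε - 1, hi.sub isIntegral_one⟩ : integralClosure ℤ ℂ) =
      (⟨ε, hi⟩ : integralClosure ℤ ℂ) + -1 := rfl
  rw [h1, hr]
  have h2 : (⟨ε, hi⟩ : integralClosure ℤ ℂ) ^ p = 1 := Subtype.ext (by simpa using hε)
  rw [h2]
  rcases hp.eq_two_or_odd' with rfl | hodd
  · refine ⟨1 + -(⟨ε, hi⟩ * r), ?_⟩
    norm_num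
    ring
  · rw [hodd.neg_one_pow]
    refine ⟨-(⟨ε, hi⟩ * r), ?_⟩
    ring

/-- The value of a character at an element `v` with `v ^ p = 1` is congruent to the degree. -/
theorem isSmall_character_sub {G : Type*} [Group G] [Finite G] {V : Type*} [AddCommGroup V] [Module ℂ V]
    [FiniteDimensional ℂ V] (ρ : Representation ℂ G V) (hp : p.Prime) {v : G} (hv : v ^ p = 1) :
    IsSmall p (ρ.character v - (finrank ℂ V : ℂ)) := by
  obtain ⟨μ, h1, h2⟩ := Cfsg.Agent.Lib.Char.Eigen.character_eq_sum_roots' ρ v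
  have hμ : ∀ i, μ i ^ p = 1 := by
    intro i
    obtain ⟨m, hm⟩ := orderOf_dvd_of_pow_eq_one hv
    rw [hm, pow_mul, h1, one_pow]
  have h3 : ρ.character v - (finrank ℂ V : ℂ) = ∑ i, (μ i - 1) := by
    rw [h2, Finset.sum_sub_distrib]
    simp
  rw [h3]
  exact isSmall_sum _ _ fun i _ => isSmall_sub_one hp (hμ i)

end Cfsg.Agent.Lib.Char.PSmall
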