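import Cfsg.Agent.Lib.Char.OddIndexReal
import Cfsg.Agent.Lib.Char.Burnside
import Mathlib.Tactic

/-!
# The real constituents of a permutation character with Frobenius-Schur indicator `+1`
-/

set_option autoImplicit false
set_option linter.unusedSectionVars false
set_option linter.style.haveILetI false

namespace Cfsg.Agent.Lib.Char.PermReal

open Cfsg Module
open Cfsg.Agent.Lib.Char.Basic Cfsg.Agent.Lib.Char.Ortho Cfsg.Agent.Lib.Char.Complete
open Cfsg.Agent.Lib.Char.Conj Cfsg.Agent.Lib.Char.Clifford Cfsg.Agent.Lib.Char.Induced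
open Cfsg.Agent.Lib.Char.OddIndexReal
open scoped ComplexConjugate

universe u

variable {G : Type u} [Group G] [Fintype G]

theorem sum_nu_restrict [Fintype (IrrCharacter G)] (H : Subgroup G) [Fintype H]
    [DecidablePred (fun s : G => s * s ∈ H)] :
    ∑ χ : IrrCharacter G, conj (nu (χ : G → ℂ)) * classInner (fun h : H => (χ : G → ℂ) h) (fun _ => (1 : ℂ)) =
      (Nat.card H : ℂ)⁻¹ * ((Finset.univ.filter (fun s : G => s * s ∈ H)).card : ℂ) := by
  classical
  have h1 : ∀ h : H, (((Finset.univ.filter (fun s : G => s * s = h)).card : ℕ) : ℂ) =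
      ∑ χ : IrrCharacter G, conj (nu (χ : G → ℂ)) * (χ : G → ℂ) h := by
    intro h
    have h2 := Cfsg.Agent.Lib.Char.FrobSchur.card_sqrt_eq (G := G) (h : G)
    have h3 : Nat.card {s : G // s * s = h} = (Finset.univ.filter (fun s : G => s * s = h)).card := by
      rw [← Fintype.card_subtype, Nat.card_eq_fintype_card]
    rw [← h3, h2]
    rfl
  have key : ∀ χ : IrrCharacter G,
      conj (nu (χ : G → ℂ)) * classInner (fun h : H => (χ : G → ℂ) h) (fun _ => (1 : ℂ)) =
      (Nat.card H : ℂ)⁻¹ * ∑ h : H, conj (nu (χ : G → ℂ)) * (χ : G → ℂ) h := by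
    intro χ
    rw [classInner_def, mul_left_comm, Finset.mul_sum]
    simp
  simp_rw [key]
  rw [← Finset.mul_sum, Finset.sum_comm]
  congr 1
  simp_rw [← h1]
  have h5 : ∀ h : H, (((Finset.univ.filter (fun s : G => s * s = h)).card : ℕ) : ℂ) =
      ∑ s : G, if s * s = h then (1 : ℂ) else 0 := by
    intro h
    rw [Finset.card_filter]
    push_cast
    rfl
  simp_rw [h5]
  rw [Finset.sum_comm, Finset.card_filter]
  push_cast
  refine Finset.sum_congr rfl fun s _ => ?_
  by_cases hs : s * s ∈ H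
  · rw [if_pos hs, Finset.sum_eq_single (⟨s * s, hs⟩ : H)]
    · simp
    · intro b _ hb
      rw [if_neg]
      intro h
      exact hb (Subtype.ext h.symm)
    · intro h
      exact absurd (Finset.mem_univ _) h
  · rw [if_neg hs]
    apply Finset.sum_eq_zero
    intro b _
    rw [if_neg]
    intro h
    exact hs (h ▸ b.2)

lemma nu_one : nu (fun _ : G => (1 : ℂ)) = 1 := by
  rw [nu]
  simp only [Finset.sum_const, Finset.card_univ, nsmul_eq_mul, mul_one, ← Nat.card_eq_fintype_card]
  exact inv_mul_cancel₀ card_ne_zero_complex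

lemma inner_one_one (H : Type*) [Group H] [Fintype H] :
    classInner (fun _ : H => (1 : ℂ)) (fun _ => (1 : ℂ)) = 1 := by
  rw [classInner_def]
  simp only [map_one, mul_one, Finset.sum_const, Finset.card_univ, nsmul_eq_mul,
    ← Nat.card_eq_fintype_card]
  exact inv_mul_cancel₀ card_ne_zero_complex

theorem mem_of_mul_self_mem_of_card_eq_one (H : Subgroup G) 
    (h : Nat.card {χ : IrrCharacter G // classInner (indFun H (fun _ : H => (1 : ℂ))) (χ : G → ℂ) ≠ 0 ∧
      (∀ g : G, conj ((χ : G → ℂ) g) = (χ : G → ℂ) g) ∧ nu (χ : G → ℂ) = 1} = 1)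
    {s : G} (hs : s * s ∈ H) : s ∈ H := by
  classical
  have := finite_irrCharacter (G := G)
  letI := Fintype.ofFinite (IrrCharacter G)
  letI : Fintype H := Fintype.ofFinite _
  set τ : IrrCharacter G := ⟨fun _ => 1, Cfsg.Agent.Lib.Char.Burnside.isIrrCharacter_one⟩ with hτ
  have hres : ∀ χ : IrrCharacter G, classInner (indFun H (fun _ : H => (1 : ℂ))) (χ : G → ℂ) =
      conj (classInner (fun h : H => (χ : G → ℂ) h) (fun _ => (1 : ℂ))) := by
    intro χ
    rw [classInner_indFun_left H _ _ (isClassFunction_of_isIrrCharacter χ.2), classInner_conj]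
  have hτmem : classInner (indFun H (fun _ : H => (1 : ℂ))) (τ : G → ℂ) ≠ 0 ∧
      (∀ g : G, conj ((τ : G → ℂ) g) = (τ : G → ℂ) g) ∧ nu (τ : G → ℂ) = 1 := by
    refine ⟨?_, ?_, nu_one⟩
    · rw [hres]
      show conj (classInner (fun _ : H => (1 : ℂ)) (fun _ => (1 : ℂ))) ≠ 0
      rw [inner_one_one]
      simp
    · intro g
      simp [hτ]
  have huniq : ∀ χ : IrrCharacter G, classInner (indFun H (fun _ : H => (1 : ℂ))) (χ : G → ℂ) ≠ 0 →
      (∀ g : G, conj ((χ : G → ℂ) g) = (χ : G → ℂ) g) → nu (χ : G → ℂ) = 1 → χ = τ := by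
    intro χ h1 h2 h3
    obtain ⟨hsub, -⟩ := Nat.card_eq_one_iff_unique.mp h
    have := hsub.elim ⟨χ, h1, h2, h3⟩ ⟨τ, hτmem⟩
    exact congrArg Subtype.val this
  have hsum := sum_nu_restrict H
  -- every term is at most the corresponding term of the principal character
  have hnat : ∀ χ : IrrCharacter G, ∃ a : ℕ, classInner (fun h : H => (χ : G → ℂ) h) (fun _ => (1 : ℂ)) = a :=
    fun χ => exists_nat_classInner (isCharacter_restrict H (isCharacter_of_isIrrCharacter χ.2))
      isCharacter_one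
  have hterm : ∀ χ ∈ (Finset.univ : Finset (IrrCharacter G)), χ ≠ τ →
      (conj (nu (χ : G → ℂ)) * classInner (fun h : H => (χ : G → ℂ) h) (fun _ => (1 : ℂ))).re ≤ 0 := by
    intro χ _ hne
    obtain ⟨a, ha⟩ := hnat χ
    rcases nu_cases χ.2 with h0 | h0 | h0
    · rw [h0]
      simp
    · by_cases ha0 : a = 0
      · rw [ha, ha0]
        simp
      · exfalso
        apply hne
        apply huniq χ _ (real_of_nu_ne_zero χ.2 (by rw [h0]; exact one_ne_zero)) h0
        rw [hres, ha]
        simp only [Complex.conj_natCast]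
        exact_mod_cast ha0
    · rw [h0, ha]
      simp
  have hτterm : conj (nu (τ : G → ℂ)) * classInner (fun h : H => (τ : G → ℂ) h) (fun _ => (1 : ℂ)) = 1 := by
    rw [hτmem.2.2]
    show conj 1 * classInner (fun _ : H => (1 : ℂ)) (fun _ => (1 : ℂ)) = 1
    rw [inner_one_one]
    simp
  have hle : ((Nat.card H : ℂ)⁻¹ * ((Finset.univ.filter (fun s : G => s * s ∈ H)).card : ℂ)).re ≤ 1 := by
    rw [← hsum, Complex.re_sum, ← Finset.add_sum_erase _ _ (Finset.mem_univ τ), hτterm]
    have : ∑ χ ∈ Finset.univ.erase τ,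
        (conj (nu (χ : G → ℂ)) * classInner (fun h : H => (χ : G → ℂ) h) (fun _ => (1 : ℂ))).re ≤ 0 := by
      apply Finset.sum_nonpos
      intro χ hχ
      exact hterm χ (Finset.mem_univ _) (Finset.ne_of_mem_erase hχ)
    simp only [Complex.one_re]
    linarith
  have hcardH : (0 : ℝ) < Nat.card H := by exact_mod_cast Nat.card_pos
  have hle2 : (Finset.univ.filter (fun s : G => s * s ∈ H)).card ≤ Nat.card H := by
    have h1 : ((Nat.card H : ℂ)⁻¹ * ((Finset.univ.filter (fun s : G => s * s ∈ H)).card : ℂ)) =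
        (((Nat.card H : ℝ)⁻¹ * ((Finset.univ.filter (fun s : G => s * s ∈ H)).card : ℝ) : ℝ) : ℂ) := by
      push_cast
      rfl
    rw [h1, Complex.ofReal_re, inv_mul_le_iff₀ hcardH, mul_one] at hle
    exact_mod_cast hle
  -- so every `s` with `s * s ∈ H` lies in `H`
  have hsub : (Finset.univ.filter (fun s : G => s ∈ H)) ⊆ (Finset.univ.filter (fun s : G => s * s ∈ H)) := by
    intro x hx
    rw [Finset.mem_filter] at hx ⊢
    exact ⟨hx.1, H.mul_mem hx.2 hx.2⟩
  have hcardeq : (Finset.univ.filter (fun s : G => s ∈ H)).card = Nat.card H := by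
    rw [← Fintype.card_subtype, Nat.card_eq_fintype_card]
  have heq := Finset.eq_of_subset_of_card_le hsub (by rw [hcardeq]; exact hle2)
  have hmem : s ∈ (Finset.univ.filter (fun s : G => s * s ∈ H)) := by
    simp [hs]
  rw [← heq] at hmem
  exact (Finset.mem_filter.mp hmem).2

/-- If `s * s ∈ core` forces `s ∈ core`, the core has odd index. -/
theorem odd_index_of_forall (C : Subgroup G) [hC : C.Normal] (h : ∀ s : G, s * s ∈ C → s ∈ C) :
    Odd C.index := by
  by_contra hodd
  rw [Nat.not_odd_iff_even] at hodd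
  have h2 : 2 ∣ Nat.card (G ⧸ C) := hodd.two_dvd
  obtain ⟨q, hq⟩ := exists_prime_orderOf_dvd_card' 2 h2
  obtain ⟨s, rfl⟩ := QuotientGroup.mk_surjective q
  have h3 : ((s : G ⧸ C)) * (s : G ⧸ C) = 1 := by
    rw [← pow_two, ← hq, pow_orderOf_eq_one]
  rw [← QuotientGroup.mk_mul, QuotientGroup.eq_one_iff] at h3
  have h4 := h s h3
  have h5 : (s : G ⧸ C) = 1 := (QuotientGroup.eq_one_iff _).mpr h4
  rw [h5, orderOf_one] at hq
  omega

/-- The theorem. -/
theorem card_eq_one_iff (H : Subgroup G) :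
    Nat.card {χ : IrrCharacter G // classInner (indFun H (fun _ : H => (1 : ℂ))) (χ : G → ℂ) ≠ 0 ∧
      (∀ g : G, conj ((χ : G → ℂ) g) = (χ : G → ℂ) g) ∧ nu (χ : G → ℂ) = 1} = 1 ↔
    Odd H.normalCore.index := by
  classical
  constructor
  · intro h
    apply odd_index_of_forall
    intro s hs b
    apply mem_of_mul_self_mem_of_card_eq_one H h
    have := hs b
    have h2 : b * s * b⁻¹ * (b * s * b⁻¹) = b * (s * s) * b⁻¹ := by group
    rwa [h2]
  · intro hodd
    letI : Fintype H := Fintype.ofFinite _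
    letI : Fintype H.normalCore := Fintype.ofFinite _
    set τ : IrrCharacter G := ⟨fun _ => 1, Cfsg.Agent.Lib.Char.Burnside.isIrrCharacter_one⟩ with hτ
    have hres : ∀ χ : IrrCharacter G, classInner (indFun H (fun _ : H => (1 : ℂ))) (χ : G → ℂ) ≠ 0 →
        classInner (fun n : H.normalCore => (χ : G → ℂ) n) (fun _ => (1 : ℂ)) ≠ 0 := by
      intro χ h1
      rw [classInner_indFun_left H _ _ (isClassFunction_of_isIrrCharacter χ.2)] at h1
      have h2 : classInner (fun h : H => (χ : G → ℂ) h) (fun _ => (1 : ℂ)) ≠ 0 := by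
        intro h0
        apply h1
        rw [← classInner_conj, h0, map_zero]
      have h3 := classInner_ne_zero_mono (Subgroup.inclusion (Subgroup.normalCore_le H))
        (isCharacter_restrict H (isCharacter_of_isIrrCharacter χ.2))
        (Cfsg.Agent.Lib.Char.Burnside.isIrrCharacter_one (G := H)) h2
        (isCharacter_one (G := H.normalCore)) (by
          show classInner (fun _ : H.normalCore => (1 : ℂ)) (fun _ => (1 : ℂ)) ≠ 0
          rw [inner_one_one]
          exact one_ne_zero)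
      exact h3
    have hτmem : classInner (indFun H (fun _ : H => (1 : ℂ))) (τ : G → ℂ) ≠ 0 ∧
        (∀ g : G, conj ((τ : G → ℂ) g) = (τ : G → ℂ) g) ∧ nu (τ : G → ℂ) = 1 := by
      refine ⟨?_, ?_, nu_one⟩
      · rw [classInner_indFun_left H _ _ (isClassFunction_of_isIrrCharacter τ.2)]
        show classInner (fun _ : H => (1 : ℂ)) (fun _ => (1 : ℂ)) ≠ 0
        rw [inner_one_one]
        exact one_ne_zero
      · intro g
        simp [hτ]
    have huniq : ∀ χ : {χ : IrrCharacter G // classInner (indFun H (fun _ : H => (1 : ℂ))) (χ : G → ℂ) ≠ 0 ∧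
        (∀ g : G, conj ((χ : G → ℂ) g) = (χ : G → ℂ) g) ∧ nu (χ : G → ℂ) = 1}, χ = ⟨τ, hτmem⟩ := by
      rintro ⟨χ, h1, h2, h3⟩
      apply Subtype.ext
      apply Subtype.ext
      refine eq_of_real_of_lies_over H.normalCore hodd
        (Cfsg.Agent.Lib.Char.Burnside.isIrrCharacter_one (G := H.normalCore)) χ.2 τ.2 h2 hτmem.2.1
        (hres χ h1) (hres τ hτmem.1)
    rw [Nat.card_eq_one_iff_unique]
    exact ⟨⟨fun a b => by rw [huniq a, huniq b]⟩, ⟨⟨τ, hτmem⟩⟩⟩

end Cfsg.Agent.Lib.Char.PermReal
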