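import Cfsg.Agent.Lib.Char.Clifford
import Cfsg.Agent.Lib.Char.Central
import Cfsg.Agent.Lib.Char.Eigen
import Cfsg.Agent.Lib.Char.Extend
import Cfsg.Agent.Lib.Char.Linear
import Cfsg.Agent.Lib.Char.Degree
import Cfsg.Agent.Lib.Char.IndRep
import Mathlib

/-!
# Primitive faithful irreducible characters of degree two

If `χ` is a faithful primitive irreducible character of degree two then `|G : Z(G)|` is `12`, `24`
or `60`.  The group `G` acts on the set of lines of `ℂ²` fixed by some non-central element; every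
non-central element fixes exactly two of them, and the orbit counting formula does the rest.
-/

set_option autoImplicit false
set_option linter.unusedSectionVars false
set_option linter.style.haveILetI false
set_option linter.deprecated false

namespace Cfsg.Agent.Lib.Char.PrimTwo

open Cfsg Module MulAction
open Cfsg.Agent.Lib.Char.Basic Cfsg.Agent.Lib.Char.Ortho Cfsg.Agent.Lib.Char.Clifford
open Cfsg.Agent.Lib.Char.Induced Cfsg.Agent.Lib.Char.IndRep Cfsg.Agent.Lib.Char.Degree
open Cfsg.Agent.Lib.Char.Extend Cfsg.Agent.Lib.Char.Central Cfsg.Agent.Lib.Char.Conj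

section Numeric

theorem tri_sorted {a b c n : ℕ} (ha3 : 3 ≤ a) (hab : a ≤ b) (hbc : b ≤ c) (hc2 : 2 * c ≤ n)
    (ha : a ∣ n) (hb : b ∣ n) (hc : c ∣ n) (hsum : a + b + c = n + 2) :
    n = 12 ∨ n = 24 ∨ n = 60 := by
  obtain ⟨s, hs⟩ := hc
  have hc0 : 0 < c := by omega
  have hs2 : 2 ≤ s := by
    by_contra h
    have h1 : s ≤ 1 := by omega
    have : c * s ≤ c * 1 := Nat.mul_le_mul_left _ h1
    omega
  have hs3 : s < 3 := by
    by_contra h
    have h1 : 3 ≤ s := by omega
    have : c * 3 ≤ c * s := Nat.mul_le_mul_left _ h1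
    omega
  have hs' : s = 2 := by omega
  subst hs'
  obtain ⟨q, hq⟩ := hb
  have hb0 : 0 < b := by omega
  have hq2 : 2 ≤ q := by
    by_contra h
    have h1 : q ≤ 1 := by omega
    have : b * q ≤ b * 1 := Nat.mul_le_mul_left _ h1
    omega
  have hq4 : q < 4 := by
    by_contra h
    have h1 : 4 ≤ q := by omega
    have : b * 4 ≤ b * q := Nat.mul_le_mul_left _ h1
    omega
  have hq' : q = 2 ∨ q = 3 := by omega
  rcases hq' with rfl | rfl
  · omega
  · obtain ⟨t, ht⟩ : ∃ t, c = 3 * t ∧ b = 2 * t := ⟨c - b, by omega, by omega⟩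
    obtain ⟨rfl, rfl⟩ := ht
    have han : a = t + 2 := by omega
    subst han
    have hn : n = 6 * t := by omega
    have hd : t + 2 ∣ 12 := by
      have h1 : t + 2 ∣ 6 * t := hn ▸ ha
      have h2 : t + 2 ∣ 6 * t + 12 := ⟨6, by ring⟩
      exact (Nat.dvd_add_right h1).mp h2
    have hle := Nat.le_of_dvd (by norm_num) hd
    have hle' : t ≤ 10 := by omega
    interval_cases t <;> omega

theorem tri {a b c n : ℕ} (ha3 : 3 ≤ a) (hb3 : 3 ≤ b) (hc3 : 3 ≤ c)
    (ha2 : 2 * a ≤ n) (hb2 : 2 * b ≤ n) (hc2 : 2 * c ≤ n)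
    (ha : a ∣ n) (hb : b ∣ n) (hc : c ∣ n) (hsum : a + b + c = n + 2) :
    n = 12 ∨ n = 24 ∨ n = 60 := by
  rcases le_total a b with h1 | h1 <;> rcases le_total b c with h2 | h2 <;>
    rcases le_total a c with h3 | h3
  · exact tri_sorted ha3 h1 h2 hc2 ha hb hc (by omega)
  · exact tri_sorted ha3 h1 h2 hc2 ha hb hc (by omega)
  · exact tri_sorted ha3 h3 h2 hb2 ha hc hb (by omega)
  · exact tri_sorted hc3 h3 h1 hb2 hc ha hb (by omega)
  · exact tri_sorted hb3 h1 h3 hc2 hb ha hc (by omega)
  · exact tri_sorted hb3 h2 h3 ha2 hb hc ha (by omega)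
  · exact tri_sorted hc3 h2 h1 ha2 hc hb ha (by omega)
  · exact tri_sorted hc3 h2 h1 ha2 hc hb ha (by omega)

theorem numeric_fin : ∀ (r : ℕ) (_ : r ≤ 3) (a : Fin r → ℕ) {n : ℕ} (_ : 2 ≤ n)
    (_ : ∀ i, 3 ≤ a i) (_ : ∀ i, a i ∣ n) (_ : ∀ i, 2 * a i ≤ n)
    (_ : ∑ i, a i + 2 * (n - 1) = r * n), n = 12 ∨ n = 24 ∨ n = 60 := by
  intro r hr a n hn h3 hd h2 hsum
  interval_cases r
  · simp at hsum
    omega
  · simp at hsum
    have := h3 0
    omega
  · simp only [Fin.sum_univ_two] at hsum
    have := h3 0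
    have := h3 1
    omega
  · simp only [Fin.sum_univ_three] at hsum
    exact tri (h3 0) (h3 1) (h3 2) (h2 0) (h2 1) (h2 2) (hd 0) (hd 1) (hd 2) (by omega)

theorem numeric {Ω : Type*} [Fintype Ω] (a : Ω → ℕ) {n : ℕ} (hn : 2 ≤ n) (h3 : ∀ i, 3 ≤ a i)
    (hd : ∀ i, a i ∣ n) (h2 : ∀ i, 2 * a i ≤ n)
    (hsum : ∑ i, a i + 2 * (n - 1) = Fintype.card Ω * n) : n = 12 ∨ n = 24 ∨ n = 60 := by
  have hle : 2 * ∑ i, a i ≤ Fintype.card Ω * n := by
    rw [Finset.mul_sum]
    calc ∑ i, 2 * a i ≤ ∑ _i : Ω, n := Finset.sum_le_sum fun i _ => h2 i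
      _ = _ := by simp
  have hr : Fintype.card Ω ≤ 3 := by
    by_contra h
    have h4 : 4 ≤ Fintype.card Ω := by omega
    have : 4 * n ≤ Fintype.card Ω * n := Nat.mul_le_mul_right _ h4
    omega
  let e : Ω ≃ Fin (Fintype.card Ω) := Fintype.equivFin Ω
  refine numeric_fin _ hr (fun i => a (e.symm i)) hn (fun i => h3 _) (fun i => hd _)
    (fun i => h2 _) ?_
  rw [Equiv.sum_comp e.symm a]
  exact hsum

end Numeric

section Lines

variable {V : Type*} [AddCommGroup V] [Module ℂ V]

theorem exists_basis_two [FiniteDimensional ℂ V] (hV : finrank ℂ V = 2) (T : End ℂ V) {N : ℕ}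
    (hN : N ≠ 0) (hT : T ^ N = 1) :
    ∃ (b : Basis (Fin 2) ℂ V) (μ : Fin 2 → ℂ), ∀ i, T (b i) = μ i • b i := by
  obtain ⟨b, μ, h, -⟩ := Eigen.exists_eigenbasis_of_pow_eq_one T hN hT
  let e : Fin (finrank ℂ V) ≃ Fin 2 := finCongr hV
  refine ⟨b.reindex e, μ ∘ e.symm, fun i => ?_⟩
  simp [Basis.reindex_apply, h]

theorem repr_aux (b : Basis (Fin 2) ℂ V) (α β : ℂ) :
    b.repr (α • b 0 + β • b 1) 0 = α ∧ b.repr (α • b 0 + β • b 1) 1 = β := by
  simp

theorem eq_span_of_map_eq (b : Basis (Fin 2) ℂ V) (T : V →ₗ[ℂ] V) (μ : Fin 2 → ℂ)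
    (hT : ∀ i, T (b i) = μ i • b i) (hμ : μ 0 ≠ μ 1) (L : Submodule ℂ V)
    (hL : finrank ℂ L = 1) (hinv : L.map T = L) :
    L = Submodule.span ℂ {b 0} ∨ L = Submodule.span ℂ {b 1} := by
  obtain ⟨⟨v, hvL⟩, hv0, hspan⟩ := finrank_eq_one_iff'.mp hL
  have hv0' : v ≠ 0 := fun h => hv0 (Subtype.ext h)
  have hLspan : L = Submodule.span ℂ {v} := by
    apply le_antisymm
    · intro w hw
      obtain ⟨c, hc⟩ := hspan ⟨w, hw⟩
      exact Submodule.mem_span_singleton.mpr ⟨c, congrArg Subtype.val hc⟩
    · exact (Submodule.span_singleton_le_iff_mem _ _).mpr hvL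
  have hTv : T v ∈ L := by
    rw [← hinv]
    exact Submodule.mem_map_of_mem hvL
  obtain ⟨c, hc⟩ := hspan ⟨T v, hTv⟩
  have hc' : c • v = T v := congrArg Subtype.val hc
  obtain ⟨x, y, hv⟩ : ∃ x y : ℂ, v = x • b 0 + y • b 1 := by
    refine ⟨b.repr v 0, b.repr v 1, ?_⟩
    conv_lhs => rw [← b.sum_repr v]
    rw [Fin.sum_univ_two]
  have hT2 : T v = (x * μ 0) • b 0 + (y * μ 1) • b 1 := by
    rw [hv, map_add, map_smul, map_smul, hT, hT, smul_smul, smul_smul]
  have hc2 : c • v = (c * x) • b 0 + (c * y) • b 1 := by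
    rw [hv, smul_add, smul_smul, smul_smul]
  rw [hc2] at hc'
  rw [hT2] at hc'
  have h0 := (repr_aux b (c * x) (c * y)).1
  have h1 := (repr_aux b (c * x) (c * y)).2
  rw [hc', (repr_aux b _ _).1] at h0
  rw [hc', (repr_aux b _ _).2] at h1
  by_cases hx : x = 0
  · right
    have hy : y ≠ 0 := by
      rintro rfl
      apply hv0'
      rw [hv, hx]
      simp
    rw [hLspan, hv, hx, zero_smul, zero_add]
    exact Submodule.span_singleton_smul_eq (IsUnit.mk0 y hy) _
  · by_cases hy : y = 0
    · left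
      rw [hLspan, hv, hy, zero_smul, add_zero]
      exact Submodule.span_singleton_smul_eq (IsUnit.mk0 x hx) _
    · exfalso
      apply hμ
      have h2 : μ 0 = c := by
        apply mul_left_cancel₀ hx
        rw [h0]
        ring
      have h3 : μ 1 = c := by
        apply mul_left_cancel₀ hy
        rw [h1]
        ring
      rw [h2, h3]

theorem span_ne (b : Basis (Fin 2) ℂ V) :
    Submodule.span ℂ {b 0} ≠ Submodule.span ℂ {b 1} := by
  intro h
  have h1 : b 1 ∈ Submodule.span ℂ {b 0} := by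
    rw [h]
    exact Submodule.mem_span_singleton_self _
  obtain ⟨c, hc⟩ := Submodule.mem_span_singleton.mp h1
  have h2 := congrArg (fun v => b.repr v 1) hc
  simp at h2

theorem map_span_eq (T : V →ₗ[ℂ] V) (v : V) {μ : ℂ} (hμ : μ ≠ 0) (hT : T v = μ • v) :
    (Submodule.span ℂ {v}).map T = Submodule.span ℂ {v} := by
  rw [Submodule.map_span, Set.image_singleton, hT]
  exact Submodule.span_singleton_smul_eq (IsUnit.mk0 μ hμ) _

end Lines

section Act

variable {G : Type*} [Group G] {V : Type*} [AddCommGroup V] [Module ℂ V]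
  (ρ : Representation ℂ G V)

/-- `ρ g` as a linear equivalence. -/
noncomputable def eqv (g : G) : V ≃ₗ[ℂ] V :=
  LinearEquiv.ofLinearMap (ρ g) (ρ g⁻¹)
    (LinearMap.ext fun v => by
      rw [LinearMap.comp_apply, ← Module.End.mul_apply, ← map_mul]; simp)
    (LinearMap.ext fun v => by
      rw [LinearMap.comp_apply, ← Module.End.mul_apply, ← map_mul]; simp)

/-- The lines fixed by a non-central element. -/
def LineSet : Set (Submodule ℂ V) :=
  {L | finrank ℂ L = 1 ∧ ∃ g : G, g ∉ Subgroup.center G ∧ L.map (ρ g) = L}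

theorem map_mul_eq (g h : G) (L : Submodule ℂ V) :
    L.map (ρ (g * h)) = (L.map (ρ h)).map (ρ g) := by
  rw [map_mul, Module.End.mul_eq_comp, Submodule.map_comp]

theorem map_smul_mem (g : G) {L : Submodule ℂ V} (hL : L ∈ LineSet ρ) :
    L.map (ρ g) ∈ LineSet ρ := by
  obtain ⟨h1, h, hh, hL'⟩ := hL
  refine ⟨?_, g * h * g⁻¹, ?_, ?_⟩
  · have := (eqv ρ g).finrank_map_eq L
    rw [← h1, ← this]
    rfl
  · intro hc
    apply hh
    have h2 : h = g⁻¹ * (g * h * g⁻¹) * g := by group
    rw [h2]
    have h3 : g * h * g⁻¹ * g = g * (g * h * g⁻¹) := (Subgroup.mem_center_iff.mp hc g).symm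
    rw [mul_assoc g⁻¹, h3, ← mul_assoc, inv_mul_cancel, one_mul]
    exact hc
  · rw [← map_mul_eq]
    have h3 : g * h * g⁻¹ * g = g * h := by group
    rw [h3, map_mul_eq, hL']

noncomputable instance lineAct : MulAction G (LineSet ρ) where
  smul g L := ⟨L.1.map (ρ g), map_smul_mem ρ g L.2⟩
  one_smul L := Subtype.ext (by
    show L.1.map (ρ 1) = L.1
    rw [map_one]
    exact Submodule.map_id _)
  mul_smul g h L := Subtype.ext (map_mul_eq ρ g h L.1)

theorem coe_smul (g : G) (L : LineSet ρ) : ((g • L : LineSet ρ) : Submodule ℂ V) = L.1.map (ρ g) :=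
  rfl

theorem smul_eq_iff (g : G) (L : LineSet ρ) : g • L = L ↔ L.1.map (ρ g) = L.1 :=
  Subtype.ext_iff

end Act

section Irr

variable {H : Type*} [Group H] {V : Type*} [AddCommGroup V] [Module ℂ V]

/-- An irreducible representation of dimension two has no invariant line. -/
theorem no_invariant_line (σ : Representation ℂ H V) [hσ : σ.IsIrreducible] [FiniteDimensional ℂ V]
    (hV : finrank ℂ V = 2) (L : Submodule ℂ V) (hL : finrank ℂ L = 1)
    (hinv : ∀ h, L.map (σ h) = L) : False := by
  let S : Subrepresentation σ := ⟨L, fun g v hv => by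
    rw [← hinv g]
    exact Submodule.mem_map_of_mem hv⟩
  rcases hσ.eq_bot_or_eq_top S with h1 | h1
  · have h2 : L = ⊥ := congrArg Subrepresentation.toSubmodule h1
    rw [h2] at hL
    simp at hL
  · have h2 : L = ⊤ := congrArg Subrepresentation.toSubmodule h1
    rw [h2, finrank_top] at hL
    omega

end Irr

section Main

variable {G : Type*} [Group G] [Fintype G] {V : Type*} [AddCommGroup V] [Module ℂ V]
  [FiniteDimensional ℂ V] (ρ : Representation ℂ G V)

theorem map_eq_of_mem_center [ρ.IsIrreducible] (L : Submodule ℂ V) {z : G}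
    (hz : z ∈ Subgroup.center G) : L.map (ρ z) = L := by
  obtain ⟨ω, hω⟩ := center_acts_scalar ρ z hz
  have hnt := nontrivial_of_irreducible ρ
  have hω0 : ω ≠ 0 := by
    rintro rfl
    obtain ⟨v, hv⟩ := exists_ne (0 : V)
    apply hv
    have h1 : ρ z⁻¹ (ρ z v) = v := by
      rw [← Module.End.mul_apply, ← map_mul]; simp
    rw [hω] at h1
    simpa using h1.symm
  rw [hω, Submodule.map_smul _ _ _ hω0]
  exact Submodule.map_id _

/-- A non-central element of a faithful representation is not a scalar. -/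
theorem not_scalar_of_not_center (hinj : Function.Injective ρ) {g : G}
    (hg : g ∉ Subgroup.center G) (c : ℂ) : ρ g ≠ c • (1 : End ℂ V) := by
  intro h
  apply hg
  rw [Subgroup.mem_center_iff]
  intro x
  apply hinj
  rw [map_mul, map_mul, h]
  ext v
  simp

/-- Exactly two of the lines are fixed by a non-central element. -/
theorem ncard_fixed (hV : finrank ℂ V = 2) (hinj : Function.Injective ρ) {g : G}
    (hg : g ∉ Subgroup.center G) :
    Set.ncard {L : LineSet ρ | L.1.map (ρ g) = L.1} = 2 := by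
  obtain ⟨b, μ, hb⟩ := exists_basis_two hV (ρ g) (orderOf_pos g).ne' (Eigen.rep_pow_orderOf ρ g)
  have hμ : μ 0 ≠ μ 1 := by
    intro h
    apply not_scalar_of_not_center ρ hinj hg (μ 0)
    apply b.ext
    intro i
    fin_cases i
    · simp [hb]
    · simp [hb, h]
  have hμ0 : ∀ i, μ i ≠ 0 := by
    intro i h0
    have h1 : ρ g⁻¹ (ρ g (b i)) = b i := by
      rw [← Module.End.mul_apply, ← map_mul]; simp
    rw [hb, h0, zero_smul, map_zero] at h1
    exact b.ne_zero i h1.symm
  have hmem : ∀ i, Submodule.span ℂ {b i} ∈ LineSet ρ := by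
    intro i
    refine ⟨finrank_span_singleton (b.ne_zero i), g, hg, ?_⟩
    exact map_span_eq _ _ (hμ0 i) (hb i)
  have hset : {L : LineSet ρ | L.1.map (ρ g) = L.1} = {⟨_, hmem 0⟩, ⟨_, hmem 1⟩} := by
    ext L
    simp only [Set.mem_setOf_eq, Set.mem_insert_iff, Set.mem_singleton_iff]
    constructor
    · intro h
      rcases eq_span_of_map_eq b (ρ g) μ hb hμ L.1 L.2.1 h with h1 | h1
      · left
        exact Subtype.ext h1
      · right
        exact Subtype.ext h1
    · rintro (h | h)
      · rw [h]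
        exact map_span_eq _ _ (hμ0 0) (hb 0)
      · rw [h]
        exact map_span_eq _ _ (hμ0 1) (hb 1)
  rw [hset, Set.ncard_pair]
  intro h
  exact span_ne b (congrArg Subtype.val h)

theorem finite_lines (hV : finrank ℂ V = 2) (hinj : Function.Injective ρ) : Finite (LineSet ρ) := by
  classical
  have h : (Set.univ : Set (LineSet ρ)) ⊆
      ⋃ g : {g : G // g ∉ Subgroup.center G}, {L : LineSet ρ | L.1.map (ρ g.1) = L.1} := by
    intro L _
    obtain ⟨_, g, hg, hL⟩ := L.2
    exact Set.mem_iUnion.mpr ⟨⟨g, hg⟩, hL⟩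
  have hf : (⋃ g : {g : G // g ∉ Subgroup.center G},
      {L : LineSet ρ | L.1.map (ρ g.1) = L.1}).Finite := by
    apply Set.finite_iUnion
    intro g
    apply Set.finite_of_ncard_ne_zero
    rw [ncard_fixed ρ hV hinj g.2]
    norm_num
  exact Set.finite_univ_iff.mp (hf.subset h)

/-- The restriction to a subgroup of index two having an invariant line: the representation is
induced. -/
theorem exists_ind_of_index_two [ρ.IsIrreducible] (hV : finrank ℂ V = 2) (K : Subgroup G)
    (hK : K.index = 2) (L : Submodule ℂ V) (hL : finrank ℂ L = 1)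
    (hinv : ∀ k ∈ K, L.map (ρ k) = L) :
    ∃ θ : K → ℂ, IsCharacter K θ ∧ ρ.character = indFun K θ := by
  classical
  have hχc := isCharacter_of_rep ρ
  have hχi : IsIrrCharacter G ρ.character := isIrrCharacter_of_irrep ρ inferInstance
  have hχ1 : ρ.character 1 = ((2 : ℕ) : ℂ) := by
    rw [Representation.character, map_one, LinearMap.trace_one, hV]
  let res : K → ℂ := fun k => ρ.character k
  have hres : IsCharacter K res := isCharacter_restrict K hχc
  have hres1 : res 1 = ((2 : ℕ) : ℂ) := by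
    show ρ.character ((1 : K) : G) = _
    rw [Subgroup.coe_one, hχ1]
  have hres0 : res ≠ 0 := by
    intro h
    have := congrFun h 1
    rw [hres1] at this
    simp at this
  obtain ⟨θ, hθ, hne⟩ := exists_irr_constituent (isClassFunction_of_isCharacter hres) hres0
  obtain ⟨d, hd⟩ := exists_deg_of_isCharacter (isCharacter_of_isIrrCharacter hθ)
  have hsub := isCharacter_sub_of_classInner_ne_zero hres hθ hne
  obtain ⟨m, hm⟩ := exists_deg_of_isCharacter hsub
  have hdm : d + m = 2 := by
    have h1 : (res - θ) 1 = res 1 - θ 1 := rfl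
    rw [hm, hres1, hd] at h1
    have h2 : ((d + m : ℕ) : ℂ) = ((2 : ℕ) : ℂ) := by
      push_cast
      push_cast at h1
      rw [h1]
      ring
    exact_mod_cast h2
  have hd0 : d ≠ 0 := by
    have h1 := charDegree_pos hθ
    rintro rfl
    rw [charDegree_eq_of_eq_natCast hd] at h1
    omega
  by_cases hd2 : d = 2
  · exfalso
    have h1 : res = θ := eq_of_constituent_of_deg_le hres hθ hne hres1 hd (by omega)
    let σ : Representation ℂ K V := ρ.comp K.subtype
    have hrep : Representation.character σ = res := by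
      funext k
      rfl
    have hirr : IsIrrCharacter K (Representation.character σ) := by
      rw [hrep, h1]
      exact hθ
    haveI := isIrreducible_of_isIrrCharacter hirr
    exact no_invariant_line σ hV L hL (fun k => hinv k.1 k.2)
  · have hd1 : d = 1 := by omega
    subst hd1
    have hindc := isCharacter_indFun K (isCharacter_of_isIrrCharacter hθ)
    refine ⟨θ, isCharacter_of_isIrrCharacter hθ, ?_⟩
    have hind1 : indFun K θ 1 = ((2 : ℕ) : ℂ) := by
      rw [indFun_one, hK, hd]
      simp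
    have hin : classInner (indFun K θ) ρ.character ≠ 0 := by
      rw [classInner_indFun_left K θ _ (isClassFunction_of_isCharacter hχc)]
      intro h0
      apply hne
      have h1 := classInner_conj θ res
      rw [← h1]
      show (starRingEnd ℂ) (classInner θ res) = 0
      have h2 : classInner θ res = 0 := h0
      rw [h2, map_zero]
    exact (eq_of_constituent_of_deg_le hindc hχi hin hind1 hχ1 le_rfl).symm

/-- The main counting theorem. -/
theorem main_rep [ρ.IsIrreducible] (hV : finrank ℂ V = 2) (hinj : Function.Injective ρ)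
    (hprim : ∀ H : Subgroup G, H ≠ ⊤ → ∀ θ : H → ℂ, IsCharacter H θ → ρ.character ≠ indFun H θ) :
    (Subgroup.center G).index = 12 ∨ (Subgroup.center G).index = 24 ∨
      (Subgroup.center G).index = 60 := by
  classical
  haveI := finite_lines ρ hV hinj
  letI : Fintype (LineSet ρ) := Fintype.ofFinite _
  set Z := Subgroup.center G with hZ
  set n := Z.index with hn
  have hn0 : n ≠ 0 := Subgroup.index_ne_zero_of_finite
  -- `n ≥ 2`
  have hn2 : 2 ≤ n := by
    by_contra h
    have h1 : n = 1 := by omega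
    have h2 : Z = ⊤ := Subgroup.index_eq_one.mp h1
    obtain ⟨b, μ, -⟩ := exists_basis_two hV (ρ 1) (N := 1) one_ne_zero (by simp)
    refine no_invariant_line ρ hV (Submodule.span ℂ {b 0}) (finrank_span_singleton (b.ne_zero 0)) ?_
    intro g
    apply map_eq_of_mem_center ρ
    rw [← hZ, h2]
    trivial
  -- the stabilizers
  have hst : ∀ L : LineSet ρ, 3 ≤ (stabilizer G L).index ∧ (stabilizer G L).index ∣ n ∧
      2 * (stabilizer G L).index ≤ n := by
    intro L
    set K := stabilizer G L with hKdef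
    have hZK : Z ≤ K := by
      intro z hz
      rw [hKdef, mem_stabilizer_iff, smul_eq_iff]
      exact map_eq_of_mem_center ρ L.1 hz
    have hmemK : ∀ k ∈ K, L.1.map (ρ k) = L.1 := by
      intro k hk
      rw [hKdef, mem_stabilizer_iff, smul_eq_iff] at hk
      exact hk
    have hK0 : K.index ≠ 0 := Subgroup.index_ne_zero_of_finite
    have hK1 : K.index ≠ 1 := by
      intro h
      have h2 : K = ⊤ := Subgroup.index_eq_one.mp h
      exact no_invariant_line ρ hV L.1 L.2.1 (fun g => hmemK g (by rw [h2]; trivial))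
    have hK2 : K.index ≠ 2 := by
      intro h
      obtain ⟨θ, hθ, hθe⟩ := exists_ind_of_index_two ρ hV K h L.1 L.2.1 hmemK
      refine hprim K ?_ θ hθ hθe
      intro h2
      rw [h2, Subgroup.index_top] at h
      omega
    have hrel := Subgroup.relIndex_mul_index hZK
    refine ⟨by omega, Subgroup.index_dvd_of_le hZK, ?_⟩
    have hr0 : Z.relIndex K ≠ 0 := by
      intro h0
      rw [h0, zero_mul] at hrel
      exact hn0 hrel.symm
    have hr1 : Z.relIndex K ≠ 1 := by
      intro h1
      have h2 : K ≤ Z := Subgroup.relIndex_eq_one.mp h1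
      obtain ⟨_, g, hg, hgL⟩ := L.2
      apply hg
      apply h2
      rw [hKdef, mem_stabilizer_iff, smul_eq_iff]
      exact hgL
    have hr2 : 2 ≤ Z.relIndex K := by omega
    calc 2 * K.index ≤ Z.relIndex K * K.index := Nat.mul_le_mul_right _ hr2
      _ = n := hrel
  -- Burnside
  have hb := sum_card_fixedBy_eq_card_orbits_mul_card_group G (LineSet ρ)
  have hfix : ∀ g : G, Fintype.card (fixedBy (LineSet ρ) g) =
      if g ∈ Z then Fintype.card (LineSet ρ) else 2 := by
    intro g
    split_ifs with hg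
    · apply Fintype.card_congr
      refine (Equiv.subtypeUnivEquiv ?_)
      intro L
      rw [mem_fixedBy, smul_eq_iff]
      exact map_eq_of_mem_center ρ L.1 hg
    · rw [← Nat.card_eq_fintype_card, ← ncard_fixed ρ hV hinj hg]
      rw [← Nat.card_coe_set_eq]
      apply Nat.card_congr
      exact Equiv.subtypeEquivRight fun L => by rw [mem_fixedBy, smul_eq_iff]; rfl
  simp only [hfix] at hb
  rw [Finset.sum_ite] at hb
  simp only [Finset.sum_const, smul_eq_mul] at hb
  have hc1 : (Finset.univ.filter (fun g : G => g ∈ Z)).card = Nat.card Z := by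
    rw [Nat.card_eq_fintype_card, Fintype.card_subtype]
  have hc2 := Finset.card_filter_add_card_filter_not (s := (Finset.univ : Finset G))
    (fun g : G => g ∈ Z)
  have hcard : Nat.card Z * n = Fintype.card G := by
    rw [← Nat.card_eq_fintype_card]
    exact Subgroup.card_mul_index Z
  rw [hc1] at hb hc2
  rw [Finset.card_univ] at hc2
  set z := Nat.card Z with hz
  have hz0 : z ≠ 0 := Nat.card_pos.ne'
  set r := Fintype.card (orbitRel.Quotient G (LineSet ρ)) with hr
  -- the sum over orbits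
  have hsumX : Fintype.card (LineSet ρ) = ∑ ω : orbitRel.Quotient G (LineSet ρ),
      (stabilizer G (ω.out : LineSet ρ)).index := by
    rw [card_eq_sum_card_group_div_card_stabilizer G (LineSet ρ)]
    refine Finset.sum_congr rfl fun ω _ => ?_
    have h1 := Subgroup.card_mul_index (stabilizer G (ω.out : LineSet ρ))
    rw [Nat.card_eq_fintype_card, Nat.card_eq_fintype_card] at h1
    exact Nat.div_eq_of_eq_mul_right Fintype.card_pos h1.symm
  have hfinal : ∑ ω : orbitRel.Quotient G (LineSet ρ), (stabilizer G (ω.out : LineSet ρ)).index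
      + 2 * (n - 1) = Fintype.card (orbitRel.Quotient G (LineSet ρ)) * n := by
    rw [← hsumX]
    apply Nat.eq_of_mul_eq_mul_left (Nat.pos_of_ne_zero hz0)
    have hne : (Finset.univ.filter (fun g : G => ¬ g ∈ Z)).card = z * (n - 1) := by
      rw [Nat.mul_sub, mul_one]
      omega
    rw [hne, ← hcard] at hb
    rw [Nat.mul_add]
    calc z * Fintype.card (LineSet ρ) + z * (2 * (n - 1))
        = z * Fintype.card (LineSet ρ) + z * (n - 1) * 2 := by ring
      _ = r * (z * n) := hb
      _ = z * (r * n) := by ring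
  exact numeric _ hn2 (fun ω => (hst _).1) (fun ω => (hst _).2.1) (fun ω => (hst _).2.2) hfinal

end Main

end Cfsg.Agent.Lib.Char.PrimTwo
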