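import Cfsg.Agent.Lib.Char.AlgSpan
import Cfsg.Agent.Lib.Char.PSmall
import Cfsg.Agent.Lib.Char.Galois
import Mathlib

/-!
# Pieces for the real vector criterion

A *piece* for an action of `H` on a finite abelian `p`-group `W` is a function `lam` on `H`
with `lam 1 = 1`, algebraic integer values, small values (in the radical of `p`) at elements acting
nontrivially, `‖lam h‖² = |W : C_W(h)|`, values in a cyclotomic field, and such that
`h ↦ |C_W(h)| lam h` lies in the span of the characters of `H` over the algebraic integers.

The file also contains the permutation representation of `H` on functions on `W`.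
-/

set_option autoImplicit false

namespace Cfsg.Agent.Lib.Char.RVPiece

open Cfsg Module
open Cfsg.Agent.Lib.Char.AlgSpan Cfsg.Agent.Lib.Char.PSmall Cfsg.Agent.Lib.Char.Galois

universe u v

variable {H : Type u} [Group H] (W : Type v) [AddCommGroup W] [DistribMulAction H W]

/-- The number of fixed points of an element. -/
noncomputable def fx (h : H) : ℕ := Nat.card {w : W // h • w = w}

/-- The defining properties of a piece. -/
structure IsPiece (p : ℕ) (lam : H → ℂ) : Prop where
  one : lam 1 = 1
  integral : ∀ h, IsIntegral ℤ (lam h)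
  small : ∀ h, (∃ w : W, h • w ≠ w) → IsSmall p (lam h)
  normSq : ∀ h, ‖lam h‖ ^ 2 * (fx W h : ℝ) = Nat.card W
  span : InAlgSpan (fun h => (fx W h : ℂ) * lam h)
  cyc : ∃ N, N ≠ 0 ∧ ∀ h, lam h ∈ Kn N

theorem fx_pos [Finite W] (h : H) : 0 < fx W h := by
  have : Nonempty {w : W // h • w = w} := ⟨⟨0, smul_zero _⟩⟩
  exact Nat.card_pos

/-- The fixed points as a subgroup. -/
def fixSub (h : H) : AddSubgroup W where
  carrier := {w | h • w = w}
  zero_mem' := smul_zero _
  add_mem' := by
    intro a b (ha : h • a = a) (hb : h • b = b)
    change h • (a + b) = a + b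
    rw [smul_add, ha, hb]
  neg_mem' := by
    intro a (ha : h • a = a)
    change h • (-a) = -a
    rw [smul_neg, ha]

variable {W} in
theorem mem_fixSub {h : H} {w : W} : w ∈ fixSub W h ↔ h • w = w := Iff.rfl

theorem fx_eq_card (h : H) : fx W h = Nat.card (fixSub W h) := rfl

set_option linter.unusedSectionVars false
set_option linter.style.haveILetI false

section Rep

variable [Fintype W] [DecidableEq W]

/-- The permutation representation on functions on `W`. -/
noncomputable def permRep : Representation ℂ H (W → ℂ) where
  toFun h := LinearMap.funLeft ℂ ℂ (fun x : W => h⁻¹ • x)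
  map_one' := by
    refine LinearMap.ext fun f => funext fun x => ?_
    simp [LinearMap.funLeft_apply]
  map_mul' a b := by
    refine LinearMap.ext fun f => funext fun x => ?_
    simp [LinearMap.funLeft_apply, mul_inv_rev, mul_smul]

theorem permRep_apply (h : H) (f : W → ℂ) (x : W) : permRep W h f x = f (h⁻¹ • x) := rfl

theorem toLin'_comp_permRep (M : Matrix W W ℂ) (h : H) :
    Matrix.toLin' M ∘ₗ permRep W h = Matrix.toLin' (Matrix.of fun x y => M x (h • y)) := by
  refine LinearMap.ext fun f => funext fun x => ?_
  simp only [LinearMap.comp_apply, Matrix.toLin'_apply, Matrix.mulVec, dotProduct]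
  refine (Equiv.sum_comp (MulAction.toPerm h : Equiv.Perm W) _).symm.trans ?_
  refine Finset.sum_congr rfl fun y _ => ?_
  simp [permRep_apply]

theorem trace_toLin'_comp_permRep (M : Matrix W W ℂ) (h : H) :
    LinearMap.trace ℂ (W → ℂ) (Matrix.toLin' M ∘ₗ permRep W h) = ∑ x, M x (h • x) := by
  rw [toLin'_comp_permRep, Matrix.trace_toLin'_eq]
  simp [Matrix.trace]

/-- Commutation of an invariant kernel with the permutation representation. -/
theorem commute_toLin'_permRep (M : Matrix W W ℂ)
    (hM : ∀ (h : H) x y, M (h • x) (h • y) = M x y) (h : H) :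
    Commute (Matrix.toLin' M) (permRep W h) := by
  refine LinearMap.ext fun f => funext fun x => ?_
  change Matrix.toLin' M (permRep W h f) x = permRep W h (Matrix.toLin' M f) x
  simp only [permRep_apply, Matrix.toLin'_apply, Matrix.mulVec, dotProduct]
  refine (Equiv.sum_comp (MulAction.toPerm h : Equiv.Perm W) _).symm.trans ?_
  refine Finset.sum_congr rfl fun y _ => ?_
  have h2 := hM h⁻¹ x (h • y)
  simp only [MulAction.toPerm_apply, inv_smul_smul] at h2 ⊢
  rw [h2]

end Rep

section Char

variable [Finite W]

/-- The number of fixed points is a character. -/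
theorem isCharacter_fx : IsCharacter H (fun h => (fx W h : ℂ)) := by
  classical
  letI := Fintype.ofFinite W
  have h1 := Cfsg.Agent.Lib.Char.Basic.isCharacter_of_rep (permRep (H := H) W)
  convert h1 using 1
  funext h
  have h2 : (permRep W).character h = LinearMap.trace ℂ (W → ℂ) (permRep W h) := rfl
  have h3 : permRep W h = Matrix.toLin' 1 ∘ₗ permRep W h := by
    simp
  rw [h2, h3, trace_toLin'_comp_permRep]
  have h4 : ∀ x : W, (1 : Matrix W W ℂ) x (h • x) = if h • x = x then 1 else 0 := by
    intro x
    rw [Matrix.one_apply]
    simp only [eq_comm]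
  simp only [h4]
  rw [Finset.sum_boole, fx, Nat.card_eq_fintype_card, Fintype.card_subtype]

end Char

end Cfsg.Agent.Lib.Char.RVPiece
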