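import Cfsg.Agent.Lib.Char.Heis
import Cfsg.Agent.Lib.Char.Extend
import Cfsg.Agent.Lib.Char.Conj
import Cfsg.Agent.Lib.CharDeep.Det
import Cfsg.Agent.S0867
import Mathlib

/-!
# The Weil piece

Let `b` be an `H`-invariant bilinear form on the finite abelian `p`-group `W`, with `p ∤ |H|`, such
that `b x y - b y x` is nondegenerate.  The irreducible character of the Heisenberg group extends to
the semidirect product with `H`; the values of the extension on `H` yield a piece.
-/

set_option autoImplicit false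
set_option linter.style.haveILetI false
set_option linter.unusedSectionVars false

namespace Cfsg.Agent.Lib.Char.WeilPiece

open Cfsg Module
open Cfsg.Agent.Lib.Char.GaussPiece Cfsg.Agent.Lib.Char.Complete Cfsg.Agent.Lib.Char.Ortho
open Cfsg.Agent.Lib.Char.Basic Cfsg.Agent.Lib.Char.Heis Cfsg.Agent.Lib.Char.RVPiece
open Cfsg.Agent.Lib.Char.AlgSpan Cfsg.Agent.Lib.Char.PSmall Cfsg.Agent.Lib.Char.Galois
open scoped ComplexConjugate

universe u v

/-- The class sum of an arbitrary operator. -/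
theorem sum_conj_op_eq_smul {G : Type*} [Group G] [Fintype G] {V : Type*} [AddCommGroup V] [Module ℂ V]
    [FiniteDimensional ℂ V] (ρ : Representation ℂ G V) [ρ.IsIrreducible] (B : Module.End ℂ V) :
    (∑ x : G, ρ x * B * ρ x⁻¹) =
      ((Nat.card G : ℂ) * LinearMap.trace ℂ V B / finrank ℂ V) • (1 : Module.End ℂ V) := by
  have hnt := Cfsg.Agent.Lib.Char.Central.finrank_pos_of_irreducible ρ
  have hpos : (finrank ℂ V : ℂ) ≠ 0 := Nat.cast_ne_zero.mpr hnt.ne'
  obtain ⟨c, hc⟩ := Cfsg.Agent.Lib.Char.Central.schur_scalar ρ (∑ x : G, ρ x * B * ρ x⁻¹) (fun g v => by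
    simp only [LinearMap.sum_apply, map_sum]
    refine (Fintype.sum_equiv (Equiv.mulLeft g⁻¹) _ _ fun x => ?_)
    simp only [Equiv.coe_mulLeft, Module.End.mul_apply]
    have e1 : ∀ w, ρ g (ρ (g⁻¹ * x) w) = ρ x w := fun w => by
      rw [← Module.End.mul_apply, ← map_mul]
      simp
    have e2 : ρ (g⁻¹ * x)⁻¹ v = ρ x⁻¹ (ρ g v) := by
      rw [← Module.End.mul_apply, ← map_mul]
      simp
    rw [e1, e2])
  have htr : LinearMap.trace ℂ V (∑ x : G, ρ x * B * ρ x⁻¹) =
      (Nat.card G : ℂ) * LinearMap.trace ℂ V B := by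
    rw [map_sum]
    have : ∀ x : G, LinearMap.trace ℂ V (ρ x * B * ρ x⁻¹) = LinearMap.trace ℂ V B := fun x => by
      rw [LinearMap.trace_mul_comm, ← mul_assoc, ← map_mul]
      simp
    simp only [this, Finset.sum_const, Finset.card_univ, nsmul_eq_mul, Nat.card_eq_fintype_card]
  rw [hc, map_smul, smul_eq_mul] at htr
  have h1 : LinearMap.trace ℂ V (1 : Module.End ℂ V) = finrank ℂ V := LinearMap.trace_one ℂ V
  rw [h1] at htr
  rw [hc, ← htr]
  congr 1
  field_simp

section Setup

variable {H : Type u} [Group H] {W : Type v} [AddCommGroup W] [DistribMulAction H W]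
variable {p : ℕ} (b : W →+ W →+ ZMod p)

/-- The action on the Heisenberg group. -/
def act (hinv : ∀ (h : H) x y, b (h • x) (h • y) = b x y) : H →* MulAut (Heis b) where
  toFun h :=
    { toFun := fun a => ⟨h • a.x, a.s⟩
      invFun := fun a => ⟨h⁻¹ • a.x, a.s⟩
      left_inv := fun a => Heis.ext (by simp) rfl
      right_inv := fun a => Heis.ext (by simp) rfl
      map_mul' := fun a c => Heis.ext (by simp [smul_add]) (by simp [hinv]) }
  map_one' := by
    ext a
    · change (1 : H) • a.x = a.x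
      simp
    · rfl
  map_mul' h k := by
    ext a
    · change (h * k) • a.x = h • k • a.x
      rw [mul_smul]
    · rfl

@[simp] theorem act_x (hinv : ∀ (h : H) x y, b (h • x) (h • y) = b x y) (h : H) (a : Heis b) :
    (act b hinv h a).x = h • a.x := rfl

@[simp] theorem act_s (hinv : ∀ (h : H) x y, b (h • x) (h • y) = b x y) (h : H) (a : Heis b) :
    (act b hinv h a).s = a.s := rfl

end Setup

section Coprime

variable {H : Type u} [Group H] {W : Type v} [AddCommGroup W] {p : ℕ} [Fact p.Prime]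

theorem coprime_card [Finite H] [Finite W] (hcop : ¬ p ∣ Nat.card H) (hWp : ∀ w : W, p • w = 0) :
    Nat.Coprime (Nat.card H) (Nat.card W) := by
  have hp : p.Prime := Fact.out
  by_contra hcon
  obtain ⟨q, hq, h1, h2⟩ := Nat.Prime.not_coprime_iff_dvd.mp hcon
  haveI : Fact q.Prime := ⟨hq⟩
  obtain ⟨x, hx⟩ := exists_prime_addOrderOf_dvd_card' q h2
  have h3 : addOrderOf x ∣ p := addOrderOf_dvd_of_nsmul_eq_zero (hWp x)
  rw [hx] at h3
  have h4 : q = p := ((Nat.dvd_prime hp).mp h3).resolve_left hq.one_lt.ne'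
  rw [h4] at h1
  exact hcop h1

theorem detOrder_dvd_card {G : Type*} [Group G] [Finite G] {χ : G → ℂ} (hχ : IsCharacter G χ) :
    detOrder χ ∣ Nat.card G := by
  obtain ⟨lam, hlam⟩ := Cfsg.Agent.Lib.CharDeep.Det.detChar_of_isCharacter hχ
  apply orderOf_dvd_of_pow_eq_one
  rw [hlam]
  funext g
  simp only [Pi.pow_apply, Pi.one_apply]
  rw [← Units.val_pow_eq_pow_val, ← map_pow, pow_card_eq_one']
  simp

end Coprime

section Ext

open SemidirectProduct

variable {H : Type u} [Group H] {W : Type v} [AddCommGroup W] [DistribMulAction H W]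
variable {p : ℕ} [Fact p.Prime] (b : W →+ W →+ ZMod p)

/-- The character of the Heisenberg group is invariant under the action. -/
theorem tau_act (hinv : ∀ (h : H) x y, b (h • x) (h • y) = b x y) {τ : Heis b → ℂ}
    (hoff : ∀ w s, w ≠ 0 → τ ⟨w, s⟩ = 0) (h : H) (x : Heis b) :
    τ (act b hinv h x) = τ x := by
  obtain ⟨w, s⟩ := x
  have h1 : act b hinv h ⟨w, s⟩ = ⟨h • w, s⟩ := rfl
  rw [h1]
  by_cases hw : w = 0
  · subst hw
    rw [smul_zero]
  · rw [hoff w s hw, hoff (h • w) s (fun h0 => hw ((smul_eq_zero_iff_eq h).mp h0))]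

instance semi_finite [Finite H] [Finite W] (hinv : ∀ (h : H) x y, b (h • x) (h • y) = b x y) :
    Finite (Heis b ⋊[act b hinv] H) :=
  Finite.of_equiv _ SemidirectProduct.equivProd.symm

/-- The extension to the semidirect product. -/
theorem exists_ext [Finite H] [Finite W] (hcop : ¬ p ∣ Nat.card H) (hWp : ∀ w : W, p • w = 0)
    (hinv : ∀ (h : H) x y, b (h • x) (h • y) = b x y) {τ : Heis b → ℂ}
    (hτ : IsIrrCharacter (Heis b) τ) {m : ℕ} (hm : τ 1 = m) (hm2 : m ^ 2 = Nat.card W)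
    (hs : ∀ s, τ ⟨0, s⟩ = m * ee s) (hoff : ∀ w s, w ≠ 0 → τ ⟨w, s⟩ = 0) :
    ∃ χ : (Heis b ⋊[act b hinv] H) → ℂ, IsIrrCharacter _ χ ∧ ∀ x, χ (inl x) = τ x := by
  classical
  have hp : p.Prime := Fact.out
  let N : Subgroup (Heis b ⋊[act b hinv] H) := (inl : Heis b →* _).range
  have hNe : N = rightHom.ker := range_inl_eq_ker_rightHom
  haveI hN : N.Normal := by
    rw [hNe]
    infer_instance
  let e : Heis b ≃* N := MonoidHom.ofInjective inl_injective
  have he : ∀ x, ((e x : N) : Heis b ⋊[act b hinv] H) = inl x := fun x => rfl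
  let θ : N → ℂ := τ ∘ e.symm
  have hθ : IsIrrCharacter N θ := Cfsg.Agent.Lib.Char.Conj.isIrrCharacter_comp_mulEquiv e.symm hτ
  have hinvθ : ∀ (g : Heis b ⋊[act b hinv] H) (n : N), θ ⟨g * n * g⁻¹, hN.conj_mem (n : _) n.2 g⟩ = θ n := by
    intro g n
    obtain ⟨x, rfl⟩ := e.surjective n
    simp only [θ, Function.comp, MulEquiv.symm_apply_apply]
    set y := g.left
    set h := g.right
    have hg : g = inl y * inr h := (inl_left_mul_inr_right g).symm
    have h1 : (⟨g * (e x : N) * g⁻¹, hN.conj_mem _ (e x : N).2 g⟩ : N) =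
        e (y * act b hinv h x * y⁻¹) := by
      apply Subtype.ext
      change g * inl x * g⁻¹ = inl (y * act b hinv h x * y⁻¹)
      rw [map_mul, map_mul, inl_aut, hg]
      simp only [map_inv]
      group
    rw [h1, MulEquiv.symm_apply_apply, isClassFunction_of_isIrrCharacter hτ, tau_act b hinv hoff]
  have hidx : N.index = Nat.card H := by
    rw [hNe, Subgroup.index_ker, MonoidHom.range_eq_top.mpr rightHom_surjective]
    exact Nat.card_congr Subgroup.topEquiv.toEquiv
  have hd : θ 1 = m := by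
    simp only [θ, Function.comp, map_one, hm]
  have hc1 : Nat.Coprime (Nat.card H) (Nat.card W) := coprime_card hcop hWp
  have hc2 : Nat.Coprime (Nat.card H) p :=
    ((Nat.Prime.coprime_iff_not_dvd hp).mpr hcop).symm
  have hcopθ : Nat.Coprime N.index (detOrder θ * m) := by
    rw [hidx]
    apply Nat.Coprime.mul_right
    · have h1 : detOrder θ ∣ Nat.card N := detOrder_dvd_card (isCharacter_of_isIrrCharacter hθ)
      have h2 : Nat.card N = Nat.card W * p := by
        rw [← Nat.card_congr e.toEquiv, card_heis]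
      rw [h2] at h1
      exact (Nat.Coprime.mul_right hc1 hc2).coprime_dvd_right h1
    · have h1 : m ∣ Nat.card W := by
        rw [← hm2]
        exact dvd_pow_self m two_ne_zero
      exact hc1.coprime_dvd_right h1
  obtain ⟨χ, ⟨h1, h2, -⟩, -⟩ := Cfsg.Agent.S0867.result N θ hθ hinvθ m hd hcopθ
  refine ⟨χ, h1, fun x => ?_⟩
  have h3 := h2 (e x)
  rw [he] at h3
  rw [h3]
  simp [θ]

variable {b}
variable (hinv : ∀ (h : H) x y, b (h • x) (h • y) = b x y) {τ : Heis b → ℂ} {m : ℕ}

theorem tau_zz_mul (hs : ∀ s, τ ⟨0, s⟩ = m * ee s) (hoff : ∀ w s, w ≠ 0 → τ ⟨w, s⟩ = 0) (t : ZMod p)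
    (g : Heis b) : τ (zz t * g) = ee t * τ g := by
  rw [zz_mul]
  obtain ⟨w, s⟩ := g
  by_cases hw : w = 0
  · subst hw
    simp only [hs, ee_add]
    ring
  · simp only [hoff w _ hw, mul_zero]

/-- Restriction of a representation of the semidirect product to the Heisenberg group. -/
theorem rep_inl_irreducible [Finite H] [Finite W] {n : ℕ}
    (ρ : Representation ℂ (Heis b ⋊[act b hinv] H) (Fin n → ℂ)) (hτ : IsIrrCharacter (Heis b) τ)
    (hχ : ∀ x, ρ.character (inl x) = τ x) :
    Representation.IsIrreducible (ρ.comp inl : Representation ℂ (Heis b) (Fin n → ℂ)) := by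
  apply Cfsg.Agent.Lib.Char.Extend.isIrreducible_of_isIrrCharacter
  have h1 : Representation.character (ρ.comp inl : Representation ℂ (Heis b) (Fin n → ℂ)) = τ := funext hχ
  rw [h1]
  exact hτ

theorem rep_zz_eq [Finite H] [Finite W] {n : ℕ}
    (ρ : Representation ℂ (Heis b ⋊[act b hinv] H) (Fin n → ℂ)) (hτ : IsIrrCharacter (Heis b) τ)
    (hχ : ∀ x, ρ.character (inl x) = τ x) (hs : ∀ s, τ ⟨0, s⟩ = m * ee s)
    (hoff : ∀ w s, w ≠ 0 → τ ⟨w, s⟩ = 0) (t : ZMod p) :
    ρ (inl (zz t)) = ee t • (1 : Module.End ℂ (Fin n → ℂ)) := by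
  classical
  letI := Fintype.ofFinite W
  have h1 : Representation.character (ρ.comp inl : Representation ℂ (Heis b) (Fin n → ℂ)) = τ := funext hχ
  refine rep_zz_of_classInner _ (rep_inl_irreducible hinv ρ hτ hχ) τ (tau_zz_mul hs hoff) ?_ t
  rw [h1, classInner_self_of_isIrr hτ]
  exact one_ne_zero

theorem finrank_eq [Finite H] [Finite W] {n : ℕ}
    (ρ : Representation ℂ (Heis b ⋊[act b hinv] H) (Fin n → ℂ))
    (hχ : ∀ x, ρ.character (inl x) = τ x) (hm : τ 1 = m) : n = m := by
  have h1 := hχ 1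
  rw [map_one, Representation.char_one, hm] at h1
  simpa using h1

/-- The commutator formula for the action. -/
theorem inl_mul_act (x : Heis b) (h : H) :
    (inl (x * act b hinv h x⁻¹) : Heis b ⋊[act b hinv] H) = inl x * inr h * inl x⁻¹ * inr h⁻¹ := by
  rw [map_mul, inl_aut]
  group

open scoped Classical in
theorem tau_comm (hm : τ 1 = m) (hs : ∀ s, τ ⟨0, s⟩ = m * ee s) (hoff : ∀ w s, w ≠ 0 → τ ⟨w, s⟩ = 0)
    (x : Heis b) (h : H) :
    τ (x * act b hinv h x⁻¹) = if h • x.x = x.x then (m : ℂ) else 0 := by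
  split_ifs with hx
  · have h1 : x * act b hinv h x⁻¹ = 1 := by
      refine Heis.ext ?_ ?_
      · simp [hx]
      · simp [hx]
    rw [h1, hm]
  · have h1 : x * act b hinv h x⁻¹ = ⟨x.x - h • x.x, (x * act b hinv h x⁻¹).s⟩ := by
      refine Heis.ext ?_ rfl
      simp [sub_eq_add_neg]
    rw [h1]
    exact hoff _ _ (fun h0 => hx (sub_eq_zero.mp h0).symm)

/-- The norm of the value on `H`. -/
theorem norm_formula [Finite H] [Finite W] {n : ℕ}
    (ρ : Representation ℂ (Heis b ⋊[act b hinv] H) (Fin n → ℂ)) (hτ : IsIrrCharacter (Heis b) τ)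
    (hχ : ∀ x, ρ.character (inl x) = τ x) (hm : τ 1 = m) (hm2 : m ^ 2 = Nat.card W)
    (hs : ∀ s, τ ⟨0, s⟩ = m * ee s) (hoff : ∀ w s, w ≠ 0 → τ ⟨w, s⟩ = 0) (h : H) :
    ρ.character (inr h) * ρ.character (inr h⁻¹) = fx W h := by
  classical
  have hp : p.Prime := Fact.out
  letI := Fintype.ofFinite W
  haveI hirr := rep_inl_irreducible hinv ρ hτ hχ
  have hn := finrank_eq hinv ρ hχ hm
  subst hn
  have h1 := sum_conj_op_eq_smul (ρ.comp inl : Representation ℂ (Heis b) (Fin n → ℂ)) (ρ (inr h))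
  have h2 := congrArg (fun T => LinearMap.trace ℂ _ (T * ρ (inr h⁻¹))) h1
  simp only [Finset.sum_mul, map_sum, smul_mul_assoc, one_mul, map_smul, smul_eq_mul] at h2
  have h3 : ∀ x : Heis b, LinearMap.trace ℂ (Fin n → ℂ)
      ((ρ.comp inl) x * ρ (inr h) * (ρ.comp inl) x⁻¹ * ρ (inr h⁻¹)) =
      if h • x.x = x.x then (n : ℂ) else 0 := by
    intro x
    rw [← tau_comm hinv hm hs hoff x h, ← hχ, inl_mul_act]
    change _ = LinearMap.trace ℂ _ (ρ (inl x * inr h * inl x⁻¹ * inr h⁻¹))
    rw [map_mul ρ, map_mul ρ, map_mul ρ]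
    rfl
  simp only [h3] at h2
  rw [sum_heis] at h2
  have h4 : ∑ w : W, ∑ _s : ZMod p, (if h • w = w then (n : ℂ) else 0) = (fx W h : ℂ) * p * n := by
    simp only [Finset.sum_const, Finset.card_univ, ZMod.card, nsmul_eq_mul]
    rw [← Finset.mul_sum, Finset.sum_ite, Finset.sum_const_zero, add_zero, Finset.sum_const, nsmul_eq_mul,
      fx, Nat.card_eq_fintype_card (α := {w : W // h • w = w}), Fintype.card_subtype]
    ring
  rw [h4, card_heis] at h2
  have h5 : LinearMap.trace ℂ (Fin n → ℂ) (ρ (inr h)) = ρ.character (inr h) := rfl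
  have h6 : LinearMap.trace ℂ (Fin n → ℂ) (ρ (inr h⁻¹)) = ρ.character (inr h⁻¹) := rfl
  rw [h5, h6, Module.finrank_fin_fun, ← hm2] at h2
  have hp0 : (p : ℂ) ≠ 0 := Nat.cast_ne_zero.mpr hp.ne_zero
  have hn0 : (n : ℂ) ≠ 0 := by
    intro h0
    have h7 : n = 0 := by exact_mod_cast h0
    have h8 : Nat.card W = 0 := by rw [← hm2, h7]; simp
    exact Nat.card_pos.ne' h8
  push_cast at h2
  field_simp at h2
  linear_combination -h2

/-- The form restricted to a subgroup. -/
def resForm (b : W →+ W →+ ZMod p) (K : AddSubgroup W) : K →+ K →+ ZMod p :=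
  (b.comp K.subtype).compl₂ K.subtype

theorem resForm_apply (b : W →+ W →+ ZMod p) (K : AddSubgroup W) (k k' : K) :
    resForm b K k k' = b k k' := rfl

/-- The map of Heisenberg groups. -/
def heisMap (b : W →+ W →+ ZMod p) (K : AddSubgroup W) : Heis (resForm b K) →* Heis b where
  toFun c := ⟨c.x, c.s⟩
  map_one' := rfl
  map_mul' _ _ := rfl

theorem pow_smul_fix {h : H} {y : W} (hy : h • y = y) (i : ℕ) : h ^ i • y = y := by
  induction i with
  | zero => simp
  | succ i ih => rw [pow_succ, mul_smul, hy, ih]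

include hinv in
/-- Nondegeneracy on the fixed points, by averaging. -/
theorem nondeg_fix [Finite H] (hcop : ¬ p ∣ Nat.card H) (hnd : ∀ y, y ≠ 0 → ∃ x, b x y - b y x ≠ 0)
    (h : H) (y : fixSub W h) (hy : y ≠ 0) :
    ∃ x : fixSub W h, resForm b _ x y - resForm b _ y x ≠ 0 := by
  have hy0 : (y : W) ≠ 0 := fun h0 => hy (Subtype.ext h0)
  have hyf : h • (y : W) = y := y.2
  obtain ⟨x₀, hx₀⟩ := hnd y hy0
  set n := orderOf h with hn
  let x : W := ∑ i ∈ Finset.range n, h ^ i • x₀
  have hx : h • x = x := by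
    have h1 : h • x = ∑ i ∈ Finset.range n, h ^ (i + 1) • x₀ := by
      simp only [x, Finset.smul_sum, ← mul_smul, pow_succ']
    have h2 := Finset.sum_range_succ' (fun i => h ^ i • x₀) n
    have h3 := Finset.sum_range_succ (fun i => h ^ i • x₀) n
    rw [h3] at h2
    simp only [pow_zero, one_smul] at h2
    rw [hn, pow_orderOf_eq_one, one_smul] at h2
    rw [h1]
    exact (add_right_cancel h2).symm
  refine ⟨⟨x, hx⟩, ?_⟩
  rw [resForm_apply, resForm_apply]
  have h4 : b x y - b y x = (n : ZMod p) * (b x₀ y - b y x₀) := by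
    have h5 : ∀ i, b (h ^ i • x₀) y - b y (h ^ i • x₀) = b x₀ y - b y x₀ := by
      intro i
      have hinvi : ∀ a c : W, b (h ^ i • a) (h ^ i • c) = b a c := by
        induction i with
        | zero => simp
        | succ i ih =>
          intro a c
          rw [pow_succ, mul_smul, mul_smul, ih, hinv]
      have e1 := hinvi x₀ y
      have e2 := hinvi y x₀
      rw [pow_smul_fix hyf] at e1 e2
      rw [e1, e2]
    simp only [x, map_sum, AddMonoidHom.finset_sum_apply, ← Finset.sum_sub_distrib, h5]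
    simp
    ring
  rw [h4]
  refine mul_ne_zero ?_ hx₀
  intro h0
  rw [ZMod.natCast_eq_zero_iff] at h0
  exact hcop (h0.trans (orderOf_dvd_natCard h))

/-- Integrality. -/
theorem isIntegral_value [Finite H] [Finite W] (hcop : ¬ p ∣ Nat.card H)
    (hnd : ∀ y, y ≠ 0 → ∃ x, b x y - b y x ≠ 0) {n : ℕ}
    (ρ : Representation ℂ (Heis b ⋊[act b hinv] H) (Fin n → ℂ)) (hτ : IsIrrCharacter (Heis b) τ)
    (hχ : ∀ x, ρ.character (inl x) = τ x)
    (hs : ∀ s, τ ⟨0, s⟩ = m * ee s) (hoff : ∀ w s, w ≠ 0 → τ ⟨w, s⟩ = 0) (h : H) :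
    ∃ f : ℕ, f ^ 2 = fx W h ∧ IsIntegral ℤ (ρ.character (inr h) / f) := by
  classical
  have hp : p.Prime := Fact.out
  set K := fixSub W h with hK
  obtain ⟨τK, f, hτK, hf, hf2, hsK, hoffK⟩ := exists_tau (b := resForm b K) (fun y hy => nondeg_fix hinv hcop hnd h y hy)
  refine ⟨f, hf2, ?_⟩
  letI := Fintype.ofFinite W
  letI : Fintype K := Fintype.ofFinite K
  let ι : Heis (resForm b K) →* (Heis b ⋊[act b hinv] H) := (inl).comp (heisMap b K)
  have hcomm : ∀ c, (inr h : Heis b ⋊[act b hinv] H) * ι c = ι c * inr h := by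
    intro c
    have h1 : act b hinv h (heisMap b K c) = heisMap b K c :=
      Heis.ext (c.x.2) rfl
    have h2 := inl_aut (φ := act b hinv) h (heisMap b K c)
    rw [h1] at h2
    have h3 : (ι c : Heis b ⋊[act b hinv] H) = inr h * ι c * inr h⁻¹ := h2
    calc (inr h : Heis b ⋊[act b hinv] H) * ι c = (inr h * ι c * inr h⁻¹) * inr h := by
          rw [map_inv]
          group
      _ = ι c * inr h := by rw [← h3]
  have hg := inAlgSpan_trace (ρ.comp ι : Representation ℂ (Heis (resForm b K)) (Fin n → ℂ)) (ρ (inr h))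
    (fun c => by
      change ρ (inr h) * ρ (ι c) = ρ (ι c) * ρ (inr h)
      rw [← map_mul, ← map_mul, hcomm])
    (isIntegral_of_hasEigenvalue_of_pow_eq_one _ (n := orderOf (inr h : Heis b ⋊[act b hinv] H))
      (orderOf_pos _).ne' (by
        rw [← map_pow, pow_orderOf_eq_one, map_one]))
  have hint := hg.isIntegral_classInner (isCharacter_of_isIrrCharacter hτK)
  have hval : classInner (fun c => LinearMap.trace ℂ (Fin n → ℂ)
      (ρ (inr h) ∘ₗ (ρ.comp ι : Representation ℂ (Heis (resForm b K)) (Fin n → ℂ)) c)) τK =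
      ρ.character (inr h) / f := by
    rw [classInner_def, sum_heis, Finset.sum_eq_single (0 : K)]
    · have h1 : ∀ s : ZMod p, LinearMap.trace ℂ (Fin n → ℂ)
          (ρ (inr h) ∘ₗ (ρ.comp ι : Representation ℂ (Heis (resForm b K)) (Fin n → ℂ)) ⟨0, s⟩) *
            conj (τK ⟨0, s⟩) = ρ.character (inr h) * f := by
        intro s
        have h2 : ι ⟨0, s⟩ = inl (zz s) := rfl
        have h3 : (ρ.comp ι : Representation ℂ (Heis (resForm b K)) (Fin n → ℂ)) ⟨0, s⟩ =
            ee s • (1 : Module.End ℂ (Fin n → ℂ)) := by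
          change ρ (ι ⟨0, s⟩) = _
          rw [h2]
          exact rep_zz_eq hinv ρ hτ hχ hs hoff s
        rw [h3, hsK, map_mul, Complex.conj_natCast]
        have h4 : ρ (inr h) ∘ₗ (ee s • (1 : Module.End ℂ (Fin n → ℂ))) = ee s • ρ (inr h) := by
          ext v
          simp
        rw [h4, map_smul, smul_eq_mul]
        have h5 := ee_mul_conj s
        change ee s * ρ.character (inr h) * _ = _
        linear_combination ρ.character (inr h) * (f : ℂ) * h5
      simp only [h1, Finset.sum_const, Finset.card_univ, ZMod.card, nsmul_eq_mul]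
      rw [card_heis]
      have hf2' : Nat.card K = f ^ 2 := by
        rw [hf2]
      rw [hf2']
      have hp0 : (p : ℂ) ≠ 0 := Nat.cast_ne_zero.mpr hp.ne_zero
      have hf0 : (f : ℂ) ≠ 0 := by
        intro h0
        have h7 : f = 0 := by exact_mod_cast h0
        have h8 : Nat.card K = 0 := by rw [hf2', h7]; simp
        exact Nat.card_pos.ne' h8
      push_cast
      field_simp
    · intro w _ hw
      refine Finset.sum_eq_zero fun s _ => ?_
      rw [hoffK w s hw, map_zero, mul_zero]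
    · intro h0
      exact absurd (Finset.mem_univ _) h0
  rw [← hval]
  exact hint

end Ext

section Final

open SemidirectProduct

variable {H : Type u} [Group H] {W : Type v} [AddCommGroup W] [DistribMulAction H W]
variable {p : ℕ} [Fact p.Prime]

theorem fx_inv (h : H) : fx W h⁻¹ = fx W h := by
  refine Nat.card_congr (Equiv.subtypeEquivRight fun w => ?_)
  constructor
  · intro h1
    rw [← h1, smul_inv_smul, h1]
  · intro h1
    rw [← h1, inv_smul_smul, h1]

/-- The Weil piece. -/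
theorem exists_piece [Finite H] [Finite W] (hcop : ¬ p ∣ Nat.card H) (hWp : ∀ w : W, p • w = 0)
    (b : W →+ W →+ ZMod p) (hinv : ∀ (h : H) x y, b (h • x) (h • y) = b x y)
    (hnd : ∀ y, y ≠ 0 → ∃ x, b x y - b y x ≠ 0) :
    ∃ lam : H → ℂ, IsPiece W p lam := by
  classical
  have hp : p.Prime := Fact.out
  obtain ⟨τ, m, hτ, hm, hm2, hs, hoff⟩ := exists_tau hnd
  obtain ⟨χ, ⟨n, ρ, hρ, rfl⟩, hχ⟩ := exists_ext b hcop hWp hinv hτ hm hm2 hs hoff
  have hn := finrank_eq hinv ρ hχ hm
  subst hn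
  let ψ : H → ℂ := fun h => ρ.character (inr h)
  let lam : H → ℂ := fun h => (n : ℂ) * ψ h⁻¹ / fx W h
  have hfx0 : ∀ h : H, (fx W h : ℂ) ≠ 0 := fun h => Nat.cast_ne_zero.mpr (fx_pos W h).ne'
  have hW0 : (Nat.card W : ℂ) ≠ 0 := Nat.cast_ne_zero.mpr Nat.card_pos.ne'
  have hn2 : ((n : ℂ)) ^ 2 = Nat.card W := by exact_mod_cast hm2
  have hψ1 : ψ 1 = n := by
    simp only [ψ, map_one, Representation.char_one, Module.finrank_fin_fun]
  -- the integrality data
  have hdata : ∀ h : H, ∃ f t : ℕ, f ^ 2 = fx W h ∧ n = f * t ∧ t ^ 2 = (fixSub W h).index ∧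
      IsIntegral ℤ (ψ h⁻¹ / f) ∧ lam h = t * (ψ h⁻¹ / f) := by
    intro h
    obtain ⟨f, hf, hfi⟩ := isIntegral_value hinv hcop hnd ρ hτ hχ hs hoff h⁻¹
    rw [fx_inv] at hf
    have hcard : Nat.card W = fx W h * (fixSub W h).index := by
      rw [fx_eq_card]
      exact (AddSubgroup.card_mul_index (fixSub W h)).symm
    have hdvd : f ∣ n := by
      rw [← Nat.pow_dvd_pow_iff two_ne_zero, hm2, hcard, hf]
      exact dvd_mul_right _ _
    obtain ⟨t, ht⟩ := hdvd
    have hfpos : 0 < f := by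
      rcases Nat.eq_zero_or_pos f with h0 | h0
      · have := fx_pos W h
        rw [← hf, h0] at this
        simp at this
      · exact h0
    refine ⟨f, t, hf, ht, ?_, hfi, ?_⟩
    · have h1 : f ^ 2 * t ^ 2 = f ^ 2 * (fixSub W h).index := by
        rw [← mul_pow, ← ht, hm2, hcard, hf]
      exact Nat.eq_of_mul_eq_mul_left (pow_pos hfpos 2) h1
    · have hf0 : (f : ℂ) ≠ 0 := Nat.cast_ne_zero.mpr hfpos.ne'
      simp only [lam]
      rw [← hf, ht]
      push_cast
      field_simp
  refine ⟨lam, ?_⟩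
  refine
    { one := ?_
      integral := ?_
      small := ?_
      normSq := ?_
      span := ?_
      cyc := ?_ }
  · simp only [lam, inv_one, hψ1, fx_one]
    rw [← hn2]
    have h0 : (n : ℂ) ≠ 0 := by
      intro h0
      rw [h0] at hn2
      apply hW0
      rw [← hn2]
      simp
    field_simp
  · intro h
    obtain ⟨f, t, -, -, -, hi, he⟩ := hdata h
    rw [he]
    have ht : IsIntegral ℤ (t : ℂ) := by
      exact_mod_cast (isIntegral_algebraMap (R := ℤ) (A := ℂ) (x := (t : ℤ)))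
    exact ht.mul hi
  · rintro h ⟨w, hw⟩
    obtain ⟨f, t, -, -, ht2, hi, he⟩ := hdata h
    rw [he]
    refine (isSmall_natCast_of_dvd ?_).mul_right hi
    have h1 : p ∣ (fixSub W h).index := by
      refine dvd_card_of_ne (p := p) (a := (QuotientAddGroup.mk w : W ⧸ fixSub W h)) ?_ ?_
      · intro a
        induction a using QuotientAddGroup.induction_on with
        | H z =>
          rw [← QuotientAddGroup.mk_nsmul, hWp]
          rfl
      · intro h0
        exact hw ((QuotientAddGroup.eq_zero_iff w).mp h0)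
    rw [← ht2] at h1
    exact hp.dvd_of_dvd_pow h1
  · intro h
    have h1 := norm_formula hinv ρ hτ hχ hm hm2 hs hoff h
    have h2 : ρ.character (inr h) = conj (ρ.character (inr h⁻¹)) := by
      have := char_inv_eq_conj (G := Heis b ⋊[act b hinv] H) ⟨n, ρ, rfl⟩ (inr h⁻¹)
      rw [← this, ← map_inv, inv_inv]
    rw [h2, mul_comm, Complex.mul_conj, Complex.normSq_eq_norm_sq] at h1
    have h3 : ‖ψ h⁻¹‖ ^ 2 = (fx W h : ℝ) := by exact_mod_cast h1
    have hfxr : (fx W h : ℝ) ≠ 0 := Nat.cast_ne_zero.mpr (fx_pos W h).ne'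
    have h4 : ‖lam h‖ = (n : ℝ) * ‖ψ h⁻¹‖ / (fx W h : ℝ) := by
      simp only [lam, norm_div, norm_mul, Complex.norm_natCast]
    rw [h4, div_pow, mul_pow, h3]
    have h5 : (n : ℝ) ^ 2 = (Nat.card W : ℝ) := by exact_mod_cast hm2
    rw [h5]
    field_simp
  · have h1 : IsCharacter H (fun h => ψ h⁻¹) :=
      isCharacter_inv (isCharacter_comp inr ⟨n, ρ, rfl⟩)
    have hnI : IsIntegral ℤ (n : ℂ) := by
      exact_mod_cast (isIntegral_algebraMap (R := ℤ) (A := ℂ) (x := (n : ℤ)))
    refine (InAlgSpan.smul _ hnI _ (InAlgSpan.char _ h1)).congr fun h => ?_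
    simp only [lam]
    field_simp [hfx0 h]
  · have hN : Nat.card (Heis b ⋊[act b hinv] H) ≠ 0 := Nat.card_pos.ne'
    refine ⟨_, hN, fun h => ?_⟩
    have h1 : ψ h⁻¹ ∈ Kn (Nat.card (Heis b ⋊[act b hinv] H)) :=
      character_mem_Kn ρ hN pow_card_eq_one'
    have hc : ∀ k : ℕ, (k : ℂ) ∈ Kn (Nat.card (Heis b ⋊[act b hinv] H)) := fun k => by
      have h2 := (Kn (Nat.card (Heis b ⋊[act b hinv] H))).algebraMap_mem (k : ℚ)
      rwa [map_natCast] at h2
    exact div_mem (mul_mem (hc n) h1) (hc _)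

end Final

end Cfsg.Agent.Lib.Char.WeilPiece
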