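import Cfsg.Agent.Lib.CharZeros.Amgm
import Cfsg.Agent.Lib.Char.Degree
import Cfsg.Agent.Lib.Char.Zeros

/-!
# The zeros of an irreducible character: lower bound via the centre of the character
-/

set_option autoImplicit false

namespace Cfsg.Agent.Lib.Char.ZeroBound

open Cfsg Module
open Cfsg.Agent.Lib.CharZeros.Amgm

variable {G : Type*} [Group G] [Fintype G] [DecidableEq G]

lemma pow_scalar {V : Type*} [AddCommGroup V] [Module ℂ V] (ρ : Representation ℂ G V) {g : G} {ω : ℂ}
    (h : ρ g = ω • (LinearMap.id : V →ₗ[ℂ] V)) (k : ℕ) :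
    ρ (g ^ k) = ω ^ k • (LinearMap.id : V →ₗ[ℂ] V) := by
  induction k with
  | zero => simp; rfl
  | succ k ih =>
    rw [pow_succ, map_mul, ih, h]
    ext v
    simp [smul_smul, pow_succ, mul_comm]

lemma exists_pow_pow_eq (g : G) {k : ℕ} (hk : k.Coprime (Nat.card G)) : ∃ m : ℕ, (g ^ k) ^ m = g := by
  by_cases h1 : 1 < Nat.card G
  · obtain ⟨m, hm⟩ := Nat.exists_mul_mod_eq_one_of_coprime hk h1
    refine ⟨m, ?_⟩
    rw [← pow_mul, ← pow_mod_natCard, hm.2]
    simp
  · have : Nat.card G = 1 := by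
      have := Nat.card_pos (α := G)
      omega
    have hsub : Subsingleton G := (Nat.card_eq_one_iff_unique.mp this).1
    exact ⟨0, Subsingleton.elim _ _⟩

/-- Lower bound for the number of zeros and equality case. -/
theorem zeros_bound (χ : G → ℂ) (hχ : IsIrrCharacter G χ) :
    (charDegree χ ^ 2 - 1) * (Finset.univ.filter (fun g : G => ‖χ g‖ = (charDegree χ : ℝ))).card ≤
      (Finset.univ.filter (fun g : G => χ g = 0)).card ∧
    ((∀ g : G, ‖χ g‖ = 0 ∨ ‖χ g‖ = 1 ∨ ‖χ g‖ = (charDegree χ : ℝ)) →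
      (charDegree χ ^ 2 - 1) * (Finset.univ.filter (fun g : G => ‖χ g‖ = (charDegree χ : ℝ))).card =
      (Finset.univ.filter (fun g : G => χ g = 0)).card) := by
  classical
  have hχ0 := hχ
  obtain ⟨n, ρ, hρ, rfl⟩ := hχ
  have hirr : ρ.IsIrreducible := hρ
  have hfd : (finrank ℂ (Fin n → ℂ)) = charDegree ρ.character :=
    (Cfsg.Agent.Lib.Char.Degree.charDegree_character ρ).symm
  have hdpos : 0 < charDegree ρ.character := Cfsg.Agent.Lib.Char.Degree.charDegree_pos hχ0
  set d := charDegree ρ.character with hd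
  have hiff : ∀ g, ‖ρ.character g‖ = (d : ℝ) ↔ ∃ ω : ℂ, ρ g = ω • LinearMap.id := by
    intro g
    rw [← hfd]
    exact Cfsg.Agent.Lib.Char.Eigen.norm_character_eq_iff_scalar ρ g
  set Z := Finset.univ.filter (fun g : G => ‖ρ.character g‖ = (d : ℝ)) with hZ
  set O := Finset.univ.filter (fun g : G => ρ.character g = 0) with hO
  set A := Finset.univ.filter (fun g : G => ‖ρ.character g‖ ≠ (d : ℝ)) with hAdef
  have hA : ∀ k : ℕ, k.Coprime (Nat.card G) → ∀ g ∈ A, g ^ k ∈ A := by
    intro k hk g hg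
    rw [hAdef, Finset.mem_filter] at hg ⊢
    refine ⟨Finset.mem_univ _, fun hc => hg.2 ?_⟩
    obtain ⟨ω, hω⟩ := (hiff _).mp hc
    obtain ⟨m, hm⟩ := exists_pow_pow_eq g hk
    refine (hiff _).mpr ⟨ω ^ m, ?_⟩
    rw [← pow_scalar ρ hω m, hm]
  have hamgm := card_filter_le_sum_norm_sq ⟨n, ρ, rfl⟩ A hA
  have hsum : ∑ g : G, ‖ρ.character g‖ ^ 2 = (Nat.card G : ℝ) :=
    Cfsg.Agent.Lib.Char.Zeros.sum_norm_sq_character ρ
  have hsplit : ∑ g : G, ‖ρ.character g‖ ^ 2 = (d : ℝ) ^ 2 * Z.card + ∑ g ∈ A, ‖ρ.character g‖ ^ 2 := by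
    rw [← Finset.sum_filter_add_sum_filter_not Finset.univ (fun g : G => ‖ρ.character g‖ = (d : ℝ))]
    congr 1
    rw [Finset.sum_congr rfl (g := fun _ => (d : ℝ) ^ 2)]
    · simp [mul_comm, hZ]
    · intro g hg
      rw [(Finset.mem_filter.mp hg).2]
  have hcard : (Nat.card G : ℝ) = Z.card + O.card + (A.filter (fun g => ρ.character g ≠ 0)).card := by
    have hdis1 : Disjoint Z O := by
      rw [Finset.disjoint_left]
      intro g hg hg'
      have h1 := (Finset.mem_filter.mp hg).2
      have h2 := (Finset.mem_filter.mp hg').2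
      rw [h2, norm_zero] at h1
      have : (d : ℝ) ≠ 0 := by exact_mod_cast hdpos.ne'
      exact this h1.symm
    have hdis2 : Disjoint (Z ∪ O) (A.filter (fun g => ρ.character g ≠ 0)) := by
      rw [Finset.disjoint_left]
      intro g hg hg'
      have h3 := Finset.mem_filter.mp hg'
      rcases Finset.mem_union.mp hg with h | h
      · exact (Finset.mem_filter.mp h3.1).2 (Finset.mem_filter.mp h).2
      · exact h3.2 (Finset.mem_filter.mp h).2
    have hu : (Z ∪ O) ∪ (A.filter (fun g => ρ.character g ≠ 0)) = Finset.univ := by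
      ext g
      simp only [Finset.mem_union, Finset.mem_filter, Finset.mem_univ, true_and, hZ, hO, hAdef, iff_true]
      by_cases h1 : ‖ρ.character g‖ = (d : ℝ)
      · exact Or.inl (Or.inl h1)
      · by_cases h2 : ρ.character g = 0
        · exact Or.inl (Or.inr h2)
        · exact Or.inr ⟨h1, h2⟩
    have := Finset.card_union_of_disjoint hdis2
    rw [Finset.card_union_of_disjoint hdis1, hu, Finset.card_univ, ← Nat.card_eq_fintype_card] at this
    rw [this]
    push_cast
    ring
  have hd1 : (1:ℝ) ≤ (d : ℝ) ^ 2 := by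
    have : (1:ℝ) ≤ d := by exact_mod_cast hdpos
    nlinarith
  have hcast : (((d ^ 2 - 1 : ℕ) * Z.card : ℕ) : ℝ) = ((d : ℝ) ^ 2 - 1) * Z.card := by
    have h1 : 1 ≤ d ^ 2 := Nat.one_le_pow _ _ hdpos
    push_cast [Nat.cast_sub h1]
    ring
  constructor
  · rw [← Nat.cast_le (α := ℝ), hcast]
    linarith
  · intro hall
    rw [← Nat.cast_inj (R := ℝ), hcast]
    have heq : ∑ g ∈ A, ‖ρ.character g‖ ^ 2 = ((A.filter (fun g => ρ.character g ≠ 0)).card : ℝ) := by
      rw [Finset.card_filter]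
      push_cast
      refine Finset.sum_congr rfl fun g hg => ?_
      have hne := (Finset.mem_filter.mp hg).2
      rcases hall g with h | h | h
      · have h0 : ρ.character g = 0 := norm_eq_zero.mp h
        simp [h0]
      · have h0 : ρ.character g ≠ 0 := by
          intro h'
          rw [h', norm_zero] at h
          exact zero_ne_one h
        simp [h, h0]
      · exact absurd h hne
    linarith

end Cfsg.Agent.Lib.Char.ZeroBound
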